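import Mathlib
import Cfsg.Agent.Lib.Helper77.MinMax
import Cfsg.Agent.Lib.Helper77.Degree
import Cfsg.Agent.Lib.Helper77.Osima
import Cfsg.Agent.Lib.Helper16.ClassSum

/-!
# Counting blocks against `p`-regular classes

A determinant argument over the local ring: if the block idempotents of a family of blocks pair
with the central characters of the family to the identity matrix modulo the local ideal, using only
classes from a conjugation-invariant set `S`, then the family has at most as many members as there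
are classes in `S`.  With the min-max theorem this bounds the number of blocks of defect `≥ d`
(resp. `= σ`) by the number of `p`-regular classes of defect `≥ d` (resp. `= σ`).
-/

set_option autoImplicit false

namespace Cfsg.Agent.Lib.Helper76

open Cfsg Cfsg.Agent.Lib.Helper16

section LocalDet

variable {M : Ideal Cfsg.AlgInt}

/-- The local ring at `M` as a subring of `ℂ`. -/
def localSubring (M : Ideal Cfsg.AlgInt) (hM : M.IsPrime) : Subring ℂ where
  carrier := {z | MemLocalRing M z}
  mul_mem' := fun ha hb => memLocalRing_mul hM ha hb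
  one_mem' := memLocalRing_one hM
  add_mem' := fun ha hb => memLocalRing_add hM ha hb
  zero_mem' := memLocalRing_zero hM
  neg_mem' := fun ha => memLocalRing_neg ha

/-- The local ideal as an ideal of the local subring. -/
def localIdeal (M : Ideal Cfsg.AlgInt) (hM : M.IsPrime) : Ideal (localSubring M hM) where
  carrier := {z | MemLocalIdeal M (z : ℂ)}
  add_mem' := fun ha hb => memLocalIdeal_add hM ha hb
  zero_mem' := memLocalIdeal_zero hM
  smul_mem' := fun c _ hx => memLocalIdeal_mul_left hM c.2 hx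

/-- A complex matrix congruent to the identity modulo the local ideal has nonzero determinant. -/
theorem det_ne_zero_of_congr_one {n : Type*} [Fintype n] [DecidableEq n] (hM : M.IsPrime)
    (P : Matrix n n ℂ) (hP : ∀ i j, MemLocalIdeal M (P i j - (1 : Matrix n n ℂ) i j)) :
    P.det ≠ 0 := by
  have hR : ∀ i j, MemLocalRing M (P i j) := by
    intro i j
    have h1 : MemLocalRing M ((1 : Matrix n n ℂ) i j) := by
      rw [Matrix.one_apply]
      split_ifs
      · exact memLocalRing_one hM
      · exact memLocalRing_zero hM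
    have := memLocalRing_add hM (MemLocalIdeal.memLocalRing (hP i j)) h1
    rwa [sub_add_cancel] at this
  let R := localSubring M hM
  let I := localIdeal M hM
  let P' : Matrix n n R := fun i j => ⟨P i j, hR i j⟩
  have hmap : (R.subtype).mapMatrix P' = P := by
    ext i j
    rfl
  have hdet : P.det = R.subtype P'.det := by
    rw [RingHom.map_det, hmap]
  have hq : (Ideal.Quotient.mk I).mapMatrix P' = 1 := by
    ext i j
    simp only [RingHom.mapMatrix_apply, Matrix.map_apply]
    have h1 : (1 : Matrix n n (R ⧸ I)) i j = Ideal.Quotient.mk I ((1 : Matrix n n R) i j) := by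
      rw [Matrix.one_apply, Matrix.one_apply]
      split_ifs <;> simp
    rw [h1, Ideal.Quotient.eq]
    show MemLocalIdeal M ((P' i j - (1 : Matrix n n R) i j : R) : ℂ)
    have h2 : ((P' i j - (1 : Matrix n n R) i j : R) : ℂ) = P i j - (1 : Matrix n n ℂ) i j := by
      rw [Matrix.one_apply, Matrix.one_apply]
      split_ifs <;> simp [P']
    rw [h2]
    exact hP i j
  intro h0
  have h3 : P'.det = 0 := by
    apply Subtype.ext
    rw [hdet] at h0
    exact h0
  have h4 : Ideal.Quotient.mk I P'.det = 1 := by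
    rw [RingHom.map_det, hq, Matrix.det_one]
  rw [h3, map_zero] at h4
  have h5 : (1 : R) ∈ I := by
    rw [← Ideal.Quotient.eq_zero_iff_mem]
    exact h4.symm
  exact not_memLocalIdeal_one hM h5

/-- A square matrix with nonzero determinant that factors through `ℂ ^ n` forces
`card m ≤ card n`. -/
theorem card_le_of_det_ne_zero {m n : Type*} [Fintype m] [Fintype n] [DecidableEq m]
    (E : Matrix m n ℂ) (Ω : Matrix n m ℂ) (h : (E * Ω).det ≠ 0) :
    Fintype.card m ≤ Fintype.card n := by
  have h1 : (E * Ω).rank = Fintype.card m :=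
    Matrix.rank_of_isUnit _ ((Matrix.isUnit_iff_isUnit_det _).mpr (IsUnit.mk0 _ h))
  have h2 : (E * Ω).rank ≤ E.rank := Matrix.rank_mul_le_left E Ω
  have h3 : E.rank ≤ Fintype.card n := Matrix.rank_le_card_width E
  omega

end LocalDet

section Count

variable {G : Type*} [Group G] [Fintype G] {M : Ideal Cfsg.AlgInt}

omit [Fintype G] in
/-- Two blocks sharing a character coincide. -/
theorem block_eq_of_mem (hM : M.IsPrime) {B B' : Set (Cfsg.IrrCharacter G)}
    (hB : Cfsg.IsPBlock M B) (hB' : Cfsg.IsPBlock M B') {χ : Cfsg.IrrCharacter G} (h : χ ∈ B)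
    (h' : χ ∈ B') : B = B' :=
  (IsPBlock.eq_blockOf hM hB h).trans (IsPBlock.eq_blockOf hM hB' h').symm

/-- The order of the centralizer is a class invariant. -/
theorem card_centralizer_conj (x g : G) :
    Nat.card (Subgroup.centralizer ({x * g * x⁻¹} : Set G)) =
      Nat.card (Subgroup.centralizer ({g} : Set G)) := by
  have h1 := (Subgroup.centralizer ({x * g * x⁻¹} : Set G)).card_mul_index
  have h2 := (Subgroup.centralizer ({g} : Set G)).card_mul_index
  rw [Cfsg.Agent.Lib.Helper77.index_centralizer_conj] at h1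
  have hpos : 0 < (Subgroup.centralizer ({g} : Set G)).index :=
    Nat.pos_of_ne_zero Subgroup.index_ne_zero_of_finite
  exact Nat.eq_of_mul_eq_mul_right hpos (h1.trans h2.symm)

/-- **Counting lemma.** A family of blocks whose idempotents and central characters pair to the
identity modulo the local ideal using only the classes in a conjugation-invariant set `S` has at
most as many members as there are classes in `S`. -/
theorem card_blocks_le_card_classes {p : ℕ} [Fact p.Prime] (hM : Cfsg.IsPModular p M)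
    (Pb : Set (Cfsg.IrrCharacter G) → Prop) (S : G → Prop)
    (hS : ∀ x g : G, S g → S (x * g * x⁻¹))
    (hkey : ∀ B B' : Set (Cfsg.IrrCharacter G), Cfsg.IsPBlock M B → Pb B → Cfsg.IsPBlock M B' →
      Pb B' → ∀ χ ∈ B', ∀ g : G, ¬ S g →
        MemLocalIdeal M (Cfsg.blockCoeff B g * Cfsg.centralChar (χ : G → ℂ) g)) :
    Nat.card {B : Set (Cfsg.IrrCharacter G) // Cfsg.IsPBlock M B ∧ Pb B} ≤
      Nat.card {C : ConjClasses G // ∃ g : G, ConjClasses.mk g = C ∧ S g} := by
  classical
  have hMp := isPrime_of_isPModular hM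
  have := Cfsg.Agent.Lib.Helper81.irr_finite G
  have hfin1 : Fintype {B : Set (Cfsg.IrrCharacter G) // Cfsg.IsPBlock M B ∧ Pb B} :=
    Fintype.ofFinite _
  have hfin2 : Fintype {C : ConjClasses G // ∃ g : G, ConjClasses.mk g = C ∧ S g} :=
    Fintype.ofFinite _
  rw [Nat.card_eq_fintype_card, Nat.card_eq_fintype_card]
  have hχ : ∀ B : {B : Set (Cfsg.IrrCharacter G) // Cfsg.IsPBlock M B ∧ Pb B},
      ∃ χ : Cfsg.IrrCharacter G, χ ∈ B.1 := fun B => IsPBlock.nonempty hMp B.2.1
  choose χ hχ using hχ
  have hg : ∀ C : {C : ConjClasses G // ∃ g : G, ConjClasses.mk g = C ∧ S g},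
      ∃ g : G, ConjClasses.mk g = C.1 ∧ S g := fun C => C.2
  choose r hr using hg
  let E : Matrix {B : Set (Cfsg.IrrCharacter G) // Cfsg.IsPBlock M B ∧ Pb B}
      {C : ConjClasses G // ∃ g : G, ConjClasses.mk g = C ∧ S g} ℂ :=
    fun B C => Cfsg.blockCoeff B.1 (r C)
  let Ω : Matrix {C : ConjClasses G // ∃ g : G, ConjClasses.mk g = C ∧ S g}
      {B : Set (Cfsg.IrrCharacter G) // Cfsg.IsPBlock M B ∧ Pb B} ℂ :=
    fun C B' => ∑ g : G, if ConjClasses.mk g = C.1 then
      (χ B' : G → ℂ) g / (χ B' : G → ℂ) 1 else 0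
  apply card_le_of_det_ne_zero E Ω
  apply det_ne_zero_of_congr_one hMp
  intro B B'
  have hcf := (Cfsg.Agent.Lib.Helper77.blockCoeff_spec hMp B.1 B.2.1).2.1
  have hom := (Cfsg.Agent.Lib.Helper77.blockCoeff_spec hMp B.1 B.2.1).2.2 (χ B')
  have hentry : (E * Ω) B B' = ∑ g : G, if S g then
      Cfsg.blockCoeff B.1 g * (χ B' : G → ℂ) g / (χ B' : G → ℂ) 1 else 0 := by
    rw [Matrix.mul_apply]
    simp only [E, Ω, Finset.mul_sum]
    rw [Finset.sum_comm]
    refine Finset.sum_congr rfl fun g _ => ?_
    by_cases hSg : S g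
    · rw [if_pos hSg]
      rw [Finset.sum_eq_single (⟨ConjClasses.mk g, g, rfl, hSg⟩ :
        {C : ConjClasses G // ∃ g : G, ConjClasses.mk g = C ∧ S g})]
      · rw [if_pos rfl]
        have h2 : Cfsg.blockCoeff B.1 (r ⟨ConjClasses.mk g, g, rfl, hSg⟩) =
            Cfsg.blockCoeff B.1 g := by
          have h1 := (hr ⟨ConjClasses.mk g, g, rfl, hSg⟩).1
          obtain ⟨c, hc⟩ := isConj_iff.mp (ConjClasses.mk_eq_mk_iff_isConj.mp h1)
          exact ((congrArg (Cfsg.blockCoeff B.1) hc).symm.trans (hcf _ c)).symm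
        rw [h2]
        ring
      · intro C _ hC
        rw [if_neg, mul_zero]
        intro h
        exact hC (Subtype.ext h.symm)
      · intro h
        exact absurd (Finset.mem_univ _) h
    · rw [if_neg hSg]
      apply Finset.sum_eq_zero
      intro C _
      rw [if_neg, mul_zero]
      intro h
      apply hSg
      have h1 := (hr C).1
      have h3 : IsConj (r C) g := ConjClasses.mk_eq_mk_iff_isConj.mp (h1.trans h.symm)
      obtain ⟨c, hc⟩ := isConj_iff.mp h3
      rw [← hc]
      exact hS c _ (hr C).2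
  rw [hentry]
  have hone : (1 : Matrix {B : Set (Cfsg.IrrCharacter G) // Cfsg.IsPBlock M B ∧ Pb B}
      {B : Set (Cfsg.IrrCharacter G) // Cfsg.IsPBlock M B ∧ Pb B} ℂ) B B' =
      ∑ g : G, Cfsg.blockCoeff B.1 g * (χ B' : G → ℂ) g / (χ B' : G → ℂ) 1 := by
    rw [Matrix.one_apply]
    have h4 : Cfsg.Agent.Lib.Helper77.omegaF (χ B' : G → ℂ) (Cfsg.blockCoeff B.1) =
        ∑ g : G, Cfsg.blockCoeff B.1 g * (χ B' : G → ℂ) g / (χ B' : G → ℂ) 1 := by
      unfold Cfsg.Agent.Lib.Helper77.omegaF
      rw [Finset.sum_div]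
    rw [← h4, hom]
    by_cases hBB : B = B'
    · rw [if_pos hBB, if_pos (hBB ▸ hχ B')]
    · rw [if_neg hBB, if_neg]
      intro hmem
      exact hBB (Subtype.ext (block_eq_of_mem hMp B.2.1 B'.2.1 hmem (hχ B')))
  rw [hone, ← Finset.sum_sub_distrib]
  refine sum_class_invariant_mem (MemLocalIdeal M) (memLocalIdeal_zero hMp)
    (fun a b ha hb => memLocalIdeal_add hMp ha hb)
    (fun g => (if S g then Cfsg.blockCoeff B.1 g * (χ B' : G → ℂ) g / (χ B' : G → ℂ) 1 else 0) -
      Cfsg.blockCoeff B.1 g * (χ B' : G → ℂ) g / (χ B' : G → ℂ) 1) ?_ ?_ Finset.univ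
    (fun _ _ _ => Finset.mem_univ _)
  · intro x h
    have hSiff : S (x * h * x⁻¹) ↔ S h := by
      refine ⟨fun hh => ?_, hS x h⟩
      have := hS x⁻¹ _ hh
      simpa [mul_assoc] using this
    simp only [hSiff, hcf h x, irrCharacter_conj_eq]
  · intro h
    by_cases hSh : S h
    · simp only [if_pos hSh, sub_self, mul_zero]
      exact memLocalIdeal_zero hMp
    · have e : ((Subgroup.centralizer ({h} : Set G)).index : ℂ) *
          ((if S h then Cfsg.blockCoeff B.1 h * (χ B' : G → ℂ) h / (χ B' : G → ℂ) 1 else 0) -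
            Cfsg.blockCoeff B.1 h * (χ B' : G → ℂ) h / (χ B' : G → ℂ) 1) =
          -(Cfsg.blockCoeff B.1 h * Cfsg.centralChar (χ B' : G → ℂ) h) := by
        rw [if_neg hSh]
        unfold Cfsg.centralChar
        ring
      rw [e]
      exact memLocalIdeal_neg (hkey B.1 B'.1 B.2.1 B.2.2 B'.2.1 B'.2.2 (χ B') (hχ B') h hSh)

/-- Min-max (b): the central character of a block vanishes modulo the local ideal on classes of
defect smaller than the defect of the block. -/
theorem memLocalIdeal_centralChar_of_defect_lt {p : ℕ} [Fact p.Prime] (hM : Cfsg.IsPModular p M)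
    (B : Set (Cfsg.IrrCharacter G)) (hB : Cfsg.IsPBlock M B) (χ : Cfsg.IrrCharacter G)
    (hχ : χ ∈ B) (g : G)
    (hlt : (Nat.card (Subgroup.centralizer ({g} : Set G))).factorization p <
      Cfsg.blockDefect p B) :
    MemLocalIdeal M (Cfsg.centralChar (χ : G → ℂ) g) := by
  by_contra hcon
  have hMp := isPrime_of_isPModular hM
  have hp : p.Prime := Fact.out
  obtain ⟨g₀, hg₀⟩ := Cfsg.Agent.Lib.Helper77.exists_isDefectClass hMp B hB
  obtain ⟨D⟩ : Nonempty (Sylow p (Subgroup.centralizer ({g₀} : Set G))) := inferInstance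
  obtain ⟨x, Q, hle⟩ := Cfsg.Agent.Lib.Helper77.minmax_b hM B hB g₀ hg₀ D g ⟨χ, hχ, hcon⟩
  have hD : Cfsg.IsDefectGroup p M B
      ((D : Subgroup (Subgroup.centralizer ({g₀} : Set G))).map
        (Subgroup.centralizer ({g₀} : Set G)).subtype) := ⟨g₀, hg₀, D, rfl⟩
  have hcD := Cfsg.Agent.Lib.Helper77.card_isDefectGroup hM B hB _ hD
  have h1 := Subgroup.card_dvd_of_le hle
  rw [Subgroup.card_map_of_injective (f := (MulAut.conj x).toMonoidHom) (MulAut.conj x).injective,
    hcD, Subgroup.card_map_of_injective (Subgroup.subtype_injective _), Q.card_eq_multiplicity]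
    at h1
  have := (Nat.pow_dvd_pow_iff_le_right hp.one_lt).mp h1
  omega

/-- Min-max (a): the idempotent coefficient of a block vanishes modulo the local ideal on classes
of defect larger than the defect of the block. -/
theorem memLocalIdeal_blockCoeff_of_defect_gt {p : ℕ} [Fact p.Prime] (hM : Cfsg.IsPModular p M)
    (B : Set (Cfsg.IrrCharacter G)) (hB : Cfsg.IsPBlock M B) (g : G)
    (hgt : Cfsg.blockDefect p B <
      (Nat.card (Subgroup.centralizer ({g} : Set G))).factorization p) :
    MemLocalIdeal M (Cfsg.blockCoeff B g) := by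
  by_contra hcon
  have hMp := isPrime_of_isPModular hM
  have hp : p.Prime := Fact.out
  obtain ⟨g₀, hg₀⟩ := Cfsg.Agent.Lib.Helper77.exists_isDefectClass hMp B hB
  obtain ⟨D⟩ : Nonempty (Sylow p (Subgroup.centralizer ({g₀} : Set G))) := inferInstance
  obtain ⟨x, Q, hle⟩ := Cfsg.Agent.Lib.Helper77.minmax_a hM B hB g₀ hg₀ D g hcon
  have hD : Cfsg.IsDefectGroup p M B
      ((D : Subgroup (Subgroup.centralizer ({g₀} : Set G))).map
        (Subgroup.centralizer ({g₀} : Set G)).subtype) := ⟨g₀, hg₀, D, rfl⟩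
  have hcD := Cfsg.Agent.Lib.Helper77.card_isDefectGroup hM B hB _ hD
  have h1 := Subgroup.card_dvd_of_le hle
  rw [Subgroup.card_map_of_injective (f := (MulAut.conj x).toMonoidHom) (MulAut.conj x).injective,
    hcD, Subgroup.card_map_of_injective (Subgroup.subtype_injective _), Q.card_eq_multiplicity]
    at h1
  have := (Nat.pow_dvd_pow_iff_le_right hp.one_lt).mp h1
  omega

end Count

end Cfsg.Agent.Lib.Helper76
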