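import Mathlib
import Cfsg.Agent.Lib.Helper78.HeightZero
import Cfsg.Agent.Lib.Helper75.Glaub2
import Cfsg.Agent.Lib.Helper26.VChar
import Cfsg.Agent.Lib.Helper75.CharInd
import Cfsg.Agent.Lib.Helper77.Degree
import Cfsg.Agent.Lib.Helper77.Defect
import Cfsg.Agent.S0917

/-!
# Sections: inner products of `c ↦ χ (x c)`, valuations, induced blocks

* `isClassFunction_section`: `c ↦ χ (x * c)` is a class function on `C_G(x)`.
* `classInner_section_eq`: its inner product with `ψ ∈ Irr(C_G(x))` is a root of unity times a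
  natural number (`x` a `p`-element); `memLocalRing_classInner_section`.
* `memLocalIdeal_irr_of_defect_lt`: a character of a block of defect `d` lies in the local ideal
  at every element whose centralizer has `p`-part larger than `p ^ d`.
* `induced_unique`: a block induces at most one block.
* `defect_le_of_induced`: `d(b) ≤ d(B)` when `b` induces `B`.
-/

set_option autoImplicit false

namespace Cfsg.Agent.Lib.Helper76

open Cfsg Cfsg.Agent.Lib.Helper16
open scoped ComplexConjugate

section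

variable {G : Type*} [Group G] [Finite G]

/-- `c ↦ χ (x * c)` is a class function on the centralizer of `x`. -/
theorem isClassFunction_section (χ : Cfsg.IrrCharacter G) (x : G) :
    Cfsg.IsClassFunction (Subgroup.centralizer ({x} : Set G))
      (fun c : Subgroup.centralizer ({x} : Set G) => (χ : G → ℂ) (x * (c : G))) := by
  intro c h
  show (χ : G → ℂ) (x * ((h * c * h⁻¹ : Subgroup.centralizer ({x} : Set G)) : G)) =
    (χ : G → ℂ) (x * (c : G))
  have hh : x * (h : G) = (h : G) * x := by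
    have := h.2
    rw [Subgroup.mem_centralizer_iff] at this
    exact this x rfl
  have e : x * ((h * c * h⁻¹ : Subgroup.centralizer ({x} : Set G)) : G) =
      (h : G) * (x * (c : G)) * (h : G)⁻¹ := by
    push_cast
    rw [← mul_assoc, ← mul_assoc, hh, ← mul_assoc]
  rw [e, Cfsg.Agent.Lib.Helper81.irr_conj_class χ _ _]

/-- The inner product of `c ↦ χ (x * c)` with an irreducible character of `C_G(x)` is a root of
unity times a natural number. -/
theorem classInner_section_eq {p : ℕ} (hp : p.Prime) (χ : Cfsg.IrrCharacter G) (x : G) (k : ℕ)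
    (hk : orderOf x = p ^ k) [Fintype (Subgroup.centralizer ({x} : Set G))]
    (ψ : Cfsg.IrrCharacter (Subgroup.centralizer ({x} : Set G))) :
    ∃ (ω : ℂ) (m : ℕ), ω ^ (p ^ k) = 1 ∧
      Cfsg.classInner (fun c : Subgroup.centralizer ({x} : Set G) => (χ : G → ℂ) (x * (c : G)))
        (ψ : Subgroup.centralizer ({x} : Set G) → ℂ) = ω * (m : ℂ) := by
  classical
  have := Cfsg.Agent.Lib.Helper81.irr_finite (Subgroup.centralizer ({x} : Set G))
  letI : Fintype (Cfsg.IrrCharacter (Subgroup.centralizer ({x} : Set G))) := Fintype.ofFinite _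
  have hxC : x ∈ Subgroup.centralizer ({x} : Set G) := by
    rw [Subgroup.mem_centralizer_iff]
    intro h hh
    rw [Set.mem_singleton_iff] at hh
    rw [hh]
  have hx'c : (⟨x, hxC⟩ : Subgroup.centralizer ({x} : Set G)) ∈
      Subgroup.center (Subgroup.centralizer ({x} : Set G)) := by
    rw [Subgroup.mem_center_iff]
    intro c
    apply Subtype.ext
    show (c : G) * x = x * (c : G)
    have := c.2
    rw [Subgroup.mem_centralizer_iff] at this
    exact (this x rfl).symm
  have hord : orderOf (⟨x, hxC⟩ : Subgroup.centralizer ({x} : Set G)) = p ^ k := by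
    rw [← hk, ← Subgroup.orderOf_coe]
  obtain ⟨ω, h1, h2⟩ := Cfsg.Agent.Lib.Helper75.central_scalar ψ.2 _ hx'c
  have hω1 : ω ^ (p ^ k) = 1 := by rw [← hord]; exact h1
  have hω2 : ∀ c : Subgroup.centralizer ({x} : Set G),
      (ψ : Subgroup.centralizer ({x} : Set G) → ℂ) (c * ⟨x, hxC⟩) =
        ω * (ψ : Subgroup.centralizer ({x} : Set G) → ℂ) c := by
    intro c
    have := h2 c 1
    rwa [pow_one, pow_one] at this
  have hωc : ω * conj ω = 1 := by
    have h1 : ‖ω‖ = 1 :=
      Complex.norm_eq_one_of_pow_eq_one hω1 (pow_pos hp.pos k).ne'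
    rw [Complex.mul_conj, Complex.normSq_eq_norm_sq, h1]
    simp
  obtain ⟨m, hm⟩ := Cfsg.Agent.Lib.Helper26.character_expansion
    (Cfsg.Agent.Lib.Helper75.isCharacter_res (Subgroup.centralizer ({x} : Set G))
      (Cfsg.Agent.Lib.Helper26.isCharacter_of_irr χ.2))
  refine ⟨ω, m ψ, hω1, ?_⟩
  have h1 : Cfsg.classInner (fun c : Subgroup.centralizer ({x} : Set G) => (χ : G → ℂ) (c : G))
      (ψ : Subgroup.centralizer ({x} : Set G) → ℂ) = (m ψ : ℂ) := by
    rw [hm]
    exact Cfsg.Agent.Lib.Helper26.classInner_expansion_irr _ ψ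
  rw [← h1]
  unfold Cfsg.classInner
  have hsum : ∑ c : Subgroup.centralizer ({x} : Set G), (χ : G → ℂ) (x * (c : G)) *
        conj ((ψ : Subgroup.centralizer ({x} : Set G) → ℂ) c) =
      ∑ c : Subgroup.centralizer ({x} : Set G), ω * ((χ : G → ℂ) (c : G) *
        conj ((ψ : Subgroup.centralizer ({x} : Set G) → ℂ) c)) := by
    refine Fintype.sum_equiv
      (Equiv.mulLeft (⟨x, hxC⟩ : Subgroup.centralizer ({x} : Set G)))
      (fun c : Subgroup.centralizer ({x} : Set G) => (χ : G → ℂ) (x * (c : G)) *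
        conj ((ψ : Subgroup.centralizer ({x} : Set G) → ℂ) c))
      (fun c : Subgroup.centralizer ({x} : Set G) => ω * ((χ : G → ℂ) (c : G) *
        conj ((ψ : Subgroup.centralizer ({x} : Set G) → ℂ) c)))
      (fun c => ?_)
    have e1 : (ψ : Subgroup.centralizer ({x} : Set G) → ℂ)
        ((⟨x, hxC⟩ : Subgroup.centralizer ({x} : Set G)) * c) =
        ω * (ψ : Subgroup.centralizer ({x} : Set G) → ℂ) c := by
      rw [← hω2 c, (Subgroup.mem_center_iff.1 hx'c c)]
    show (χ : G → ℂ) (x * (c : G)) * conj ((ψ : Subgroup.centralizer ({x} : Set G) → ℂ) c) =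
      ω * ((χ : G → ℂ) (x * (c : G)) *
        conj ((ψ : Subgroup.centralizer ({x} : Set G) → ℂ)
          ((⟨x, hxC⟩ : Subgroup.centralizer ({x} : Set G)) * c)))
    rw [e1, map_mul]
    linear_combination (-(χ : G → ℂ) (x * (c : G)) *
      conj ((ψ : Subgroup.centralizer ({x} : Set G) → ℂ) c)) * hωc
  beta_reduce
  rw [hsum, ← Finset.mul_sum]
  ring

/-- The inner product of `c ↦ χ (x * c)` with an irreducible character of `C_G(x)` is a local
integer. -/
theorem memLocalRing_classInner_section {p : ℕ} {M : Ideal Cfsg.AlgInt}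
    (hM : Cfsg.IsPModular p M) (χ : Cfsg.IrrCharacter G) (x : G) (k : ℕ)
    (hk : orderOf x = p ^ k) [Fintype (Subgroup.centralizer ({x} : Set G))]
    (ψ : Cfsg.IrrCharacter (Subgroup.centralizer ({x} : Set G))) :
    Cfsg.MemLocalRing M (Cfsg.classInner
      (fun c : Subgroup.centralizer ({x} : Set G) => (χ : G → ℂ) (x * (c : G)))
      (ψ : Subgroup.centralizer ({x} : Set G) → ℂ)) := by
  have hP := isPrime_of_isPModular hM
  obtain ⟨ω, m, hω, h⟩ := classInner_section_eq hM.1 χ x k hk ψ
  rw [h]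
  have hint : IsIntegral ℤ ω := by
    refine IsIntegral.of_pow (pow_pos hM.1.pos k) ?_
    rw [hω]
    exact isIntegral_one
  exact memLocalRing_mul hP (memLocalRing_of_isIntegral hP hint) (memLocalRing_natCast hP m)

end

section

variable {K : Type*} [Group K] [Fintype K]

/-- A character in a block of defect `d` lies in the local ideal at every element whose
centralizer has order divisible by `p ^ (d + 1)`. -/
theorem memLocalIdeal_irr_of_defect_lt {p : ℕ} [Fact p.Prime] {M : Ideal Cfsg.AlgInt}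
    (hM : Cfsg.IsPModular p M) (b : Set (Cfsg.IrrCharacter K)) (θ : Cfsg.IrrCharacter K)
    (hθ : θ ∈ b) (g : K)
    (hg : Cfsg.blockDefect p b <
      (Nat.card (Subgroup.centralizer ({g} : Set K))).factorization p) :
    Cfsg.MemLocalIdeal M ((θ : K → ℂ) g) := by
  classical
  have hP := isPrime_of_isPModular hM
  have hp : p.Prime := Fact.out
  obtain ⟨h1, hpos, hdvd⟩ := Cfsg.Agent.Lib.Helper79.irr_charDegree θ.2
  have hω := memLocalRing_centralChar hP θ g
  set I := (Subgroup.centralizer ({g} : Set K)).index with hI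
  have hI0 : I ≠ 0 := Subgroup.index_ne_zero_of_finite
  have hidx : Nat.card (Subgroup.centralizer ({g} : Set K)) * I = Nat.card K :=
    Subgroup.card_mul_index _
  have hfac : (Nat.card K).factorization p =
      (Nat.card (Subgroup.centralizer ({g} : Set K))).factorization p + I.factorization p := by
    rw [← hidx, Nat.factorization_mul Nat.card_pos.ne' hI0]
    rfl
  have hle : sInf ((fun χ : Cfsg.IrrCharacter K =>
      (Cfsg.charDegree (χ : K → ℂ)).factorization p) '' b) ≤
      (Cfsg.charDegree (θ : K → ℂ)).factorization p := Nat.sInf_le ⟨θ, hθ, rfl⟩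
  have hd : (Nat.card K).factorization p - sInf ((fun χ : Cfsg.IrrCharacter K =>
      (Cfsg.charDegree (χ : K → ℂ)).factorization p) '' b) <
      (Nat.card (Subgroup.centralizer ({g} : Set K))).factorization p := hg
  have hlt : I.factorization p + 1 ≤ (Cfsg.charDegree (θ : K → ℂ)).factorization p := by
    omega
  obtain ⟨t, ht⟩ : p ^ (I.factorization p + 1) ∣ Cfsg.charDegree (θ : K → ℂ) :=
    (Nat.Prime.pow_dvd_iff_le_factorization hp hpos.ne').mpr hlt
  have hIsplit : p ^ I.factorization p * (I / p ^ I.factorization p) = I :=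
    Nat.ordProj_mul_ordCompl_eq_self I p
  have hnd : ¬ p ∣ I / p ^ I.factorization p := Nat.not_dvd_ordCompl hp hI0
  apply memLocalIdeal_of_natCast_mul hM hnd
  have hd0 : (Cfsg.charDegree (θ : K → ℂ) : ℂ) ≠ 0 := by exact_mod_cast hpos.ne'
  have hp0 : ((p : ℂ)) ^ I.factorization p ≠ 0 := pow_ne_zero _ (by exact_mod_cast hp.ne_zero)
  have hcc : Cfsg.centralChar (θ : K → ℂ) g * (Cfsg.charDegree (θ : K → ℂ) : ℂ) =
      (I : ℂ) * (θ : K → ℂ) g := by
    unfold Cfsg.centralChar
    rw [h1, ← hI]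
    field_simp
  have hIc : (I : ℂ) = (p : ℂ) ^ I.factorization p * ((I / p ^ I.factorization p : ℕ) : ℂ) := by
    rw [← Nat.cast_pow, ← Nat.cast_mul, hIsplit]
  have htc : (Cfsg.charDegree (θ : K → ℂ) : ℂ) =
      (p : ℂ) ^ I.factorization p * ((p : ℂ) * (t : ℂ)) := by
    rw [ht]; push_cast; ring
  have key : ((I / p ^ I.factorization p : ℕ) : ℂ) * (θ : K → ℂ) g =
      (p : ℂ) * ((t : ℂ) * Cfsg.centralChar (θ : K → ℂ) g) := by
    have h3 : (p : ℂ) ^ I.factorization p * (((I / p ^ I.factorization p : ℕ) : ℂ) *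
        (θ : K → ℂ) g) = (p : ℂ) ^ I.factorization p *
        ((p : ℂ) * ((t : ℂ) * Cfsg.centralChar (θ : K → ℂ) g)) := by
      rw [← mul_assoc, ← hIc, ← hcc, htc]
      ring
    exact mul_left_cancel₀ hp0 h3
  rw [key]
  have hpI : Cfsg.MemLocalIdeal M ((p : ℂ)) := (memLocalIdeal_natCast_iff hM p).mpr dvd_rfl
  exact memLocalIdeal_mul_right hP hpI (memLocalRing_mul hP (memLocalRing_natCast hP t) hω)

end

section

variable {G : Type*} [Group G] [Finite G]

/-- A block of a subgroup induces at most one block. -/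
theorem induced_unique {M : Ideal Cfsg.AlgInt} (hP : M.IsPrime) {H : Subgroup G}
    {b : Set (Cfsg.IrrCharacter H)} {B₁ B₂ : Set (Cfsg.IrrCharacter G)}
    (h1 : Cfsg.IsInducedBlock M H b B₁) (h2 : Cfsg.IsInducedBlock M H b B₂) : B₁ = B₂ := by
  obtain ⟨ξ, hξ⟩ := IsPBlock.nonempty hP h1.1
  obtain ⟨χ₁, hχ₁⟩ := IsPBlock.nonempty hP h1.2.1
  obtain ⟨χ₂, hχ₂⟩ := IsPBlock.nonempty hP h2.2.1
  have hsame : Cfsg.SameBlock M (χ₁ : G → ℂ) (χ₂ : G → ℂ) := by
    intro g
    have e1 := h1.2.2 ξ hξ χ₁ hχ₁ g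
    have e2 := h2.2.2 ξ hξ χ₂ hχ₂ g
    have := memLocalIdeal_sub hP e2 e1
    rwa [sub_sub_sub_cancel_left] at this
  have hB₁ := IsPBlock.eq_blockOf hP h1.2.1 hχ₁
  have hmem : χ₂ ∈ B₁ := by rw [hB₁]; exact hsame
  rw [IsPBlock.eq_blockOf hP h1.2.1 hmem, ← IsPBlock.eq_blockOf hP h2.2.1 hχ₂]

/-- The defect of a block is at most the defect of the block it induces. -/
theorem defect_le_of_induced {p : ℕ} [Fact p.Prime] {M : Ideal Cfsg.AlgInt}
    (hM : Cfsg.IsPModular p M) {H : Subgroup G} {b : Set (Cfsg.IrrCharacter H)}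
    {B : Set (Cfsg.IrrCharacter G)} (hind : Cfsg.IsInducedBlock M H b B) :
    Cfsg.blockDefect p b ≤ Cfsg.blockDefect p B := by
  classical
  letI : Fintype G := Fintype.ofFinite G
  letI : Fintype H := Fintype.ofFinite H
  have hP := isPrime_of_isPModular hM
  have hp : p.Prime := Fact.out
  obtain ⟨Db, hDb⟩ := Cfsg.Agent.Lib.Helper77.exists_isDefectGroup p hP b hind.1
  obtain ⟨E, hE, hDE⟩ := Cfsg.Agent.S0917.result p M hM H b hind.1 B hind.2.1 hind Db hDb
  have hcardE := Cfsg.Agent.Lib.Helper77.card_isDefectGroup hM B hind.2.1 E hE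
  have hcardDb := Cfsg.Agent.Lib.Helper77.card_isDefectGroup hM b hind.1 Db hDb
  have h1 : Nat.card (Db.map H.subtype) ≤ Nat.card E := Subgroup.card_le_of_le hDE
  rw [Subgroup.card_map_of_injective (Subgroup.subtype_injective _), hcardDb, hcardE] at h1
  exact (Nat.pow_le_pow_iff_right hp.one_lt).mp h1

end

end Cfsg.Agent.Lib.Helper76
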