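import Mathlib
import Cfsg.Prelude.Def_Blocks
import Cfsg.Agent.Lib.Helper78.SecondMain
import Cfsg.Agent.Lib.Helper78.SecondMainChar
import Cfsg.Agent.Lib.Helper78.BlockOrth
import Cfsg.Agent.Lib.Helper81.CharCore
import Cfsg.Agent.Lib.Helper26.VChar
import Cfsg.Agent.S4667

/-!
# Column orthogonality on a `p`-section and block parts on `p`-regular elements
-/

set_option autoImplicit false

namespace Cfsg.Agent.Lib.Helper76

open Cfsg Cfsg.Agent.Lib.Helper16 Cfsg.Agent.Lib.Helper78 Cfsg.Agent.Lib.Helper81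
open scoped ComplexConjugate

section ColOrth

variable {G : Type*} [Group G] [Fintype G] [Fintype (Cfsg.IrrCharacter G)]

/-- **Column orthogonality on the `u`-section.** For a `p`-element `u` with centralizer `C` and
`p`-regular `h, h' ∈ C`, the column sum over `Irr(G)` at `u h`, `u⁻¹ h'` equals the column sum
over `Irr(C)` at `h`, `h'`. -/
theorem col_orth_section {p : ℕ} (hp : p.Prime) (u : G) (hu : ∃ k : ℕ, orderOf u = p ^ k)
    (C : Subgroup G) [Fintype C] [Fintype (Cfsg.IrrCharacter C)]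
    (hC : ∀ g : G, g ∈ C ↔ g * u = u * g) (h h' : C)
    (hh : ¬ p ∣ orderOf h) (hh' : ¬ p ∣ orderOf h') :
    ∑ χ : Cfsg.IrrCharacter G, (χ : G → ℂ) (u * h) * (χ : G → ℂ) (u⁻¹ * h') =
      ∑ ψ : Cfsg.IrrCharacter C, (ψ : C → ℂ) h * (ψ : C → ℂ) h' := by
  have hcu : ∀ c : C, (c : G) * u = u * (c : G) := fun c => (hC c).1 c.2
  have e1 : u⁻¹ * (h' : G) = ((h' : G)⁻¹ * u)⁻¹ := by group
  have e2 : h' = (h'⁻¹)⁻¹ := (inv_inv h').symm
  rw [e1]
  conv_rhs => rw [e2]
  have h1 := irr_col_orth_inv (G := G) (u * (h : G)) ((h' : G)⁻¹ * u)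
  have h2 := irr_col_orth_inv (G := C) h h'⁻¹
  rw [h1, h2]
  congr 1
  have hpp1 : Cfsg.IsPPart p (u * (h : G)) u :=
    ⟨(h : G), rfl, (hcu h).symm, hu, by rw [Subgroup.orderOf_coe]; exact hh⟩
  have hpp2 : Cfsg.IsPPart p ((h' : G)⁻¹ * u) u := by
    refine ⟨(h' : G)⁻¹, ?_, ?_, hu, ?_⟩
    · have := hcu h'⁻¹
      rw [Subgroup.coe_inv] at this
      exact this.symm
    · have := hcu h'⁻¹
      rw [Subgroup.coe_inv] at this
      exact this.symm
    · rw [orderOf_inv, Subgroup.orderOf_coe]; exact hh'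
  have hp1 : ¬ p ∣ 1 := fun hd => hp.one_lt.ne' (Nat.dvd_one.mp hd)
  -- membership in `C`
  have hmem : ∀ y : G, y * ((h' : G)⁻¹ * u) * y⁻¹ = u * (h : G) → y ∈ C := by
    intro y hy
    have ht : (u * (h : G)) ^ 1 * y * (((h' : G)⁻¹ * u) ^ 1)⁻¹ = y := by
      rw [pow_one, pow_one, ← hy]
      group
    have h3 := conj_eq_of_isPPart_of_pow hp hpp1 hpp2 1 hp1 y ht
    rw [hC]
    calc y * u = y * (y⁻¹ * u * y) := by rw [h3]
      _ = u * y := by group
  symm
  refine Nat.card_congr ((Equiv.subtypeSubtypeEquivSubtypeExists (fun y : G => y ∈ C)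
    (fun y : C => y * h'⁻¹ * y⁻¹ = h)).trans (Equiv.subtypeEquivRight ?_))
  intro y
  constructor
  · rintro ⟨hy, hyy⟩
    have h4 := congrArg (Subtype.val : C → G) hyy
    simp only [Subgroup.coe_mul, Subgroup.coe_inv] at h4
    have h5 : y * u = u * y := (hC y).1 hy
    have h6 : u * y⁻¹ = y⁻¹ * u := by
      calc u * y⁻¹ = y⁻¹ * (y * u) * y⁻¹ := by group
        _ = y⁻¹ * (u * y) * y⁻¹ := by rw [h5]
        _ = y⁻¹ * u := by group
    calc y * ((h' : G)⁻¹ * u) * y⁻¹ = y * (h' : G)⁻¹ * (u * y⁻¹) := by group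
      _ = y * (h' : G)⁻¹ * (y⁻¹ * u) := by rw [h6]
      _ = (y * (h' : G)⁻¹ * y⁻¹) * u := by group
      _ = (h : G) * u := by rw [h4]
      _ = u * (h : G) := hcu h
  · intro hy
    have hyC := hmem y hy
    refine ⟨hyC, ?_⟩
    apply Subtype.ext
    simp only [Subgroup.coe_mul, Subgroup.coe_inv]
    have h5 : y * u = u * y := (hC y).1 hyC
    have h6 : u * y⁻¹ = y⁻¹ * u := by
      calc u * y⁻¹ = y⁻¹ * (y * u) * y⁻¹ := by group
        _ = y⁻¹ * (u * y) * y⁻¹ := by rw [h5]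
        _ = y⁻¹ * u := by group
    have h7 : (y * (h' : G)⁻¹ * y⁻¹) * u = u * (h : G) := by
      calc (y * (h' : G)⁻¹ * y⁻¹) * u = y * (h' : G)⁻¹ * (y⁻¹ * u) := by group
        _ = y * (h' : G)⁻¹ * (u * y⁻¹) := by rw [h6]
        _ = y * ((h' : G)⁻¹ * u) * y⁻¹ := by group
        _ = u * (h : G) := hy
    calc y * (h' : G)⁻¹ * y⁻¹ = ((y * (h' : G)⁻¹ * y⁻¹) * u) * u⁻¹ := by group
      _ = u * (h : G) * u⁻¹ := by rw [h7]
      _ = (h : G) * u * u⁻¹ := by rw [hcu h]
      _ = (h : G) := by group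

end ColOrth

section Algebra

theorem sum_kernel_expand {ι α : Type*} [Fintype ι] [Fintype α] (a a' : α → ℂ)
    (f f' : ι → α → ℂ) :
    ∑ i, (∑ h, f i h * a h) * (∑ h', f' i h' * a' h') =
      ∑ h, ∑ h', a h * a' h' * ∑ i, f i h * f' i h' := by
  simp_rw [Finset.sum_mul_sum]
  rw [Finset.sum_comm]
  refine Finset.sum_congr rfl fun h _ => ?_
  rw [Finset.sum_comm]
  refine Finset.sum_congr rfl fun h' _ => ?_
  rw [Finset.mul_sum]
  refine Finset.sum_congr rfl fun i _ => ?_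
  ring

/-- interchange of a kernel sum: if two families have the same "column sums" wherever the
weights do not vanish, the weighted bilinear sums agree. -/
theorem sum_kernel_swap {ι κ α : Type*} [Fintype ι] [Fintype κ] [Fintype α] (a a' : α → ℂ)
    (f f' : ι → α → ℂ) (g g' : κ → α → ℂ)
    (H : ∀ h h' : α, a h * a' h' * ∑ i, f i h * f' i h' =
      a h * a' h' * ∑ k, g k h * g' k h') :
    ∑ i, (∑ h, f i h * a h) * (∑ h', f' i h' * a' h') =
      ∑ k, (∑ h, g k h * a h) * (∑ h', g' k h' * a' h') := by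
  rw [sum_kernel_expand a a' f f', sum_kernel_expand a a' g g']
  refine Finset.sum_congr rfl fun h _ => ?_
  refine Finset.sum_congr rfl fun h' _ => ?_
  exact H h h'

end Algebra

section BlockPart

variable {K : Type*} [Group K] [Finite K]

open scoped Classical in
/-- the block part of an irreducible character -/
theorem blockPart_irr (e : Set (Cfsg.IrrCharacter K)) (ψ : Cfsg.IrrCharacter K) (y : K) :
    Cfsg.blockPart e (ψ : K → ℂ) y = if ψ ∈ e then (ψ : K → ℂ) y else 0 := by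
  letI := Fintype.ofFinite K
  have := irr_finite K
  letI := Fintype.ofFinite (Cfsg.IrrCharacter K)
  show ∑ᶠ χ ∈ e, Cfsg.classInner (ψ : K → ℂ) (χ : K → ℂ) * (χ : K → ℂ) y = _
  rw [finsum_mem_eq_sum_ite]
  rw [Finset.sum_eq_single ψ]
  · rw [Cfsg.Agent.Lib.Helper26.classInner_irr_self ψ.2, one_mul]
  · intro χ _ hne
    split_ifs
    · rw [Cfsg.Agent.Lib.Helper26.classInner_irr_ne ψ.2 χ.2
        (fun h => hne (Subtype.ext h.symm)), zero_mul]
    · rfl
  · intro h
    exact absurd (Finset.mem_univ ψ) h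

end BlockPart

section Main

variable {G : Type*} [Group G] [Fintype G]

/-- **Orthogonality of the `e`-parts on a `p`-section.** Let `u` be a `p`-element with
centralizer `C` and let the block `e` of `C` induce the block `B` of `G`. Then the sum over
`χ ∈ B` and the `p`-regular `s ∈ C` of `χ_u(s) χ_u'(s⁻¹)` is `|C|` times the `p`-regular rank
of `e`. -/
theorem subsection_sum {p : ℕ} [Fact p.Prime] {M : Ideal Cfsg.AlgInt}
    (hM : Cfsg.IsPModular p M) (B : Set (Cfsg.IrrCharacter G)) (u : G)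
    (hu : ∃ k : ℕ, orderOf u = p ^ k) (C : Subgroup G)
    (hC : ∀ g : G, g ∈ C ↔ g * u = u * g) (e : Set (Cfsg.IrrCharacter C))
    (hind : Cfsg.IsInducedBlock M C e B) :
    ∑ᶠ χ ∈ B, ∑ᶠ s : C,
        Cfsg.pRegularPart p (Cfsg.blockPart e (fun c : C => (χ : G → ℂ) (u * c))) s *
          Cfsg.blockPart e (fun c : C => (χ : G → ℂ) (u⁻¹ * c)) s⁻¹ =
      (Nat.card C : ℂ) * (Cfsg.blockRank p e : ℂ) := by
  classical
  have hp : p.Prime := hM.1
  have he := hind.1
  letI : Fintype C := Fintype.ofFinite C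
  have := irr_finite G
  letI : Fintype (Cfsg.IrrCharacter G) := Fintype.ofFinite _
  have := irr_finite C
  letI : Fintype (Cfsg.IrrCharacter C) := Fintype.ofFinite _
  have huC : u ∈ C := (hC u).2 rfl
  have hcomm : ∀ c : C, u * (c : G) = (c : G) * u := fun c => ((hC c).1 c.2).symm
  -- kernel
  set Ker : C → C → ℂ := fun s h => ∑ᶠ ψ ∈ e, (ψ : C → ℂ) s * (ψ : C → ℂ) h⁻¹ with hKer
  have hK0 : ∀ s h : C, ¬ p ∣ orderOf s → p ∣ orderOf h → Ker s h = 0 := fun s h hs hh =>
    block_orth_regular_singular hM e he hs hh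
  have hbp : ∀ (ϑ : C → ℂ) (s : C), Cfsg.blockPart e ϑ s =
      ∑ h : C, ϑ h * ((Nat.card C : ℂ)⁻¹ * Ker s h) := by
    intro ϑ s
    rw [blockPart_apply e ϑ s, Finset.mul_sum]
    refine Finset.sum_congr rfl fun h _ => ?_
    ring
  -- second main theorem
  have hsm : ∀ χ : Cfsg.IrrCharacter G, χ ∉ B → ∀ s : C, ¬ p ∣ orderOf s →
      Cfsg.blockPart e (fun c : C => (χ : G → ℂ) (u * c)) s = 0 := by
    intro χ hχ s hs
    have hs' : ¬ p ∣ orderOf (s : G) := by rw [Subgroup.orderOf_coe]; exact hs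
    have hxy : Cfsg.IsPPart p (u * (s : G)) u := ⟨(s : G), rfl, hcomm s, hu, hs'⟩
    have hmain := second_main_idem hM C e B hind (⟨u, huC⟩ * s)
      (by
        intro z hz
        have hz' : Cfsg.IsPPart p (u * (s : G)) z := hz
        rw [← isPPart_unique hp hxy hz']
        intro g hg
        rw [Subgroup.mem_centralizer_iff] at hg
        rw [hC]
        exact (hg u rfl).symm)
      χ hχ
    have hφ : Cfsg.IsClassFunction C (fun c : C => (χ : G → ℂ) (u * (c : G))) := by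
      intro c t
      show (χ : G → ℂ) (u * ((t * c * t⁻¹ : C) : G)) = (χ : G → ℂ) (u * (c : G))
      have e1 : u * ((t * c * t⁻¹ : C) : G) = (t : G) * (u * (c : G)) * (t : G)⁻¹ := by
        push_cast
        rw [← mul_assoc, ← mul_assoc, hcomm t]
        simp only [mul_assoc]
      rw [e1]
      exact irr_conj_class χ _ _
    rw [blockPart_eq_sum_blockCoeff e _ hφ s, ← hmain]
    refine Finset.sum_congr rfl fun k _ => ?_
    have e1 : u * ((k * s : C) : G) = (k : G) * ((⟨u, huC⟩ * s : C) : G) := by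
      push_cast
      rw [← mul_assoc, ← mul_assoc, hcomm k]
    rw [e1]
  -- the key identity for p-regular s
  have hD : ∀ s : C, ¬ p ∣ orderOf s →
      ∑ χ : Cfsg.IrrCharacter G, Cfsg.blockPart e (fun c : C => (χ : G → ℂ) (u * c)) s *
        Cfsg.blockPart e (fun c : C => (χ : G → ℂ) (u⁻¹ * c)) s⁻¹ =
      ∑ ψ : Cfsg.IrrCharacter C, (if ψ ∈ e then (ψ : C → ℂ) s * (ψ : C → ℂ) s⁻¹ else 0) := by
    intro s hs
    have hs1 : ¬ p ∣ orderOf s⁻¹ := by rw [orderOf_inv]; exact hs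
    have h1 := sum_kernel_swap (fun h : C => (Nat.card C : ℂ)⁻¹ * Ker s h)
      (fun h : C => (Nat.card C : ℂ)⁻¹ * Ker s⁻¹ h)
      (fun (χ : Cfsg.IrrCharacter G) (h : C) => (χ : G → ℂ) (u * h))
      (fun (χ : Cfsg.IrrCharacter G) (h : C) => (χ : G → ℂ) (u⁻¹ * h))
      (fun (ψ : Cfsg.IrrCharacter C) (h : C) => (ψ : C → ℂ) h)
      (fun (ψ : Cfsg.IrrCharacter C) (h : C) => (ψ : C → ℂ) h)
      (by
        intro h h'
        by_cases hh : p ∣ orderOf h
        · simp only [hK0 s h hs hh, mul_zero, zero_mul]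
        · by_cases hh' : p ∣ orderOf h'
          · simp only [hK0 s⁻¹ h' hs1 hh', mul_zero, zero_mul]
          · rw [col_orth_section hp u hu C hC h h' hh hh'])
    simp only [hbp]
    rw [h1]
    refine Finset.sum_congr rfl fun ψ _ => ?_
    rw [← hbp, ← hbp, blockPart_irr, blockPart_irr]
    split_ifs
    · rfl
    · rw [zero_mul]
  have hpr : ∀ (f : C → ℂ) (s : C), Cfsg.pRegularPart p f s =
      if p ∣ orderOf s then 0 else f s := by
    intro f s
    unfold Cfsg.pRegularPart Cfsg.IsPRegular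
    by_cases h : p ∣ orderOf s <;> simp [h]
  -- assembly
  have hS := Cfsg.Agent.S4667.result (G := C) p M hM e he
  rw [hS, finsum_mem_eq_sum_ite]
  simp_rw [finsum_eq_sum_of_fintype]
  have hχ : ∀ χ : Cfsg.IrrCharacter G,
      (if χ ∈ B then ∑ s : C,
        Cfsg.pRegularPart p (Cfsg.blockPart e (fun c : C => (χ : G → ℂ) (u * c))) s *
          Cfsg.blockPart e (fun c : C => (χ : G → ℂ) (u⁻¹ * c)) s⁻¹ else 0) =
      ∑ s : C, (if p ∣ orderOf s then 0 else
        Cfsg.blockPart e (fun c : C => (χ : G → ℂ) (u * c)) s *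
          Cfsg.blockPart e (fun c : C => (χ : G → ℂ) (u⁻¹ * c)) s⁻¹) := by
    intro χ
    by_cases hχB : χ ∈ B
    · rw [if_pos hχB]
      refine Finset.sum_congr rfl fun s _ => ?_
      rw [hpr]
      split_ifs
      · rw [zero_mul]
      · rfl
    · rw [if_neg hχB]
      symm
      apply Finset.sum_eq_zero
      intro s _
      split_ifs with hs
      · rfl
      · rw [hsm χ hχB s hs, zero_mul]
  rw [Finset.sum_congr rfl fun χ _ => hχ χ, Finset.sum_comm]
  refine Finset.sum_congr rfl fun s _ => ?_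
  simp_rw [finsum_eq_if]
  by_cases hs : p ∣ orderOf s
  · simp only [if_pos hs, Finset.sum_const_zero]
    symm
    apply Finset.sum_eq_zero
    intro ψ _
    rw [hpr, if_pos hs]
    simp
  · simp only [if_neg hs]
    rw [hD s hs]
    refine Finset.sum_congr rfl fun ψ _ => ?_
    rw [hpr, if_neg hs]

end Main

end Cfsg.Agent.Lib.Helper76
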