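import Mathlib
import Cfsg.Prelude.Def_Blocks
import Cfsg.Agent.Lib.Helper76.SubSection
import Cfsg.Agent.Lib.Helper76.SectionInner
import Cfsg.Agent.Lib.Helper76.PRegBlock2
import Cfsg.Agent.Lib.Helper76.BrauerFeit
import Cfsg.Agent.Lib.Helper78.ThirdMain
import Cfsg.Agent.Lib.Helper80.Orthogonality
import Cfsg.Agent.Lib.Helper75.Glaub2

/-!
# Contributions of a subsection

For a `p`-element `u` with centralizer `C` and a block `e` of `C`, the contribution numbers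
`m χ ψ = [ (χ^{(u,e)})⁰ , ψ^{(u)} ]_C` satisfy `∑_{χ ∈ B} ∑_ψ |m χ ψ|² = l(e)` when `e` induces `B`.
-/

set_option autoImplicit false

namespace Cfsg.Agent.Lib.Helper76

open Cfsg Cfsg.Agent.Lib.Helper16 Cfsg.Agent.Lib.Helper78 Cfsg.Agent.Lib.Helper81
open scoped ComplexConjugate

section Generic

variable {K : Type*} [Group K] [Fintype K]

theorem pRegularPart_apply' (p : ℕ) (f : K → ℂ) (s : K) :
    Cfsg.pRegularPart p f s = if p ∣ orderOf s then 0 else f s := by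
  unfold Cfsg.pRegularPart Cfsg.IsPRegular
  by_cases h : p ∣ orderOf s <;> simp [h]

theorem isClassFunction_pRegularPart (p : ℕ) {f : K → ℂ} (hf : Cfsg.IsClassFunction K f) :
    Cfsg.IsClassFunction K (Cfsg.pRegularPart p f) := by
  intro g h
  have h1 : orderOf (h * g * h⁻¹) = orderOf g :=
    orderOf_injective (MulAut.conj h).toMonoidHom (MulAut.conj h).injective g
  rw [pRegularPart_apply', pRegularPart_apply', h1, hf g h]

theorem isClassFunction_blockPart (e : Set (Cfsg.IrrCharacter K)) (ϑ : K → ℂ) :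
    Cfsg.IsClassFunction K (Cfsg.blockPart e ϑ) := by
  intro g h
  letI : Fintype K := Fintype.ofFinite K
  show (∑ᶠ χ ∈ e, Cfsg.classInner ϑ (χ : K → ℂ) * (χ : K → ℂ) (h * g * h⁻¹)) =
    ∑ᶠ χ ∈ e, Cfsg.classInner ϑ (χ : K → ℂ) * (χ : K → ℂ) g
  simp only [irr_conj_class]

/-- Complex conjugate of a block part. -/
theorem blockPart_conj (e : Set (Cfsg.IrrCharacter K)) (ϑ : K → ℂ) (s : K) :
    conj (Cfsg.blockPart e ϑ s) = Cfsg.blockPart e (fun g => conj (ϑ g⁻¹)) s⁻¹ := by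
  classical
  letI : Fintype K := Fintype.ofFinite K
  have := irr_finite K
  letI : Fintype (Cfsg.IrrCharacter K) := Fintype.ofFinite _
  rw [blockPart_apply e ϑ s, blockPart_apply e _ s⁻¹]
  rw [map_mul, map_inv₀, map_natCast, map_sum]
  congr 1
  refine Fintype.sum_equiv (Equiv.inv K) _ _ (fun g => ?_)
  show conj (ϑ g * ∑ᶠ χ ∈ e, (χ : K → ℂ) s * (χ : K → ℂ) g⁻¹) =
    conj (ϑ (g⁻¹)⁻¹) * ∑ᶠ χ ∈ e, (χ : K → ℂ) s⁻¹ * (χ : K → ℂ) (g⁻¹)⁻¹
  rw [map_mul, inv_inv]
  congr 1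
  rw [finsum_mem_eq_sum_ite, finsum_mem_eq_sum_ite, map_sum]
  refine Finset.sum_congr rfl (fun χ _ => ?_)
  split_ifs
  · rw [map_mul, ← irr_inv, ← irr_inv, inv_inv]
  · simp

end Generic

section Contrib

variable {G : Type*} [Group G] [Fintype G]

/-- The contribution number of the pair `χ, ψ` for the subsection `(u, e)`. -/
noncomputable def contrib (p : ℕ) (C : Subgroup G) (e : Set (Cfsg.IrrCharacter C)) (u : G)
    (χ ψ : G → ℂ) : ℂ :=
  letI : Fintype C := Fintype.ofFinite C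
  (Nat.card C : ℂ)⁻¹ * ∑ s : C,
    Cfsg.pRegularPart p (Cfsg.blockPart e (fun c : C => χ (u * c))) s * ψ (u⁻¹ * (s : G)⁻¹)

/-- Bessel equality for the contributions of a fixed `χ`. -/
theorem sum_normSq_contrib [Fintype (Cfsg.IrrCharacter G)] {p : ℕ} (hp : p.Prime) (u : G)
    (hu : ∃ k : ℕ, orderOf u = p ^ k) (C : Subgroup G)
    (hC : ∀ g : G, g ∈ C ↔ g * u = u * g) (e : Set (Cfsg.IrrCharacter C))
    (χ : Cfsg.IrrCharacter G) :
    letI : Fintype C := Fintype.ofFinite C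
    ∑ ψ : Cfsg.IrrCharacter G, ((Complex.normSq (contrib p C e u (χ : G → ℂ) (ψ : G → ℂ)) : ℝ) : ℂ) =
      (Nat.card C : ℂ)⁻¹ * ∑ s : C,
        Cfsg.pRegularPart p (Cfsg.blockPart e (fun c : C => (χ : G → ℂ) (u * c))) s *
        conj (Cfsg.pRegularPart p (Cfsg.blockPart e (fun c : C => (χ : G → ℂ) (u * c))) s) := by
  classical
  letI : Fintype C := Fintype.ofFinite C
  have := irr_finite C
  letI : Fintype (Cfsg.IrrCharacter C) := Fintype.ofFinite _
  have hcomm : ∀ c : C, u * (c : G) = (c : G) * u := fun c => ((hC c).1 c.2).symm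
  set V : C → ℂ := Cfsg.pRegularPart p (Cfsg.blockPart e (fun c : C => (χ : G → ℂ) (u * c)))
    with hV
  have hVcf : Cfsg.IsClassFunction C V :=
    isClassFunction_pRegularPart p (isClassFunction_blockPart e _)
  have hV0 : ∀ s : C, p ∣ orderOf s → V s = 0 := by
    intro s hs
    rw [hV, pRegularPart_apply', if_pos hs]
  have hcontrib : ∀ ψ : Cfsg.IrrCharacter G, contrib p C e u (χ : G → ℂ) (ψ : G → ℂ) =
      (Nat.card C : ℂ)⁻¹ * ∑ s : C, (ψ : G → ℂ) (u⁻¹ * (s : G)⁻¹) * V s := by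
    intro ψ
    unfold contrib
    congr 1
    exact Finset.sum_congr rfl (fun s _ => mul_comm _ _)
  have hconj : ∀ ψ : Cfsg.IrrCharacter G, conj (contrib p C e u (χ : G → ℂ) (ψ : G → ℂ)) =
      (Nat.card C : ℂ)⁻¹ * ∑ s : C, (ψ : G → ℂ) (u * (s : G)) * conj (V s) := by
    intro ψ
    rw [hcontrib, map_mul, map_inv₀, map_natCast, map_sum]
    congr 1
    refine Finset.sum_congr rfl (fun s _ => ?_)
    rw [map_mul, ← irr_inv ψ]
    congr 2
    rw [mul_inv_rev, inv_inv, inv_inv, hcomm s]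
  have hswap := sum_kernel_swap (fun h : C => V h) (fun h : C => conj (V h))
    (fun (ψ : Cfsg.IrrCharacter G) (h : C) => (ψ : G → ℂ) (u⁻¹ * (h : G)⁻¹))
    (fun (ψ : Cfsg.IrrCharacter G) (h : C) => (ψ : G → ℂ) (u * (h : G)))
    (fun (θ : Cfsg.IrrCharacter C) (h : C) => (θ : C → ℂ) h⁻¹)
    (fun (θ : Cfsg.IrrCharacter C) (h : C) => (θ : C → ℂ) h)
    (by
      intro h h'
      by_cases hh : p ∣ orderOf h
      · simp only [hV0 h hh, zero_mul]
      · by_cases hh' : p ∣ orderOf h'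
        · simp only [hV0 h' hh', map_zero, mul_zero, zero_mul]
        · have hh1 : ¬ p ∣ orderOf h⁻¹ := by rw [orderOf_inv]; exact hh
          have h1 := col_orth_section hp u hu C hC h' h⁻¹ hh' hh1
          congr 1
          calc ∑ ψ : Cfsg.IrrCharacter G, (ψ : G → ℂ) (u⁻¹ * (h : G)⁻¹) * (ψ : G → ℂ) (u * (h' : G))
              = ∑ ψ : Cfsg.IrrCharacter G, (ψ : G → ℂ) (u * (h' : G)) *
                  (ψ : G → ℂ) (u⁻¹ * ((h⁻¹ : C) : G)) :=
                Finset.sum_congr rfl (fun ψ _ => mul_comm _ _)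
            _ = ∑ θ : Cfsg.IrrCharacter C, (θ : C → ℂ) h' * (θ : C → ℂ) h⁻¹ := h1
            _ = ∑ θ : Cfsg.IrrCharacter C, (θ : C → ℂ) h⁻¹ * (θ : C → ℂ) h' :=
                Finset.sum_congr rfl (fun θ _ => mul_comm _ _))
  have hC0 : (Nat.card C : ℂ) ≠ 0 := by exact_mod_cast Nat.card_pos.ne'
  have hinner : ∀ θ : Cfsg.IrrCharacter C, ∑ h : C, (θ : C → ℂ) h⁻¹ * V h =
      (Nat.card C : ℂ) * Cfsg.classInner V (θ : C → ℂ) := by
    intro θ
    unfold Cfsg.classInner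
    rw [← mul_assoc, mul_inv_cancel₀ hC0, one_mul]
    refine Finset.sum_congr rfl (fun h _ => ?_)
    rw [irr_inv θ, mul_comm]
  have h1 : ∀ ψ : Cfsg.IrrCharacter G,
      ((Complex.normSq (contrib p C e u (χ : G → ℂ) (ψ : G → ℂ)) : ℝ) : ℂ) =
      (Nat.card C : ℂ)⁻¹ * (Nat.card C : ℂ)⁻¹ *
        ((∑ s : C, (ψ : G → ℂ) (u⁻¹ * (s : G)⁻¹) * V s) *
          (∑ s : C, (ψ : G → ℂ) (u * (s : G)) * conj (V s))) := by
    intro ψ
    rw [← Complex.mul_conj, hconj ψ, hcontrib ψ]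
    ring
  have hsum : ∑ ψ : Cfsg.IrrCharacter G,
      ((Complex.normSq (contrib p C e u (χ : G → ℂ) (ψ : G → ℂ)) : ℝ) : ℂ) =
      (Nat.card C : ℂ)⁻¹ * (Nat.card C : ℂ)⁻¹ * ∑ ψ : Cfsg.IrrCharacter G,
        ((∑ s : C, (ψ : G → ℂ) (u⁻¹ * (s : G)⁻¹) * V s) *
          (∑ s : C, (ψ : G → ℂ) (u * (s : G)) * conj (V s))) := by
    rw [Finset.mul_sum]
    exact Finset.sum_congr rfl (fun ψ _ => h1 ψ)
  rw [hsum, hswap]
  have hsum2 : ∑ θ : Cfsg.IrrCharacter C, (∑ h : C, (θ : C → ℂ) h⁻¹ * V h) *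
      ∑ h' : C, (θ : C → ℂ) h' * conj (V h') =
      ∑ θ : Cfsg.IrrCharacter C, (Nat.card C : ℂ) * Cfsg.classInner V (θ : C → ℂ) *
      ∑ h' : C, (θ : C → ℂ) h' * conj (V h') :=
    Finset.sum_congr rfl (fun θ _ => by rw [hinner θ])
  rw [hsum2]
  have h2 : ∑ θ : Cfsg.IrrCharacter C, (Nat.card C : ℂ) * Cfsg.classInner V (θ : C → ℂ) *
      ∑ h' : C, (θ : C → ℂ) h' * conj (V h') =
      (Nat.card C : ℂ) * ∑ h' : C, V h' * conj (V h') := by
    have hexp : ∀ h' : C, ∑ θ : Cfsg.IrrCharacter C,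
        Cfsg.classInner V (θ : C → ℂ) * (θ : C → ℂ) h' = V h' := fun h' =>
      (Cfsg.Agent.Lib.Helper80.classFun_expansion_apply V hVcf h').symm
    calc ∑ θ : Cfsg.IrrCharacter C, (Nat.card C : ℂ) * Cfsg.classInner V (θ : C → ℂ) *
          ∑ h' : C, (θ : C → ℂ) h' * conj (V h')
        = ∑ θ : Cfsg.IrrCharacter C, ∑ h' : C, (Nat.card C : ℂ) *
            (Cfsg.classInner V (θ : C → ℂ) * (θ : C → ℂ) h') * conj (V h') := by
          refine Finset.sum_congr rfl (fun θ _ => ?_)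
          rw [Finset.mul_sum]
          refine Finset.sum_congr rfl (fun h' _ => ?_)
          ring
      _ = ∑ h' : C, ∑ θ : Cfsg.IrrCharacter C, (Nat.card C : ℂ) *
            (Cfsg.classInner V (θ : C → ℂ) * (θ : C → ℂ) h') * conj (V h') := Finset.sum_comm
      _ = ∑ h' : C, (Nat.card C : ℂ) * (V h' * conj (V h')) := by
          refine Finset.sum_congr rfl (fun h' _ => ?_)
          rw [← Finset.sum_mul, ← Finset.mul_sum, hexp h']
          ring
      _ = (Nat.card C : ℂ) * ∑ h' : C, V h' * conj (V h') := (Finset.mul_sum _ _ _).symm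
  rw [h2, ← mul_assoc, mul_assoc _ _ (Nat.card C : ℂ), inv_mul_cancel₀ hC0, mul_one]

/-- The trace identity: the norms of the truncated block parts of the members of `B` add up to
the `p`-regular rank of `e`. -/
theorem sum_block_norm [Fintype (Cfsg.IrrCharacter G)] {p : ℕ} [Fact p.Prime]
    {M : Ideal Cfsg.AlgInt} (hM : Cfsg.IsPModular p M) (B : Set (Cfsg.IrrCharacter G))
    [DecidablePred (· ∈ B)] (u : G)
    (hu : ∃ k : ℕ, orderOf u = p ^ k) (C : Subgroup G)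
    (hC : ∀ g : G, g ∈ C ↔ g * u = u * g) (e : Set (Cfsg.IrrCharacter C))
    (hind : Cfsg.IsInducedBlock M C e B) :
    letI : Fintype C := Fintype.ofFinite C
    ∑ χ ∈ Finset.univ.filter (· ∈ B), (Nat.card C : ℂ)⁻¹ * ∑ s : C,
        Cfsg.pRegularPart p (Cfsg.blockPart e (fun c : C => (χ : G → ℂ) (u * c))) s *
        conj (Cfsg.pRegularPart p (Cfsg.blockPart e (fun c : C => (χ : G → ℂ) (u * c))) s) =
      (Cfsg.blockRank p e : ℂ) := by
  classical
  letI : Fintype C := Fintype.ofFinite C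
  have hcomm : ∀ c : C, u * (c : G) = (c : G) * u := fun c => ((hC c).1 c.2).symm
  have hC0 : (Nat.card C : ℂ) ≠ 0 := by exact_mod_cast Nat.card_pos.ne'
  have hss := subsection_sum hM B u hu C hC e hind
  rw [finsum_mem_eq_sum_ite] at hss
  have hterm : ∀ χ : Cfsg.IrrCharacter G, ∑ᶠ s : C,
      Cfsg.pRegularPart p (Cfsg.blockPart e (fun c : C => (χ : G → ℂ) (u * c))) s *
        Cfsg.blockPart e (fun c : C => (χ : G → ℂ) (u⁻¹ * c)) s⁻¹ =
      ∑ s : C, Cfsg.pRegularPart p (Cfsg.blockPart e (fun c : C => (χ : G → ℂ) (u * c))) s *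
        conj (Cfsg.pRegularPart p (Cfsg.blockPart e (fun c : C => (χ : G → ℂ) (u * c))) s) := by
    intro χ
    rw [finsum_eq_sum_of_fintype]
    refine Finset.sum_congr rfl (fun s _ => ?_)
    rw [pRegularPart_apply']
    by_cases hs : p ∣ orderOf s
    · rw [if_pos hs, zero_mul, zero_mul]
    · rw [if_neg hs, blockPart_conj]
      congr 2
      funext g
      rw [← irr_inv χ]
      congr 1
      rw [mul_inv_rev, Subgroup.coe_inv, inv_inv]
      have h1 := hcomm g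
      have h2 : (g : G) * u⁻¹ = u⁻¹ * (g : G) := by
        rw [eq_inv_mul_iff_mul_eq, ← mul_assoc, h1, mul_assoc, mul_inv_cancel, mul_one]
      rw [h2]
  rw [Finset.sum_filter]
  have h3 : ∑ a : Cfsg.IrrCharacter G, (if a ∈ B then (Nat.card C : ℂ)⁻¹ * ∑ s : C,
        Cfsg.pRegularPart p (Cfsg.blockPart e (fun c : C => (a : G → ℂ) (u * c))) s *
        conj (Cfsg.pRegularPart p (Cfsg.blockPart e (fun c : C => (a : G → ℂ) (u * c))) s)
        else 0) =
      (Nat.card C : ℂ)⁻¹ * ∑ a : Cfsg.IrrCharacter G, (if a ∈ B then ∑ᶠ s : C,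
        Cfsg.pRegularPart p (Cfsg.blockPart e (fun c : C => (a : G → ℂ) (u * c))) s *
          Cfsg.blockPart e (fun c : C => (a : G → ℂ) (u⁻¹ * c)) s⁻¹ else 0) := by
    rw [Finset.mul_sum]
    refine Finset.sum_congr rfl (fun a _ => ?_)
    split_ifs
    · rw [hterm a]
    · rw [mul_zero]
  rw [h3, hss, ← mul_assoc, inv_mul_cancel₀ hC0, one_mul]

/-- **Trace bound for the contributions.** -/
theorem contrib_trace_le [Fintype (Cfsg.IrrCharacter G)] {p : ℕ} [Fact p.Prime]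
    {M : Ideal Cfsg.AlgInt} (hM : Cfsg.IsPModular p M) (B : Set (Cfsg.IrrCharacter G))
    [DecidablePred (· ∈ B)] (u : G)
    (hu : ∃ k : ℕ, orderOf u = p ^ k) (C : Subgroup G)
    (hC : ∀ g : G, g ∈ C ↔ g * u = u * g) (e : Set (Cfsg.IrrCharacter C))
    (hind : Cfsg.IsInducedBlock M C e B) :
    ∑ χ ∈ Finset.univ.filter (· ∈ B), ∑ ψ ∈ Finset.univ.filter (· ∈ B),
      Complex.normSq (contrib p C e u (χ : G → ℂ) (ψ : G → ℂ)) ≤ (Cfsg.blockRank p e : ℝ) := by
  classical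
  letI : Fintype C := Fintype.ofFinite C
  have hp : p.Prime := Fact.out
  have h1 := sum_block_norm hM B u hu C hC e hind
  have h2 : ((∑ χ ∈ Finset.univ.filter (· ∈ B), ∑ ψ : Cfsg.IrrCharacter G,
      Complex.normSq (contrib p C e u (χ : G → ℂ) (ψ : G → ℂ)) : ℝ) : ℂ) =
      ((Cfsg.blockRank p e : ℝ) : ℂ) := by
    push_cast
    rw [← h1]
    refine Finset.sum_congr rfl (fun χ _ => ?_)
    exact sum_normSq_contrib hp u hu C hC e χ
  have h3 := Complex.ofReal_injective h2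
  rw [← h3]
  refine Finset.sum_le_sum (fun χ _ => ?_)
  exact Finset.sum_le_sum_of_subset_of_nonneg (Finset.filter_subset _ _)
    (fun ψ _ _ => Complex.normSq_nonneg _)

/-- Interchanging a product of two sums with an outer sum. -/
theorem sum_prod_interchange {α ι κ : Type*} [Fintype α] [Fintype ι] [Fintype κ] (c : ℂ)
    (X : ι → α → ℂ) (Y : κ → α → ℂ) :
    c * ∑ s, (∑ i, X i s) * (∑ k, Y k s) = ∑ i, ∑ k, c * ∑ s, X i s * Y k s := by
  simp_rw [Finset.sum_mul_sum, Finset.mul_sum]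
  rw [Finset.sum_comm]
  refine Finset.sum_congr rfl (fun i _ => ?_)
  rw [Finset.sum_comm]

/-- A translate of an irreducible character by an element centralizing `C` is a class function
on `C`. -/
theorem isClassFunction_sec (C : Subgroup G) (u : G) (hcomm : ∀ c : C, u * (c : G) = (c : G) * u)
    (χ : Cfsg.IrrCharacter G) :
    Cfsg.IsClassFunction C (fun c : C => (χ : G → ℂ) (u * (c : G))) := by
  intro c t
  show (χ : G → ℂ) (u * ((t * c * t⁻¹ : C) : G)) = (χ : G → ℂ) (u * (c : G))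
  have e1 : u * ((t * c * t⁻¹ : C) : G) = (t : G) * (u * (c : G)) * (t : G)⁻¹ := by
    push_cast
    rw [← mul_assoc, ← mul_assoc, hcomm t]
    simp only [mul_assoc]
  rw [e1]
  exact irr_conj_class χ _ _

/-- Inner product of a translate by a power of a central element. -/
theorem classInner_sec_pow (C : Subgroup G) [Fintype C] (z : C) (hz : z ∈ Subgroup.center C)
    (χ : Cfsg.IrrCharacter G) (θ : Cfsg.IrrCharacter C) (ω : ℂ)
    (hω : ∀ (x : C) (j : ℕ), (θ : C → ℂ) (x * z ^ j) = ω ^ j * (θ : C → ℂ) x)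
    (hω1 : ω * conj ω = 1) (j : ℕ) :
    Cfsg.classInner (fun c : C => (χ : G → ℂ) ((z : G) ^ j * (c : G))) (θ : C → ℂ) =
      ω ^ j * Cfsg.classInner (fun c : C => (χ : G → ℂ) (c : G)) (θ : C → ℂ) := by
  unfold Cfsg.classInner
  rw [mul_left_comm]
  congr 1
  rw [Finset.mul_sum]
  refine Fintype.sum_equiv (Equiv.mulLeft (z ^ j))
    (fun c : C => (χ : G → ℂ) ((z : G) ^ j * (c : G)) * conj ((θ : C → ℂ) c))
    (fun c : C => ω ^ j * ((χ : G → ℂ) (c : G) * conj ((θ : C → ℂ) c))) (fun c => ?_)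
  have hzc : z ^ j * c = c * z ^ j := by
    have := Subgroup.mem_center_iff.mp (Subgroup.pow_mem _ hz j) c
    exact this.symm
  show (χ : G → ℂ) ((z : G) ^ j * (c : G)) * conj ((θ : C → ℂ) c) =
    ω ^ j * ((χ : G → ℂ) ((z ^ j * c : C) : G) * conj ((θ : C → ℂ) (z ^ j * c)))
  rw [hzc, hω c j, map_mul, map_pow]
  have e1 : ((c * z ^ j : C) : G) = (z : G) ^ j * (c : G) := by
    rw [← hzc]
    push_cast
    rfl
  rw [e1]
  have h2 : ω ^ j * conj ω ^ j = 1 := by rw [← mul_pow, hω1, one_pow]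
  calc (χ : G → ℂ) ((z : G) ^ j * (c : G)) * conj ((θ : C → ℂ) c)
      = (ω ^ j * conj ω ^ j) * ((χ : G → ℂ) ((z : G) ^ j * (c : G)) * conj ((θ : C → ℂ) c)) := by
        rw [h2, one_mul]
    _ = _ := by ring

/-- **The explicit form of the contributions** for the powers of `y`. -/
theorem contrib_lam [Fintype (Cfsg.IrrCharacter G)] {p : ℕ} (hp : p.Prime) (y : G) (k : ℕ)
    (hk : orderOf y = p ^ k) (C : Subgroup G) (hC : ∀ g : G, g ∈ C ↔ g * y = y * g)
    (e : Set (Cfsg.IrrCharacter C)) :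
    letI : Fintype C := Fintype.ofFinite _
    letI : Fintype (Cfsg.IrrCharacter C) := @Fintype.ofFinite _ (irr_finite _)
    ∃ ω : Cfsg.IrrCharacter C → ℂ,
      (∀ θ, ω θ ^ (p ^ k) = 1) ∧
      ∀ (χ ψ : Cfsg.IrrCharacter G) (j : ℕ),
        contrib p C e (y ^ j) (χ : G → ℂ) (ψ : G → ℂ) =
          ∑ θ : Cfsg.IrrCharacter C, ∑ θ' : Cfsg.IrrCharacter C,
              (open Classical in if θ ∈ e then
                (ω θ * conj (ω θ')) ^ j *
                  (Cfsg.classInner (fun c : C => (χ : G → ℂ) (c : G)) (θ : C → ℂ) *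
                    conj (Cfsg.classInner (fun c : C => (ψ : G → ℂ) (c : G)) (θ' : C → ℂ))) *
                  Cfsg.classInner (Cfsg.pRegularPart p (θ : C → ℂ)) (θ' : C → ℂ)
              else 0) := by
  classical
  letI : Fintype C := Fintype.ofFinite C
  have hfin := irr_finite C
  letI : Fintype (Cfsg.IrrCharacter C) := @Fintype.ofFinite _ hfin
  have hyC : y ∈ C := (hC y).2 rfl
  have hcy : ∀ c : C, (c : G) * y = y * (c : G) := fun c => (hC c).1 c.2
  set z : C := ⟨y, hyC⟩ with hz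
  have hzc : z ∈ Subgroup.center C := by
    rw [Subgroup.mem_center_iff]
    intro c
    apply Subtype.ext
    show (c : G) * y = y * (c : G)
    exact hcy c
  have hord : orderOf z = p ^ k := by
    rw [← hk, ← Subgroup.orderOf_coe]
  have hex : ∀ θ : Cfsg.IrrCharacter C, ∃ ω : ℂ, ω ^ (p ^ k) = 1 ∧
      ∀ (x : C) (j : ℕ), (θ : C → ℂ) (x * z ^ j) = ω ^ j * (θ : C → ℂ) x := by
    intro θ
    obtain ⟨ω, h1, h2⟩ := Cfsg.Agent.Lib.Helper75.central_scalar θ.2 z hzc
    exact ⟨ω, by rw [← hord]; exact h1, h2⟩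
  choose ω hω1 hω2 using hex
  have hωc : ∀ θ, ω θ * conj (ω θ) = 1 := by
    intro θ
    have h1 : ‖ω θ‖ = 1 :=
      Complex.norm_eq_one_of_pow_eq_one (hω1 θ) (pow_pos hp.pos k).ne'
    rw [Complex.mul_conj, Complex.normSq_eq_norm_sq, h1]
    simp
  refine ⟨ω, hω1, ?_⟩
  intro χ ψ j
  have hcomm : ∀ c : C, y ^ j * (c : G) = (c : G) * y ^ j := by
    intro c
    exact ((Commute.pow_right (hcy c) j).eq).symm
  have hsec : ∀ (φ : Cfsg.IrrCharacter G) (θ : Cfsg.IrrCharacter C),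
      Cfsg.classInner (fun c : C => (φ : G → ℂ) (y ^ j * (c : G))) (θ : C → ℂ) =
        ω θ ^ j * Cfsg.classInner (fun c : C => (φ : G → ℂ) (c : G)) (θ : C → ℂ) := by
    intro φ θ
    exact classInner_sec_pow C z hzc φ θ (ω θ) (hω2 θ) (hωc θ) j
  -- the truncated block part
  have hV : ∀ s : C, Cfsg.pRegularPart p (Cfsg.blockPart e
      (fun c : C => (χ : G → ℂ) (y ^ j * (c : G)))) s =
      ∑ θ : Cfsg.IrrCharacter C, if θ ∈ e then
        ω θ ^ j * Cfsg.classInner (fun c : C => (χ : G → ℂ) (c : G)) (θ : C → ℂ) *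
          Cfsg.pRegularPart p (θ : C → ℂ) s else 0 := by
    intro s
    rw [pRegularPart_apply']
    by_cases hs : p ∣ orderOf s
    · rw [if_pos hs]
      symm
      apply Finset.sum_eq_zero
      intro θ _
      rw [pRegularPart_apply', if_pos hs]
      simp
    · rw [if_neg hs]
      show ∑ᶠ θ ∈ e, Cfsg.classInner (fun c : C => (χ : G → ℂ) (y ^ j * (c : G)))
        (θ : C → ℂ) * (θ : C → ℂ) s = _
      rw [finsum_mem_eq_sum_ite]
      refine Finset.sum_congr rfl (fun θ _ => ?_)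
      rw [pRegularPart_apply', if_neg hs, hsec χ θ]
  have hW : ∀ s : C, (ψ : G → ℂ) ((y ^ j)⁻¹ * (s : G)⁻¹) =
      ∑ θ' : Cfsg.IrrCharacter C,
        conj (ω θ') ^ j * conj (Cfsg.classInner (fun c : C => (ψ : G → ℂ) (c : G))
          (θ' : C → ℂ)) * conj ((θ' : C → ℂ) s) := by
    intro s
    have h1 : (y ^ j)⁻¹ * (s : G)⁻¹ = (y ^ j * (s : G))⁻¹ := by
      rw [hcomm s, mul_inv_rev]
    rw [h1, irr_inv ψ]
    have h2 := Cfsg.Agent.Lib.Helper80.classFun_expansion_apply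
      (fun c : C => (ψ : G → ℂ) (y ^ j * (c : G))) (isClassFunction_sec C (y ^ j) hcomm ψ) s
    rw [h2, map_sum]
    refine Finset.sum_congr rfl (fun θ' _ => ?_)
    rw [hsec ψ θ', map_mul, map_mul, map_pow]
  unfold contrib
  simp_rw [hV, hW]
  rw [sum_prod_interchange (Nat.card C : ℂ)⁻¹
    (fun (θ : Cfsg.IrrCharacter C) (s : C) => if θ ∈ e then
        ω θ ^ j * Cfsg.classInner (fun c : C => (χ : G → ℂ) (c : G)) (θ : C → ℂ) *
          Cfsg.pRegularPart p (θ : C → ℂ) s else 0)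
    (fun (θ' : Cfsg.IrrCharacter C) (s : C) =>
        conj (ω θ') ^ j * conj (Cfsg.classInner (fun c : C => (ψ : G → ℂ) (c : G))
          (θ' : C → ℂ)) * conj ((θ' : C → ℂ) s))]
  refine Finset.sum_congr rfl (fun θ _ => ?_)
  refine Finset.sum_congr rfl (fun θ' _ => ?_)
  by_cases hθ : θ ∈ e
  · simp only [if_pos hθ]
    have hQ : Cfsg.classInner (Cfsg.pRegularPart p (θ : C → ℂ)) (θ' : C → ℂ) =
        (Nat.card C : ℂ)⁻¹ * ∑ s : C, Cfsg.pRegularPart p (θ : C → ℂ) s *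
          conj ((θ' : C → ℂ) s) := rfl
    rw [hQ]
    generalize Cfsg.classInner (fun c : C => (χ : G → ℂ) (c : G)) (θ : C → ℂ) = a
    generalize conj (Cfsg.classInner (fun c : C => (ψ : G → ℂ) (c : G)) (θ' : C → ℂ)) = b
    have hterm : ∀ s : C, ω θ ^ j * a * Cfsg.pRegularPart p (θ : C → ℂ) s *
        (conj (ω θ') ^ j * b * conj ((θ' : C → ℂ) s)) =
        (ω θ ^ j * conj (ω θ') ^ j * (a * b)) *
          (Cfsg.pRegularPart p (θ : C → ℂ) s * conj ((θ' : C → ℂ) s)) := fun s => by ring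
    rw [Finset.sum_congr rfl (fun s _ => hterm s), ← Finset.mul_sum, mul_pow]
    ring
  · simp only [if_neg hθ, zero_mul, Finset.sum_const_zero, mul_zero]

end Contrib

end Cfsg.Agent.Lib.Helper76
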