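import Mathlib
import Cfsg.Prelude.Def_Blocks
import Cfsg.Agent.Lib.Helper76.Contribution
import Cfsg.Agent.Lib.Helper76.PRegHeight
import Cfsg.Agent.Lib.Helper79.ClassMult

/-!
# Integrality and the unit property of the contributions

For a block `e` of `C` inducing `B`, characters `χ, ψ ∈ B` of height zero and the powers `y ^ j`
of a `p`-element `y` with centralizer `C`, the numbers `p ^ d(e) * contrib (y ^ j) χ ψ` are of the
form `∑ c i * r i ^ j` with integers `c i`, `p ^ k`-th roots of unity `r i` and `p ∤ ∑ c i`.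
-/

set_option autoImplicit false

namespace Cfsg.Agent.Lib.Helper76

open Cfsg Cfsg.Agent.Lib.Helper16 Cfsg.Agent.Lib.Helper26 Cfsg.Agent.Lib.Helper78
  Cfsg.Agent.Lib.Helper81
open scoped ComplexConjugate

section GenericK

variable {K : Type*} [Group K] [Fintype K]

/-- Conjugate symmetry of the inner products of truncations. -/
theorem truncInner_conj (p : ℕ) (θ θ' : K → ℂ) :
    conj (Cfsg.classInner (Cfsg.pRegularPart p θ) θ') =
      Cfsg.classInner (Cfsg.pRegularPart p θ') θ := by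
  unfold Cfsg.classInner
  rw [map_mul, map_inv₀, map_natCast, map_sum]
  congr 1
  refine Finset.sum_congr rfl (fun g _ => ?_)
  rw [pRegularPart_apply', pRegularPart_apply', map_mul, Complex.conj_conj]
  by_cases h : p ∣ orderOf g
  · simp [h]
  · simp only [if_neg h]
    ring

/-- The central character at the conjugate truncation, in terms of inner products. -/
theorem omega_pRegConj_mul (p : ℕ) (θ' θ : K → ℂ) (h1 : θ' 1 ≠ 0) :
    omega θ' (pRegConj p θ) * θ' 1 =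
      (Nat.card K : ℂ) * Cfsg.classInner (Cfsg.pRegularPart p θ') θ := by
  have hK : (Nat.card K : ℂ) ≠ 0 := by exact_mod_cast Nat.card_pos.ne'
  unfold omega Cfsg.classInner
  rw [← Finset.sum_div, div_mul_cancel₀ _ h1, ← mul_assoc, mul_inv_cancel₀ hK, one_mul]
  refine Finset.sum_congr rfl (fun g _ => ?_)
  unfold pRegConj
  rw [pRegularPart_apply']
  by_cases h : p ∣ orderOf g
  · simp [h]
  · simp only [if_neg h]
    ring

/-- Degrees in a block: `p ^ (a - d)` divides all degrees, and the quotient is prime to `p` for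
the characters of height zero. -/
theorem degree_block_facts {p : ℕ} [Fact p.Prime] (e : Set (Cfsg.IrrCharacter K)) :
    Cfsg.blockDefect p e ≤ (Nat.card K).factorization p ∧
    (∀ θ ∈ e, p ^ ((Nat.card K).factorization p - Cfsg.blockDefect p e) ∣
      Cfsg.charDegree (θ : K → ℂ)) ∧
    (∀ ξ ∈ e, Cfsg.blockHeight p e (ξ : K → ℂ) = 0 →
      ¬ p ∣ Cfsg.charDegree (ξ : K → ℂ) /
        p ^ ((Nat.card K).factorization p - Cfsg.blockDefect p e)) := by
  have hp : p.Prime := Fact.out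
  set S := (fun χ : Cfsg.IrrCharacter K => (Cfsg.charDegree (χ : K → ℂ)).factorization p) '' e
    with hS
  have hd : Cfsg.blockDefect p e = (Nat.card K).factorization p - sInf S := rfl
  have key : ∀ θ ∈ e, sInf S ≤ (Cfsg.charDegree (θ : K → ℂ)).factorization p ∧
      (Cfsg.charDegree (θ : K → ℂ)).factorization p ≤ (Nat.card K).factorization p := by
    intro θ hθ
    refine ⟨Nat.sInf_le ⟨θ, hθ, rfl⟩, ?_⟩
    obtain ⟨-, hpos, hdvd⟩ := Cfsg.Agent.Lib.Helper79.irr_charDegree θ.2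
    exact (Nat.factorization_le_iff_dvd hpos.ne' Nat.card_pos.ne').mpr hdvd p
  refine ⟨by rw [hd]; exact Nat.sub_le _ _, fun θ hθ => ?_, fun ξ hξ h0 => ?_⟩
  · obtain ⟨h1, h2⟩ := key θ hθ
    have h3 : (Nat.card K).factorization p - Cfsg.blockDefect p e = sInf S := by
      rw [hd]
      exact Nat.sub_sub_self (h1.trans h2)
    rw [h3]
    exact (pow_dvd_pow p h1).trans (Nat.ordProj_dvd _ p)
  · obtain ⟨h1, h2⟩ := key ξ hξ
    have h3 : (Nat.card K).factorization p - Cfsg.blockDefect p e = sInf S := by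
      rw [hd]
      exact Nat.sub_sub_self (h1.trans h2)
    have h4 : (Cfsg.charDegree (ξ : K → ℂ)).factorization p = sInf S := by
      have : (Cfsg.charDegree (ξ : K → ℂ)).factorization p - sInf S = 0 := h0
      omega
    rw [h3, ← h4]
    obtain ⟨-, hpos, -⟩ := Cfsg.Agent.Lib.Helper79.irr_charDegree ξ.2
    exact Nat.not_dvd_ordCompl hp hpos.ne'

/-- `p ^ d` times the inner product of the truncation of a member of a block with an irreducible
character is an integer, zero outside the block. -/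
theorem exists_int_truncInner [Fintype (Cfsg.IrrCharacter K)] {p : ℕ} [Fact p.Prime]
    {M : Ideal Cfsg.AlgInt} (hM : Cfsg.IsPModular p M) (e : Set (Cfsg.IrrCharacter K))
    (he : Cfsg.IsPBlock M e) (θ : Cfsg.IrrCharacter K) (hθ : θ ∈ e) :
    ∃ z : Cfsg.IrrCharacter K → ℤ, (∀ θ', θ' ∉ e → z θ' = 0) ∧
      ∀ θ' : Cfsg.IrrCharacter K, ((p ^ Cfsg.blockDefect p e : ℕ) : ℂ) *
        Cfsg.classInner (Cfsg.pRegularPart p (θ : K → ℂ)) (θ' : K → ℂ) = (z θ' : ℂ) := by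
  classical
  have hp : p.Prime := Fact.out
  obtain ⟨c, hc0, hcexp⟩ := pRegular_block_expansion_min p M hM e he θ hθ
  set E := (Nat.card K).factorization p - (Cfsg.charDegree (θ : K → ℂ)).factorization p with hE
  have hfun : (fun x : K => if p ∣ orderOf x then (0 : ℂ) else
      ((p ^ E : ℕ) : ℂ) * (θ : K → ℂ) x) =
      ∑ ψ : Cfsg.IrrCharacter K, (c ψ : ℂ) • (ψ : K → ℂ) := by
    funext x
    rw [hcexp x, Finset.sum_apply]
    rfl
  have hinner : ∀ ψ : Cfsg.IrrCharacter K, Cfsg.classInner (fun x : K => if p ∣ orderOf x then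
      (0 : ℂ) else ((p ^ E : ℕ) : ℂ) * (θ : K → ℂ) x) (ψ : K → ℂ) = (c ψ : ℂ) := by
    intro ψ
    rw [hfun, classInner_expansion_irr]
  have hlin : ∀ ψ : Cfsg.IrrCharacter K, Cfsg.classInner (fun x : K => if p ∣ orderOf x then
      (0 : ℂ) else ((p ^ E : ℕ) : ℂ) * (θ : K → ℂ) x) (ψ : K → ℂ) =
      ((p ^ E : ℕ) : ℂ) * Cfsg.classInner (Cfsg.pRegularPart p (θ : K → ℂ)) (ψ : K → ℂ) := by
    intro ψ
    unfold Cfsg.classInner
    rw [mul_left_comm]
    congr 1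
    rw [Finset.mul_sum]
    refine Finset.sum_congr rfl (fun g _ => ?_)
    rw [pRegularPart_apply']
    by_cases h : p ∣ orderOf g
    · simp [h]
    · simp only [if_neg h]
      ring
  have hEd : E ≤ Cfsg.blockDefect p e := by
    have h1 : sInf ((fun χ : Cfsg.IrrCharacter K =>
        (Cfsg.charDegree (χ : K → ℂ)).factorization p) '' e) ≤
        (Cfsg.charDegree (θ : K → ℂ)).factorization p := Nat.sInf_le ⟨θ, hθ, rfl⟩
    have h2 : Cfsg.blockDefect p e = (Nat.card K).factorization p - sInf ((fun χ :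
        Cfsg.IrrCharacter K => (Cfsg.charDegree (χ : K → ℂ)).factorization p) '' e) := rfl
    rw [h2, hE]
    omega
  refine ⟨fun θ' => (p : ℤ) ^ (Cfsg.blockDefect p e - E) * c θ', fun θ' hθ' => ?_, fun θ' => ?_⟩
  · simp only [hc0 θ' hθ', mul_zero]
  · have h1 := (hlin θ').symm.trans (hinner θ')
    have h2 : ((p ^ Cfsg.blockDefect p e : ℕ) : ℂ) =
        ((p : ℂ) ^ (Cfsg.blockDefect p e - E)) * ((p ^ E : ℕ) : ℂ) := by
      push_cast
      rw [← pow_add, Nat.sub_add_cancel hEd]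
    rw [h2, mul_assoc, h1]
    push_cast
    rfl

end GenericK

section Unit

variable {G : Type*} [Group G] [Fintype G]

/-- **The unit property**, in integer form. -/
theorem unit_core {p : ℕ} [Fact p.Prime] {M : Ideal Cfsg.AlgInt} (hM : Cfsg.IsPModular p M)
    (C : Subgroup G) [Fintype C] [Fintype (Cfsg.IrrCharacter C)]
    (e : Set (Cfsg.IrrCharacter C)) [DecidablePred (· ∈ e)] (B : Set (Cfsg.IrrCharacter G))
    (hind : Cfsg.IsInducedBlock M C e B) (χ ψ : Cfsg.IrrCharacter G) (hχ : χ ∈ B) (hψ : ψ ∈ B)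
    (h0χ : Cfsg.blockHeight p B (χ : G → ℂ) = 0) (h0ψ : Cfsg.blockHeight p B (ψ : G → ℂ) = 0)
    (nχ nψ : Cfsg.IrrCharacter C → ℕ)
    (hnχ : (fun c : C => (χ : G → ℂ) (c : G)) =
      ∑ θ : Cfsg.IrrCharacter C, (nχ θ : ℂ) • (θ : C → ℂ))
    (hnψ : (fun c : C => (ψ : G → ℂ) (c : G)) =
      ∑ θ : Cfsg.IrrCharacter C, (nψ θ : ℂ) • (θ : C → ℂ))
    (z : Cfsg.IrrCharacter C → Cfsg.IrrCharacter C → ℤ)
    (hz : ∀ θ ∈ e, ∀ θ' : Cfsg.IrrCharacter C, ((p ^ Cfsg.blockDefect p e : ℕ) : ℂ) *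
      Cfsg.classInner (Cfsg.pRegularPart p (θ : C → ℂ)) (θ' : C → ℂ) = (z θ θ' : ℂ)) :
    ¬ (p : ℤ) ∣ ∑ θ ∈ Finset.univ.filter (· ∈ e), ∑ θ' ∈ Finset.univ.filter (· ∈ e),
      (nχ θ : ℤ) * (nψ θ' : ℤ) * z θ θ' := by
  have hMp := isPrime_of_isPModular hM
  have hp : p.Prime := Fact.out
  have he := hind.1
  obtain ⟨ξ, hξ, hξ0⟩ := exists_height_zero p e (IsPBlock.nonempty hMp he)
  set a := (Nat.card C).factorization p with ha
  set d := Cfsg.blockDefect p e with hd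
  obtain ⟨hda, hdvd, hξD⟩ := degree_block_facts (p := p) e
  set D : Cfsg.IrrCharacter C → ℕ := fun θ => Cfsg.charDegree (θ : C → ℂ) / p ^ (a - d) with hD
  have hDeq : ∀ θ ∈ e, Cfsg.charDegree (θ : C → ℂ) = p ^ (a - d) * D θ :=
    fun θ hθ => (Nat.mul_div_cancel' (hdvd θ hθ)).symm
  set c' := Nat.card C / p ^ a with hc'def
  have hcard : Nat.card C = p ^ a * c' := (Nat.ordProj_mul_ordCompl_eq_self _ p).symm
  have hc' : ¬ p ∣ c' := Nat.not_dvd_ordCompl hp Nat.card_pos.ne'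
  have hdeg : ∀ θ : Cfsg.IrrCharacter C, (θ : C → ℂ) 1 = (Cfsg.charDegree (θ : C → ℂ) : ℂ) ∧
      0 < Cfsg.charDegree (θ : C → ℂ) := fun θ =>
    ⟨(Cfsg.Agent.Lib.Helper79.irr_charDegree θ.2).1,
      (Cfsg.Agent.Lib.Helper79.irr_charDegree θ.2).2.1⟩
  set Ω : Cfsg.IrrCharacter C → Cfsg.IrrCharacter C → ℂ :=
    fun θ' θ => omega (θ' : C → ℂ) (pRegConj p (θ : C → ℂ)) with hΩ
  have hΩR : ∀ θ' θ, MemLocalRing M (Ω θ' θ) := fun θ' θ =>
    memLocalRing_omega hMp θ' (isRClass_pRegConj hMp p θ)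
  have hΩsub : ∀ θ' ∈ e, ∀ ξ' ∈ e, ∀ θ, MemLocalIdeal M (Ω θ' θ - Ω ξ' θ) :=
    fun θ' hθ' ξ' hξ' θ => memLocalIdeal_omega_sub hMp (IsPBlock.sameBlock hMp he hθ' hξ')
      (isRClass_pRegConj hMp p θ)
  have hΩ0 : ∀ ξ' ∈ e, ∀ θ, θ ∉ e → Ω ξ' θ = 0 := by
    intro ξ' hξ' θ hθ
    show omega (ξ' : C → ℂ) (pRegConj p (θ : C → ℂ)) = 0
    rw [← omegaF_eq]
    exact omegaF_pRegConj_eq_zero hM e he ξ' hξ' θ hθ
  have hθ1 : ∀ θ : Cfsg.IrrCharacter C, (θ : C → ℂ) 1 ≠ 0 := by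
    intro θ
    rw [(hdeg θ).1]
    exact_mod_cast (hdeg θ).2.ne'
  have hF4 : ∀ θ' θ : Cfsg.IrrCharacter C, Ω θ' θ * (θ' : C → ℂ) 1 =
      (Nat.card C : ℂ) * Cfsg.classInner (Cfsg.pRegularPart p (θ' : C → ℂ)) (θ : C → ℂ) :=
    fun θ' θ => omega_pRegConj_mul p _ _ (hθ1 θ')
  have hpa : (p : ℂ) ^ a = (p : ℂ) ^ d * (p : ℂ) ^ (a - d) := by
    rw [← pow_add, Nat.add_sub_cancel' hda]
  have hp0 : (p : ℂ) ≠ 0 := by exact_mod_cast hp.ne_zero
  have hpad : (p : ℂ) ^ (a - d) ≠ 0 := pow_ne_zero _ hp0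
  have hdegD : ∀ θ ∈ e, (θ : C → ℂ) 1 = (p : ℂ) ^ (a - d) * (D θ : ℂ) := by
    intro θ hθ
    rw [(hdeg θ).1, hDeq θ hθ]
    push_cast
    rfl
  have hcardC : (Nat.card C : ℂ) = (p : ℂ) ^ a * (c' : ℂ) := by
    rw [hcard]; push_cast; rfl
  -- symmetry
  have hsymm : ∀ θ ∈ e, ∀ θ' : Cfsg.IrrCharacter C,
      Cfsg.classInner (Cfsg.pRegularPart p (θ' : C → ℂ)) (θ : C → ℂ) =
      Cfsg.classInner (Cfsg.pRegularPart p (θ : C → ℂ)) (θ' : C → ℂ) := by
    intro θ hθ θ'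
    rw [← truncInner_conj]
    have h1 := hz θ hθ θ'
    have hpd : ((p ^ d : ℕ) : ℂ) ≠ 0 := by exact_mod_cast (pow_pos hp.pos d).ne'
    have h2 : Cfsg.classInner (Cfsg.pRegularPart p (θ : C → ℂ)) (θ' : C → ℂ) =
        (z θ θ' : ℂ) / ((p ^ d : ℕ) : ℂ) := by
      rw [← h1, mul_div_cancel_left₀ _ hpd]
    rw [h2, map_div₀, map_intCast, map_natCast]
  -- (★)
  have hstar : ∀ θ ∈ e, ∀ θ' ∈ e, (z θ θ' : ℂ) * (c' : ℂ) = (D θ' : ℂ) * Ω θ' θ := by
    intro θ hθ θ' hθ'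
    have h1 := hz θ hθ θ'
    have h3 := hF4 θ' θ
    rw [hsymm θ hθ θ'] at h3
    apply mul_right_cancel₀ (hθ1 θ')
    calc (z θ θ' : ℂ) * (c' : ℂ) * (θ' : C → ℂ) 1
        = ((p ^ d : ℕ) : ℂ) * Cfsg.classInner (Cfsg.pRegularPart p (θ : C → ℂ)) (θ' : C → ℂ) *
            (c' : ℂ) * ((p : ℂ) ^ (a - d) * (D θ' : ℂ)) := by rw [h1, hdegD θ' hθ']
      _ = (D θ' : ℂ) * ((Nat.card C : ℂ) *
            Cfsg.classInner (Cfsg.pRegularPart p (θ : C → ℂ)) (θ' : C → ℂ)) := by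
          rw [hcardC, hpa]; push_cast; ring
      _ = (D θ' : ℂ) * Ω θ' θ * (θ' : C → ℂ) 1 := by rw [← h3]; ring
  -- restriction of the conjugate truncation
  have hX : ∀ (φ : Cfsg.IrrCharacter G) (nφ : Cfsg.IrrCharacter C → ℕ),
      (fun c : C => (φ : G → ℂ) (c : G)) =
        ∑ θ : Cfsg.IrrCharacter C, (nφ θ : ℂ) • (θ : C → ℂ) →
      Cfsg.Agent.Lib.Helper77.omegaF (ξ : C → ℂ) (fun k : C => pRegConj p (φ : G → ℂ) (k : G)) =
        ∑ θ ∈ Finset.univ.filter (· ∈ e), (nφ θ : ℂ) * Ω ξ θ := by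
    intro φ nφ hn
    rw [omegaF_eq]
    have hres : ∀ k : C, pRegConj p (φ : G → ℂ) (k : G) =
        ∑ θ : Cfsg.IrrCharacter C, (nφ θ : ℂ) * pRegConj p (θ : C → ℂ) k := by
      intro k
      unfold pRegConj
      rw [Subgroup.orderOf_coe]
      by_cases h : p ∣ orderOf k
      · simp [h]
      · simp only [if_neg h]
        have h1 := congrFun hn k
        simp only [Finset.sum_apply, Pi.smul_apply, smul_eq_mul] at h1
        rw [h1, map_sum]
        refine Finset.sum_congr rfl (fun θ _ => ?_)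
        rw [map_mul, map_natCast]
    have hterm : ∀ θ : Cfsg.IrrCharacter C, ∑ k : C, (nφ θ : ℂ) * pRegConj p (θ : C → ℂ) k *
        (ξ : C → ℂ) k / (ξ : C → ℂ) 1 = (nφ θ : ℂ) * Ω ξ θ := by
      intro θ
      show _ = (nφ θ : ℂ) * omega (ξ : C → ℂ) (pRegConj p (θ : C → ℂ))
      unfold omega
      rw [Finset.mul_sum]
      refine Finset.sum_congr rfl (fun k _ => ?_)
      ring
    unfold omega
    simp_rw [hres, Finset.sum_mul, Finset.sum_div]
    rw [Finset.sum_comm, Finset.sum_filter]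
    refine Finset.sum_congr rfl (fun θ _ => ?_)
    rw [hterm θ]
    split_ifs with hθ
    · rfl
    · rw [hΩ0 ξ hξ θ hθ, mul_zero]
  have hXχ := not_memLocalIdeal_omegaF_res_pRegConj hM C e B hind χ hχ h0χ ξ hξ
  rw [hX χ nχ hnχ] at hXχ
  have hXψ := not_memLocalIdeal_omegaF_res_pRegConj hM C e B hind ψ hψ h0ψ ξ hξ
  rw [hX ψ nψ hnψ] at hXψ
  set s := Finset.univ.filter (· ∈ e) with hs
  have hmem : ∀ θ, θ ∈ s ↔ θ ∈ e := by intro θ; simp [hs]
  set T : Cfsg.IrrCharacter C → ℂ := fun θ' => ∑ θ ∈ s, (nχ θ : ℂ) * Ω θ' θ with hT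
  set Y : ℕ := ∑ θ' ∈ s, nψ θ' * D θ' with hY
  set N : ℤ := ∑ θ ∈ s, ∑ θ' ∈ s, (nχ θ : ℤ) * (nψ θ' : ℤ) * z θ θ' with hN
  have hF8 : (N : ℂ) * (c' : ℂ) = ∑ θ' ∈ s, ((nψ θ' : ℂ) * (D θ' : ℂ)) * T θ' := by
    calc (N : ℂ) * (c' : ℂ)
        = ∑ θ ∈ s, ∑ θ' ∈ s, (nχ θ : ℂ) * (nψ θ' : ℂ) * ((z θ θ' : ℂ) * (c' : ℂ)) := by
          rw [hN]
          push_cast
          rw [Finset.sum_mul]
          refine Finset.sum_congr rfl (fun θ _ => ?_)
          rw [Finset.sum_mul]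
          refine Finset.sum_congr rfl (fun θ' _ => ?_)
          ring
      _ = ∑ θ ∈ s, ∑ θ' ∈ s, (nχ θ : ℂ) * (nψ θ' : ℂ) * ((D θ' : ℂ) * Ω θ' θ) := by
          refine Finset.sum_congr rfl (fun θ hθ => Finset.sum_congr rfl (fun θ' hθ' => ?_))
          rw [hstar θ ((hmem θ).1 hθ) θ' ((hmem θ').1 hθ')]
      _ = ∑ θ' ∈ s, ∑ θ ∈ s, (nχ θ : ℂ) * (nψ θ' : ℂ) * ((D θ' : ℂ) * Ω θ' θ) :=
          Finset.sum_comm
      _ = ∑ θ' ∈ s, ((nψ θ' : ℂ) * (D θ' : ℂ)) * T θ' := by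
          refine Finset.sum_congr rfl (fun θ' _ => ?_)
          rw [hT]
          simp only
          rw [Finset.mul_sum]
          refine Finset.sum_congr rfl (fun θ _ => ?_)
          ring
  have hTsub : ∀ θ' ∈ s, MemLocalIdeal M (T θ' - T ξ) := by
    intro θ' hθ'
    rw [hT]
    simp only
    rw [← Finset.sum_sub_distrib]
    refine memLocalIdeal_sum hMp _ _ (fun θ _ => ?_)
    rw [← mul_sub]
    exact memLocalIdeal_mul_left hMp (memLocalRing_natCast hMp _)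
      (hΩsub θ' ((hmem θ').1 hθ') ξ hξ θ)
  have hF9 : MemLocalIdeal M ((N : ℂ) * (c' : ℂ) - (Y : ℂ) * T ξ) := by
    have h1 : (N : ℂ) * (c' : ℂ) - (Y : ℂ) * T ξ =
        ∑ θ' ∈ s, ((nψ θ' : ℂ) * (D θ' : ℂ)) * (T θ' - T ξ) := by
      rw [hF8, hY]
      push_cast
      rw [Finset.sum_mul, ← Finset.sum_sub_distrib]
      refine Finset.sum_congr rfl (fun θ' _ => ?_)
      ring
    rw [h1]
    exact memLocalIdeal_sum hMp _ _ (fun θ' hθ' => memLocalIdeal_mul_left hMp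
      (memLocalRing_mul hMp (memLocalRing_natCast hMp _) (memLocalRing_natCast hMp _))
      (hTsub θ' hθ'))
  have hYnd : ¬ p ∣ Y := by
    intro hpY
    have hss : ∀ θ' ∈ s, (D ξ : ℂ) * Ω ξ θ' = (D θ' : ℂ) * Ω θ' ξ := by
      intro θ' hθ'
      have hθ'e := (hmem θ').1 hθ'
      have h1 := hF4 ξ θ'
      have h2 := hF4 θ' ξ
      rw [hsymm ξ hξ θ'] at h2
      have h5 : Ω ξ θ' * ((p : ℂ) ^ (a - d) * (D ξ : ℂ)) =
          Ω θ' ξ * ((p : ℂ) ^ (a - d) * (D θ' : ℂ)) := by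
        rw [← hdegD ξ hξ, ← hdegD θ' hθ'e, h1, h2]
      apply mul_left_cancel₀ hpad
      linear_combination h5
    have h6 : (D ξ : ℂ) * (∑ θ ∈ s, (nψ θ : ℂ) * Ω ξ θ) - (Y : ℂ) * Ω ξ ξ =
        ∑ θ' ∈ s, ((nψ θ' : ℂ) * (D θ' : ℂ)) * (Ω θ' ξ - Ω ξ ξ) := by
      rw [hY]
      push_cast
      rw [Finset.mul_sum, Finset.sum_mul, ← Finset.sum_sub_distrib]
      refine Finset.sum_congr rfl (fun θ' hθ' => ?_)
      have := hss θ' hθ'
      linear_combination (nψ θ' : ℂ) * this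
    have h7 : MemLocalIdeal M ((D ξ : ℂ) * (∑ θ ∈ s, (nψ θ : ℂ) * Ω ξ θ) - (Y : ℂ) * Ω ξ ξ) := by
      rw [h6]
      exact memLocalIdeal_sum hMp _ _ (fun θ' hθ' => memLocalIdeal_mul_left hMp
        (memLocalRing_mul hMp (memLocalRing_natCast hMp _) (memLocalRing_natCast hMp _))
        (hΩsub θ' ((hmem θ').1 hθ') ξ hξ ξ))
    have h8 : MemLocalIdeal M ((Y : ℂ) * Ω ξ ξ) :=
      memLocalIdeal_mul_right hMp ((memLocalIdeal_natCast_iff hM Y).mpr hpY) (hΩR ξ ξ)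
    have h9 := memLocalIdeal_add hMp h7 h8
    rw [sub_add_cancel] at h9
    exact hXψ (memLocalIdeal_of_natCast_mul hM (hξD ξ hξ hξ0) h9)
  intro hpN
  have h1 : MemLocalIdeal M ((N : ℂ) * (c' : ℂ)) :=
    memLocalIdeal_mul_right hMp (memLocalIdeal_intCast_of_dvd hM N hpN)
      (memLocalRing_natCast hMp _)
  have h2 := memLocalIdeal_sub hMp h1 hF9
  rw [sub_sub_cancel] at h2
  have hTR : MemLocalRing M (T ξ) := memLocalRing_sum hMp _ _
    (fun θ _ => memLocalRing_mul hMp (memLocalRing_natCast hMp _) (hΩR ξ θ))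
  rcases memLocalIdeal_or_of_mul hMp (memLocalRing_natCast hMp Y) hTR h2 with h | h
  · exact hYnd ((memLocalIdeal_natCast_iff hM Y).mp h)
  · exact hXχ h

end Unit

end Cfsg.Agent.Lib.Helper76
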