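import Mathlib

/-!
# Averaging a cyclotomic integer over the primitive powers

For integers `c i` and `p ^ k`-th roots of unity `r i` with `p ∤ ∑ c i`, the sum over the
`j < p ^ k` prime to `p` of `|∑ c i * r i ^ j|²` is at least `φ (p ^ k)`.
-/

set_option autoImplicit false

namespace Cfsg.Agent.Lib.Helper76

open Finset
open scoped ComplexConjugate

/-- An integer inequality on at most `p` integers: `p ∑ a² - (∑ a)² ≥ 0`, and `≥ p - 1` if `p`
does not divide the sum. -/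
theorem int_fiber_ineq (p : ℕ) (hp : 2 ≤ p) {α : Type*} (F : Finset α) (hF : F.card ≤ p)
    (a : α → ℤ) :
    0 ≤ (p : ℤ) * ∑ i ∈ F, a i ^ 2 - (∑ i ∈ F, a i) ^ 2 ∧
    (¬ (p : ℤ) ∣ ∑ i ∈ F, a i →
      (p : ℤ) - 1 ≤ (p : ℤ) * ∑ i ∈ F, a i ^ 2 - (∑ i ∈ F, a i) ^ 2) := by
  set A := ∑ i ∈ F, a i with hA
  set q := A / (p : ℤ) with hq
  set ρ := A % (p : ℤ) with hρ
  have hp0 : (0 : ℤ) < (p : ℤ) := by exact_mod_cast (by omega : 0 < p)
  have hpq : (p : ℤ) * q + ρ = A := Int.mul_ediv_add_emod A p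
  have hρ0 : 0 ≤ ρ := Int.emod_nonneg _ hp0.ne'
  have hρp : ρ < p := Int.emod_lt_of_pos _ hp0
  have hm : (F.card : ℤ) ≤ p := by exact_mod_cast hF
  have h1 : ∑ i ∈ F, (a i - q) ^ 2 = ∑ i ∈ F, a i ^ 2 - 2 * q * A + F.card * q ^ 2 := by
    have : ∀ i ∈ F, (a i - q) ^ 2 = a i ^ 2 - 2 * q * a i + q ^ 2 := fun i _ => by ring
    rw [Finset.sum_congr rfl this, Finset.sum_add_distrib, Finset.sum_sub_distrib,
      ← Finset.mul_sum, Finset.sum_const, nsmul_eq_mul]
  have key : (p : ℤ) * ∑ i ∈ F, a i ^ 2 - A ^ 2 =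
      (p : ℤ) * (∑ i ∈ F, (a i - q) ^ 2 + ((p : ℤ) - F.card) * q ^ 2) - ρ ^ 2 := by
    rw [h1]
    have : ρ = A - p * q := by linarith
    rw [this]
    ring
  have hb : ρ ≤ ∑ i ∈ F, (a i - q) ^ 2 + ((p : ℤ) - F.card) * q ^ 2 := by
    have h2 : ∑ i ∈ F, (a i - q) ≤ ∑ i ∈ F, (a i - q) ^ 2 :=
      Finset.sum_le_sum (fun i _ => Int.le_self_sq _)
    have h3 : ∑ i ∈ F, (a i - q) = A - F.card * q := by
      rw [Finset.sum_sub_distrib, Finset.sum_const, nsmul_eq_mul]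
    have h4 : -q ≤ q ^ 2 := by
      have := Int.le_self_sq (-q)
      rwa [neg_sq] at this
    have h5 : ((p : ℤ) - F.card) * (-q) ≤ ((p : ℤ) - F.card) * q ^ 2 :=
      mul_le_mul_of_nonneg_left h4 (by linarith)
    have h6 : ρ = A - p * q := by linarith
    nlinarith
  have hb' : (p : ℤ) * ρ ≤ (p : ℤ) * (∑ i ∈ F, (a i - q) ^ 2 + ((p : ℤ) - F.card) * q ^ 2) :=
    mul_le_mul_of_nonneg_left hb hp0.le
  constructor
  · rw [key]
    nlinarith [mul_nonneg hρ0 (sub_nonneg.mpr hρp.le)]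
  · intro hnd
    have hρ1 : 1 ≤ ρ := by
      rcases (lt_or_eq_of_le hρ0) with h | h
      · omega
      · exfalso
        apply hnd
        rw [← hpq, ← h, add_zero]
        exact dvd_mul_right _ _
    rw [key]
    have h7 : ρ ≤ (p : ℤ) - 1 := by omega
    nlinarith [mul_nonneg (sub_nonneg.mpr hρ1) (sub_nonneg.mpr h7)]

/-- Parseval on the cyclic group of order `n`, in terms of roots of unity. -/
theorem sum_normSq_pow {ι : Type*} (s : Finset ι) (c : ι → ℤ) (r : ι → ℂ) (n : ℕ) (hn : 0 < n)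
    (hr : ∀ i ∈ s, r i ^ n = 1) :
    ∑ j ∈ Finset.range n, Complex.normSq (∑ i ∈ s, (c i : ℂ) * r i ^ j) =
      (n : ℝ) * ((∑ i ∈ s, ∑ i' ∈ s, (if r i = r i' then c i * c i' else 0) : ℤ) : ℝ) := by
  classical
  apply Complex.ofReal_injective
  push_cast
  have hnorm : ∀ i ∈ s, r i * conj (r i) = 1 := by
    intro i hi
    have h1 : ‖r i‖ = 1 := Complex.norm_eq_one_of_pow_eq_one (hr i hi) hn.ne'
    rw [Complex.mul_conj, Complex.normSq_eq_norm_sq, h1]
    simp
  have hgeom : ∀ i ∈ s, ∀ i' ∈ s, ∑ j ∈ Finset.range n, (r i * conj (r i')) ^ j =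
      if r i = r i' then (n : ℂ) else 0 := by
    intro i hi i' hi'
    by_cases h : r i = r i'
    · rw [if_pos h, h, hnorm i' hi']
      simp
    · rw [if_neg h]
      have hw : r i * conj (r i') ≠ 1 := by
        intro hw
        apply h
        have h2 := hnorm i' hi'
        have h3 : conj (r i') ≠ 0 := by
          intro h0
          rw [h0, mul_zero] at h2
          exact zero_ne_one h2
        exact mul_right_cancel₀ h3 (hw.trans h2.symm)
      have hwn : (r i * conj (r i')) ^ n = 1 := by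
        rw [mul_pow, ← map_pow, hr i hi, hr i' hi', map_one, mul_one]
      rw [geom_sum_eq hw, hwn, sub_self, zero_div]
  have h1 : ∀ j : ℕ, ((Complex.normSq (∑ i ∈ s, (c i : ℂ) * r i ^ j) : ℝ) : ℂ) =
      ∑ i ∈ s, ∑ i' ∈ s, (c i : ℂ) * (c i' : ℂ) * (r i * conj (r i')) ^ j := by
    intro j
    rw [← Complex.mul_conj, map_sum, Finset.sum_mul_sum]
    refine Finset.sum_congr rfl fun i _ => Finset.sum_congr rfl fun i' _ => ?_
    rw [map_mul, map_pow, map_intCast, mul_pow]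
    ring
  rw [Finset.sum_congr rfl fun j _ => h1 j, Finset.sum_comm, Finset.mul_sum]
  refine Finset.sum_congr rfl fun i hi => ?_
  rw [Finset.sum_comm, Finset.mul_sum]
  refine Finset.sum_congr rfl fun i' hi' => ?_
  rw [← Finset.mul_sum, hgeom i hi i' hi']
  split_ifs
  · push_cast; ring
  · simp

/-- Grouping the diagonal sum by the values of `r`. -/
theorem sum_diag_eq {ι : Type*} (s : Finset ι) (c : ι → ℤ) (r : ι → ℂ) :
    (∑ i ∈ s, ∑ i' ∈ s, (if r i = r i' then c i * c i' else 0)) =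
      ∑ ρ ∈ s.image r, (∑ i ∈ s.filter (fun i => r i = ρ), c i) ^ 2 := by
  classical
  have h1 : ∀ i ∈ s, (∑ i' ∈ s, (if r i = r i' then c i * c i' else 0)) =
      c i * ∑ i' ∈ s.filter (fun i' => r i' = r i), c i' := by
    intro i _
    rw [Finset.mul_sum, Finset.sum_filter]
    refine Finset.sum_congr rfl fun i' _ => ?_
    by_cases h : r i = r i'
    · rw [if_pos h, if_pos h.symm]
    · rw [if_neg h, if_neg (fun h' => h h'.symm)]
  rw [Finset.sum_congr rfl h1]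
  rw [← Finset.sum_fiberwise_of_maps_to (g := r) (t := s.image r)
    (fun i hi => Finset.mem_image_of_mem r hi)]
  refine Finset.sum_congr rfl fun ρ _ => ?_
  rw [sq, Finset.sum_mul]
  refine Finset.sum_congr rfl fun i hi => ?_
  rw [(Finset.mem_filter.mp hi).2]

/-- **Averaging lemma.** -/
theorem cyclo_avg {p : ℕ} (hp : p.Prime) (k : ℕ) {ι : Type*} (s : Finset ι) (c : ι → ℤ)
    (r : ι → ℂ) (hr : ∀ i ∈ s, r i ^ (p ^ k) = 1) (hc : ¬ (p : ℤ) ∣ ∑ i ∈ s, c i) :
    (Nat.totient (p ^ k) : ℝ) ≤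
      ∑ j ∈ (Finset.range (p ^ k)).filter (fun j => Nat.Coprime j (p ^ k)),
        Complex.normSq (∑ i ∈ s, (c i : ℂ) * r i ^ j) := by
  classical
  rcases Nat.eq_zero_or_pos k with hk | hk
  · subst hk
    have hne : (∑ i ∈ s, c i) ≠ 0 := by
      intro h0
      apply hc
      rw [h0]
      exact dvd_zero _
    have hfil : (Finset.range (p ^ 0)).filter (fun j => Nat.Coprime j (p ^ 0)) = {0} := by
      ext j
      simp
    rw [hfil, Finset.sum_singleton]
    simp only [pow_zero, mul_one, Nat.totient_one, Nat.cast_one]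
    have h1 : (∑ i ∈ s, (c i : ℂ)) = (((∑ i ∈ s, c i : ℤ) : ℝ) : ℂ) := by push_cast; rfl
    rw [h1, Complex.normSq_ofReal]
    have h2 : (1 : ℤ) ≤ (∑ i ∈ s, c i) * (∑ i ∈ s, c i) := by
      have := Int.one_le_abs hne
      nlinarith [abs_mul_abs_self (∑ i ∈ s, c i)]
    exact_mod_cast h2
  · obtain ⟨k', rfl⟩ : ∃ k', k = k' + 1 := ⟨k - 1, by omega⟩
    set n' := p ^ k' with hn'
    have hn'pos : 0 < n' := pow_pos hp.pos _
    have hnn : p ^ (k' + 1) = p * n' := by rw [pow_succ, mul_comm]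
    have hcop : ∀ j : ℕ, Nat.Coprime j (p ^ (k' + 1)) ↔ ¬ p ∣ j := by
      intro j
      rw [Nat.coprime_pow_right_iff (Nat.succ_pos k'), Nat.coprime_comm,
        Nat.Prime.coprime_iff_not_dvd hp]
    -- split the full sum
    set f : ℕ → ℝ := fun j => Complex.normSq (∑ i ∈ s, (c i : ℂ) * r i ^ j) with hf
    have hsplit : ∑ j ∈ (Finset.range (p ^ (k' + 1))).filter (fun j => Nat.Coprime j (p ^ (k' + 1))),
        f j = ∑ j ∈ Finset.range (p ^ (k' + 1)), f j - ∑ j' ∈ Finset.range n', f (p * j') := by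
      have h1 := Finset.sum_filter_add_sum_filter_not (Finset.range (p ^ (k' + 1)))
        (fun j => Nat.Coprime j (p ^ (k' + 1))) f
      have h2 : ∑ j ∈ (Finset.range (p ^ (k' + 1))).filter
          (fun j => ¬ Nat.Coprime j (p ^ (k' + 1))), f j = ∑ j' ∈ Finset.range n', f (p * j') := by
        symm
        apply Finset.sum_bij (fun j' _ => p * j')
        · intro j' hj'
          rw [Finset.mem_filter, Finset.mem_range, hcop, not_not, hnn]
          exact ⟨Nat.mul_lt_mul_of_pos_left (Finset.mem_range.mp hj') hp.pos, dvd_mul_right _ _⟩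
        · intro a _ b _ hab
          exact Nat.eq_of_mul_eq_mul_left hp.pos hab
        · intro j hj
          rw [Finset.mem_filter, Finset.mem_range, hcop, not_not, hnn] at hj
          obtain ⟨j', rfl⟩ := hj.2
          exact ⟨j', Finset.mem_range.mpr (Nat.lt_of_mul_lt_mul_left hj.1), rfl⟩
        · intro j' _
          rfl
      linarith
    rw [hsplit]
    have hfull := sum_normSq_pow s c r (p ^ (k' + 1)) (pow_pos hp.pos _) hr
    have hr' : ∀ i ∈ s, (r i ^ p) ^ n' = 1 := by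
      intro i hi
      rw [← pow_mul, ← hnn]
      exact hr i hi
    have hsub := sum_normSq_pow s c (fun i => r i ^ p) n' hn'pos hr'
    have hsub' : ∑ j' ∈ Finset.range n', f (p * j') =
        (n' : ℝ) * ((∑ i ∈ s, ∑ i' ∈ s, (if r i ^ p = r i' ^ p then c i * c i' else 0) : ℤ) : ℝ) := by
      rw [← hsub]
      refine Finset.sum_congr rfl fun j' _ => ?_
      rw [hf]
      simp only [pow_mul]
    rw [hfull, hsub', sum_diag_eq s c r, sum_diag_eq s c (fun i => r i ^ p)]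
    -- the integer inequality
    set R := s.image r with hR
    set a : ℂ → ℤ := fun ρ => ∑ i ∈ s.filter (fun i => r i = ρ), c i with ha
    set P := s.image (fun i => r i ^ p) with hP
    have hPR : P = R.image (fun ρ => ρ ^ p) := by
      rw [hP, hR, Finset.image_image]
      rfl
    have hA : ∀ τ ∈ P, (∑ i ∈ s.filter (fun i => r i ^ p = τ), c i) =
        ∑ ρ ∈ R.filter (fun ρ => ρ ^ p = τ), a ρ := by
      intro τ _
      rw [← Finset.sum_fiberwise_of_maps_to (g := r) (t := R.filter (fun ρ => ρ ^ p = τ))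
        (fun i hi => by
          rw [Finset.mem_filter] at hi ⊢
          exact ⟨Finset.mem_image_of_mem r hi.1, hi.2⟩)]
      refine Finset.sum_congr rfl fun ρ hρ => ?_
      rw [ha]
      simp only
      congr 1
      ext i
      simp only [Finset.mem_filter]
      constructor
      · rintro ⟨⟨h1, _⟩, h3⟩
        exact ⟨h1, h3⟩
      · rintro ⟨h1, h3⟩
        refine ⟨⟨h1, ?_⟩, h3⟩
        rw [h3]
        exact (Finset.mem_filter.mp hρ).2
    have hcard : ∀ τ ∈ P, (R.filter (fun ρ => ρ ^ p = τ)).card ≤ p := by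
      intro τ _
      have hsub : R.filter (fun ρ => ρ ^ p = τ) ⊆ (Polynomial.nthRoots p τ).toFinset := by
        intro ρ hρ
        rw [Multiset.mem_toFinset, Polynomial.mem_nthRoots hp.pos]
        exact (Finset.mem_filter.mp hρ).2
      calc (R.filter (fun ρ => ρ ^ p = τ)).card ≤ (Polynomial.nthRoots p τ).toFinset.card :=
            Finset.card_le_card hsub
        _ ≤ Multiset.card (Polynomial.nthRoots p τ) := Multiset.toFinset_card_le _
        _ ≤ p := Polynomial.card_nthRoots p τ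
    have hT1 : ∑ ρ ∈ R, (a ρ) ^ 2 = ∑ τ ∈ P, ∑ ρ ∈ R.filter (fun ρ => ρ ^ p = τ), (a ρ) ^ 2 := by
      rw [hPR]
      exact (Finset.sum_fiberwise_of_maps_to (g := fun ρ : ℂ => ρ ^ p)
        (fun ρ hρ => Finset.mem_image_of_mem _ hρ) _).symm
    have hsumA : ∑ τ ∈ P, ∑ ρ ∈ R.filter (fun ρ => ρ ^ p = τ), a ρ = ∑ i ∈ s, c i := by
      rw [← Finset.sum_fiberwise_of_maps_to (g := fun i => r i ^ p) (t := P)
        (fun i hi => Finset.mem_image_of_mem _ hi)]
      refine Finset.sum_congr rfl fun τ hτ => ?_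
      rw [hA τ hτ]
    have hex : ∃ τ ∈ P, ¬ (p : ℤ) ∣ ∑ ρ ∈ R.filter (fun ρ => ρ ^ p = τ), a ρ := by
      by_contra hall
      push Not at hall
      apply hc
      rw [← hsumA]
      exact Finset.dvd_sum hall
    have hineq : (p : ℤ) - 1 ≤ (p : ℤ) * ∑ ρ ∈ R, (a ρ) ^ 2 -
        ∑ τ ∈ P, (∑ i ∈ s.filter (fun i => r i ^ p = τ), c i) ^ 2 := by
      rw [hT1, Finset.mul_sum, ← Finset.sum_sub_distrib]
      obtain ⟨τ₀, hτ₀, hnd⟩ := hex
      have hterm : ∀ τ ∈ P, (0 : ℤ) ≤ (p : ℤ) * ∑ ρ ∈ R.filter (fun ρ => ρ ^ p = τ), (a ρ) ^ 2 -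
          (∑ i ∈ s.filter (fun i => r i ^ p = τ), c i) ^ 2 := by
        intro τ hτ
        rw [hA τ hτ]
        exact (int_fiber_ineq p hp.two_le _ (hcard τ hτ) a).1
      calc (p : ℤ) - 1 ≤ (p : ℤ) * ∑ ρ ∈ R.filter (fun ρ => ρ ^ p = τ₀), (a ρ) ^ 2 -
            (∑ i ∈ s.filter (fun i => r i ^ p = τ₀), c i) ^ 2 := by
            rw [hA τ₀ hτ₀]
            exact (int_fiber_ineq p hp.two_le _ (hcard τ₀ hτ₀) a).2 hnd
        _ ≤ _ := Finset.single_le_sum (f := fun τ => (p : ℤ) *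
            ∑ ρ ∈ R.filter (fun ρ => ρ ^ p = τ), (a ρ) ^ 2 -
            (∑ i ∈ s.filter (fun i => r i ^ p = τ), c i) ^ 2) hterm hτ₀
    rw [Nat.totient_prime_pow_succ hp]
    set T1 : ℤ := ∑ ρ ∈ R, (a ρ) ^ 2 with hT1def
    set T2 : ℤ := ∑ τ ∈ P, (∑ i ∈ s.filter (fun i => r i ^ p = τ), c i) ^ 2 with hT2def
    have hineqR : ((p : ℝ) - 1) ≤ (p : ℝ) * (T1 : ℝ) - (T2 : ℝ) := by
      exact_mod_cast hineq
    have hn'R : (0 : ℝ) ≤ (n' : ℝ) := by positivity
    have hpn : ((p ^ (k' + 1) : ℕ) : ℝ) = (p : ℝ) * (n' : ℝ) := by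
      rw [hnn]; push_cast; ring
    have hlhs : ((p ^ k' * (p - 1) : ℕ) : ℝ) = (n' : ℝ) * ((p : ℝ) - 1) := by
      rw [Nat.cast_mul, Nat.cast_sub hp.one_le, Nat.cast_one]
    rw [hpn, hlhs]
    have h8 := mul_le_mul_of_nonneg_left hineqR hn'R
    calc (n' : ℝ) * ((p : ℝ) - 1) ≤ (n' : ℝ) * ((p : ℝ) * (T1 : ℝ) - (T2 : ℝ)) := h8
      _ = (p : ℝ) * (n' : ℝ) * (T1 : ℝ) - (n' : ℝ) * (T2 : ℝ) := by ring

end Cfsg.Agent.Lib.Helper76
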