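import Mathlib
import Cfsg.Prelude.Def_Blocks
import Cfsg.Agent.Lib.Helper76.ContribUnit
import Cfsg.Agent.Lib.Helper76.CycloAvg
import Cfsg.Agent.Lib.Helper75.CharInd
import Cfsg.Agent.Lib.Helper26.VChar

/-!
# The averaged lower bound for the contributions of height zero characters
-/

set_option autoImplicit false

namespace Cfsg.Agent.Lib.Helper76

open Cfsg Cfsg.Agent.Lib.Helper16 Cfsg.Agent.Lib.Helper26 Cfsg.Agent.Lib.Helper78
  Cfsg.Agent.Lib.Helper81
open scoped ComplexConjugate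

variable {G : Type*} [Group G] [Fintype G]

/-- For characters `χ, ψ` of height zero in `B`, a `p`-element `y` of order `p ^ k` with
centralizer `C` and a block `e` of `C` inducing `B`: the sum over the generators `y ^ j` of
`⟨y⟩` of the squared absolute values of `p ^ d(e) * contrib (y ^ j) χ ψ` is at least
`φ(p ^ k)`. -/
theorem contrib_avg [Fintype (Cfsg.IrrCharacter G)] {p : ℕ} [Fact p.Prime]
    {M : Ideal Cfsg.AlgInt} (hM : Cfsg.IsPModular p M) (B : Set (Cfsg.IrrCharacter G))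
    (y : G) (k : ℕ) (hk : orderOf y = p ^ k) (C : Subgroup G)
    (hC : ∀ g : G, g ∈ C ↔ g * y = y * g) (e : Set (Cfsg.IrrCharacter C))
    (hind : Cfsg.IsInducedBlock M C e B) (χ ψ : Cfsg.IrrCharacter G) (hχ : χ ∈ B) (hψ : ψ ∈ B)
    (h0χ : Cfsg.blockHeight p B (χ : G → ℂ) = 0) (h0ψ : Cfsg.blockHeight p B (ψ : G → ℂ) = 0) :
    (Nat.totient (p ^ k) : ℝ) ≤
      ∑ j ∈ (Finset.range (p ^ k)).filter (fun j => Nat.Coprime j (p ^ k)),
        Complex.normSq (((p ^ Cfsg.blockDefect p e : ℕ) : ℂ) *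
          contrib p C e (y ^ j) (χ : G → ℂ) (ψ : G → ℂ)) := by
  classical
  have hp : p.Prime := Fact.out
  letI : Fintype C := Fintype.ofFinite _
  letI : Fintype (Cfsg.IrrCharacter C) := @Fintype.ofFinite _ (irr_finite _)
  obtain ⟨ω, hω, hcon⟩ := contrib_lam hp y k hk C hC e
  obtain ⟨nχ, hnχ⟩ := character_expansion
    (Cfsg.Agent.Lib.Helper75.isCharacter_res C (isCharacter_of_irr χ.2))
  obtain ⟨nψ, hnψ⟩ := character_expansion
    (Cfsg.Agent.Lib.Helper75.isCharacter_res C (isCharacter_of_irr ψ.2))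
  have hz : ∀ θ : Cfsg.IrrCharacter C, ∃ z : Cfsg.IrrCharacter C → ℤ,
      (∀ θ', θ' ∉ e → z θ' = 0) ∧ (θ ∈ e → ∀ θ' : Cfsg.IrrCharacter C,
        ((p ^ Cfsg.blockDefect p e : ℕ) : ℂ) *
          Cfsg.classInner (Cfsg.pRegularPart p (θ : C → ℂ)) (θ' : C → ℂ) = (z θ' : ℂ)) := by
    intro θ
    by_cases hθ : θ ∈ e
    · obtain ⟨z, hz0, hz⟩ := exists_int_truncInner hM e hind.1 θ hθ
      exact ⟨z, hz0, fun _ => hz⟩
    · exact ⟨fun _ => 0, fun _ _ => rfl, fun h => absurd h hθ⟩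
  choose z hz0 hz using hz
  have hunit := unit_core hM C e B hind χ ψ hχ hψ h0χ h0ψ nχ nψ hnχ hnψ z
    (fun θ hθ θ' => hz θ hθ θ')
  set c : Cfsg.IrrCharacter C × Cfsg.IrrCharacter C → ℤ :=
    fun i => if i.1 ∈ e then (nχ i.1 : ℤ) * (nψ i.2 : ℤ) * z i.1 i.2 else 0 with hc
  set r : Cfsg.IrrCharacter C × Cfsg.IrrCharacter C → ℂ :=
    fun i => ω i.1 * conj (ω i.2) with hr
  have hr1 : ∀ i ∈ (Finset.univ : Finset (Cfsg.IrrCharacter C × Cfsg.IrrCharacter C)),
      r i ^ (p ^ k) = 1 := by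
    intro i _
    rw [hr]
    simp only
    rw [mul_pow, ← map_pow, hω, hω, map_one, one_mul]
  have hsum : ∑ i, c i = ∑ θ ∈ Finset.univ.filter (· ∈ e), ∑ θ' ∈ Finset.univ.filter (· ∈ e),
      (nχ θ : ℤ) * (nψ θ' : ℤ) * z θ θ' := by
    rw [Fintype.sum_prod_type, Finset.sum_filter]
    refine Finset.sum_congr rfl (fun θ _ => ?_)
    by_cases hθ : θ ∈ e
    · simp only [hc, if_pos hθ]
      rw [Finset.sum_filter]
      refine Finset.sum_congr rfl (fun θ' _ => ?_)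
      by_cases hθ' : θ' ∈ e
      · rw [if_pos hθ']
      · rw [if_neg hθ', hz0 θ θ' hθ', mul_zero]
    · simp [hc, hθ]
  have hmain := cyclo_avg hp k Finset.univ c r hr1 (by rw [hsum]; exact hunit)
  refine hmain.trans (le_of_eq ?_)
  refine Finset.sum_congr rfl (fun j _ => ?_)
  congr 1
  rw [hcon χ ψ j, Fintype.sum_prod_type, Finset.mul_sum]
  refine Finset.sum_congr rfl (fun θ _ => ?_)
  rw [Finset.mul_sum]
  refine Finset.sum_congr rfl (fun θ' _ => ?_)
  by_cases hθ : θ ∈ e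
  · simp only [hc, hr, if_pos hθ]
    have h1 : Cfsg.classInner (fun c : C => (χ : G → ℂ) (c : G)) (θ : C → ℂ) = (nχ θ : ℂ) := by
      rw [hnχ, classInner_expansion_irr]
    have h2 : Cfsg.classInner (fun c : C => (ψ : G → ℂ) (c : G)) (θ' : C → ℂ) = (nψ θ' : ℂ) := by
      rw [hnψ, classInner_expansion_irr]
    rw [h1, h2, map_natCast]
    have h3 := hz θ hθ θ'
    push_cast
    rw [← h3]
    push_cast
    ring
  · simp [hc, hθ]

end Cfsg.Agent.Lib.Helper76
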