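import Mathlib

/-!
# Sums of odd powers of `2`-power roots of unity

Averages over the odd exponents of integer combinations of `2 ^ k`-th roots of unity which are
invariant under complex conjugation are integers of the same parity as the sum of the
coefficients.
-/

set_option autoImplicit false

namespace Cfsg.Agent.Lib.Helper76

open scoped ComplexConjugate

/-- The sum of the odd powers of a `2 ^ (m + 1)`-th root of unity. -/
theorem odd_pow_sum (m : ℕ) (r : ℂ) (hr : r ^ (2 ^ (m + 1)) = 1) :
    ∑ j ∈ (Finset.range (2 ^ (m + 1))).filter (fun j => Nat.Coprime j (2 ^ (m + 1))), r ^ j =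
      (Nat.totient (2 ^ (m + 1)) : ℂ) *
        (if r = 1 then (1 : ℂ) else if r = -1 then (-1 : ℂ) else 0) := by
  have hcop : ∀ j : ℕ, Nat.Coprime j (2 ^ (m + 1)) ↔ Odd j := by
    intro j
    rw [Nat.coprime_pow_right_iff (Nat.succ_pos m), Nat.coprime_two_right]
  have hφ : Nat.totient (2 ^ (m + 1)) = 2 ^ m := by
    rw [Nat.totient_prime_pow Nat.prime_two (Nat.succ_pos m)]
    simp
  have hterm : ∀ j : ℕ, (if Nat.Coprime j (2 ^ (m + 1)) then r ^ j else 0) =
      (r ^ j - (-r) ^ j) / 2 := by
    intro j
    by_cases hj : Odd j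
    · rw [if_pos ((hcop j).2 hj), Odd.neg_pow hj]
      ring
    · rw [if_neg (fun h => hj ((hcop j).1 h))]
      have hev : Even j := Nat.not_odd_iff_even.1 hj
      rw [Even.neg_pow hev]
      ring
  have hgeom : ∀ x : ℂ, x ^ (2 ^ (m + 1)) = 1 →
      ∑ j ∈ Finset.range (2 ^ (m + 1)), x ^ j = if x = 1 then ((2 ^ (m + 1) : ℕ) : ℂ) else 0 := by
    intro x hx
    split_ifs with h
    · subst h
      simp
    · rw [geom_sum_eq h, hx, sub_self, zero_div]
  have hneg : (-r) ^ (2 ^ (m + 1)) = 1 := by
    have hev : Even (2 ^ (m + 1)) := ⟨2 ^ m, by ring⟩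
    rw [Even.neg_pow hev, hr]
  rw [Finset.sum_filter, Finset.sum_congr rfl (fun j _ => hterm j), ← Finset.sum_div,
    Finset.sum_sub_distrib, hgeom r hr, hgeom (-r) hneg, hφ]
  by_cases h1 : r = 1
  · subst h1
    have h2 : (-1 : ℂ) ≠ 1 := by norm_num
    rw [if_pos rfl, if_neg h2, if_pos rfl]
    push_cast
    ring
  · by_cases h2 : r = -1
    · subst h2
      have h3 : (-1 : ℂ) ≠ 1 := by norm_num
      rw [if_neg h3, if_pos (by ring), if_neg h3, if_pos rfl]
      push_cast
      ring
    · have h3 : -r ≠ 1 := fun h => h2 (by rw [← h]; ring)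
      rw [if_neg h1, if_neg h3, if_neg h1, if_neg h2]
      ring

/-- A conjugation-invariant integer combination of `2 ^ k`-th roots of unity: the sum over the
odd exponents is `φ(2 ^ k)` times an integer of the parity of the sum of the coefficients. -/
theorem two_cyclo_diag (k : ℕ) {ι : Type*} [Fintype ι] (c : ι → ℤ) (r : ι → ℂ)
    (hr : ∀ i, r i ^ (2 ^ k) = 1) (τ : ι → ι) (hττ : ∀ i, τ (τ i) = i)
    (hcτ : ∀ i, c (τ i) = c i) (hrτ : ∀ i, r (τ i) = conj (r i)) (hodd : Odd (∑ i, c i)) :
    ∃ a : ℤ, Odd a ∧
      ∑ j ∈ (Finset.range (2 ^ k)).filter (fun j => Nat.Coprime j (2 ^ k)),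
        ∑ i, (c i : ℂ) * r i ^ j = (Nat.totient (2 ^ k) : ℂ) * (a : ℂ) := by
  classical
  rcases k with _ | m
  · refine ⟨∑ i, c i, hodd, ?_⟩
    have hJ : (Finset.range (2 ^ 0)).filter (fun j => Nat.Coprime j (2 ^ 0)) = {0} := by decide
    rw [hJ, Finset.sum_singleton]
    simp
  · set ε : ι → ℤ := fun i => if r i = 1 then 1 else if r i = -1 then -1 else 0 with hε
    refine ⟨∑ i, c i * ε i, ?_, ?_⟩
    · -- parity
      have hεconj : ∀ i, ε (τ i) = ε i := by
        intro i
        simp only [hε, hrτ]
        have e1 : conj (r i) = 1 ↔ r i = 1 := by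
          constructor
          · intro h
            have := congrArg conj h
            rwa [Complex.conj_conj, map_one] at this
          · intro h
            rw [h, map_one]
        have e2 : conj (r i) = -1 ↔ r i = -1 := by
          constructor
          · intro h
            have := congrArg conj h
            rwa [Complex.conj_conj, map_neg, map_one] at this
          · intro h
            rw [h, map_neg, map_one]
        simp only [e1, e2]
      have hreal : ∀ i, τ i = i → r i = 1 ∨ r i = -1 := by
        intro i hi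
        have h1 : conj (r i) = r i := by rw [← hrτ, hi]
        obtain ⟨x, hx⟩ := Complex.conj_eq_iff_real.1 h1
        have h2 : ‖r i‖ = 1 :=
          Complex.norm_eq_one_of_pow_eq_one (hr i) (pow_pos (by norm_num) _).ne'
        rw [hx, Complex.norm_real, Real.norm_eq_abs] at h2
        rcases abs_eq (by norm_num : (0 : ℝ) ≤ 1) |>.1 h2 with h | h
        · left; rw [hx, h]; simp
        · right; rw [hx, h]; simp
      have hzero : ∑ i, ((c i * (ε i - 1) : ℤ) : ZMod 2) = 0 := by
        refine Finset.sum_involution (fun i _ => τ i) ?_ ?_ (fun i _ => Finset.mem_univ _)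
          (fun i _ => hττ i)
        · intro i _
          rw [hcτ, hεconj]
          exact CharTwo.add_self_eq_zero _
        · intro i _ hne hi
          apply hne
          rcases hreal i hi with h | h
          · simp [hε, h]
          · have h3 : (-1 : ℂ) ≠ 1 := by norm_num
            simp only [hε, h, if_neg h3, if_true]
            have : ((2 : ℕ) : ZMod 2) = 0 := ZMod.natCast_self 2
            have h4 : (2 : ZMod 2) = 0 := by exact_mod_cast this
            push_cast
            rw [h4, neg_zero, mul_zero]
      have heven : Even (∑ i, c i * ε i - ∑ i, c i) := by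
        rw [← ZMod.intCast_eq_zero_iff_even]
        have : ∑ i, c i * ε i - ∑ i, c i = ∑ i, c i * (ε i - 1) := by
          rw [← Finset.sum_sub_distrib]
          refine Finset.sum_congr rfl (fun i _ => ?_)
          ring
        rw [this]
        push_cast
        have h5 := hzero
        push_cast at h5
        exact h5
      rw [Int.even_sub'] at heven
      exact heven.2 hodd
    · rw [Finset.sum_comm]
      have hi : ∀ i, ∑ j ∈ (Finset.range (2 ^ (m + 1))).filter
          (fun j => Nat.Coprime j (2 ^ (m + 1))), (c i : ℂ) * r i ^ j =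
          (Nat.totient (2 ^ (m + 1)) : ℂ) * ((c i * ε i : ℤ) : ℂ) := by
        intro i
        rw [← Finset.mul_sum, odd_pow_sum m (r i) (hr i)]
        simp only [hε]
        push_cast
        split_ifs <;> ring
      rw [Finset.sum_congr rfl (fun i _ => hi i), ← Finset.mul_sum]
      push_cast
      rfl

end Cfsg.Agent.Lib.Helper76
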