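import Mathlib
import Cfsg.Prelude.Def_Blocks
import Cfsg.Agent.Lib.Helper76.ContribData
import Cfsg.Agent.Lib.Helper76.TwoCyclo

/-!
# Diagonal contributions

* `contrib_self`: the row of the contribution matrix at `χ` has square norm `contrib χ χ`.
* `contrib_total`: the square norms of the rows of the members of `B` add up to the rank.
* `contrib_diag_odd`: for `p = 2` and `χ` of height zero, the average of `2 ^ d * contrib χ χ`
  over the generators of `⟨y⟩` is an odd integer.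
* `two_block_k0_core`: the resulting numerical data on the characters of height zero.
-/

set_option autoImplicit false

namespace Cfsg.Agent.Lib.Helper76

open Cfsg Cfsg.Agent.Lib.Helper16 Cfsg.Agent.Lib.Helper26 Cfsg.Agent.Lib.Helper78
  Cfsg.Agent.Lib.Helper81
open scoped ComplexConjugate

variable {G : Type*} [Group G] [Fintype G]

/-- Powers of `y` by exponents prime to its order have the same order and centralizer. -/
theorem centralizer_pow_coprime (y : G) (n : ℕ) (hn : orderOf y = n) (C : Subgroup G)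
    (hC : ∀ g : G, g ∈ C ↔ g * y = y * g) (j : ℕ) (hj : Nat.Coprime j n) :
    orderOf (y ^ j) = n ∧ ∀ g : G, g ∈ C ↔ g * y ^ j = y ^ j * g := by
  have hcop' : Nat.Coprime (orderOf y) j := by rw [hn]; exact hj.symm
  have ho : orderOf (y ^ j) = n := by
    rw [Nat.Coprime.orderOf_pow hcop', hn]
  refine ⟨ho, fun g => ?_⟩
  rw [hC]
  constructor
  · intro h
    exact (Commute.pow_right (show Commute g y from h) j)
  · intro h
    obtain ⟨m, hm⟩ := exists_pow_eq_self_of_coprime (x := y) hcop'.symm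
    have := Commute.pow_right (show Commute g (y ^ j) from h) m
    rw [hm] at this
    exact this

/-- The square norm of the row of the contribution matrix at `χ` is the diagonal entry. -/
theorem contrib_self [Fintype (Cfsg.IrrCharacter G)] {p : ℕ} [Fact p.Prime]
    {M : Ideal Cfsg.AlgInt} (hM : Cfsg.IsPModular p M) (u : G)
    (hu : ∃ k : ℕ, orderOf u = p ^ k) (C : Subgroup G)
    (hC : ∀ g : G, g ∈ C ↔ g * u = u * g) (e : Set (Cfsg.IrrCharacter C))
    (he : Cfsg.IsPBlock M e) (χ : Cfsg.IrrCharacter G) :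
    ∑ ψ : Cfsg.IrrCharacter G, ((Complex.normSq (contrib p C e u (χ : G → ℂ) (ψ : G → ℂ)) : ℝ) : ℂ) =
      contrib p C e u (χ : G → ℂ) (χ : G → ℂ) := by
  classical
  have hp : p.Prime := Fact.out
  have h1 := sum_normSq_contrib hp u hu C hC e χ
  letI : Fintype C := Fintype.ofFinite C
  have := irr_finite C
  letI : Fintype (Cfsg.IrrCharacter C) := Fintype.ofFinite _
  rw [h1]
  unfold contrib
  congr 1
  have hcomm : ∀ c : C, u * (c : G) = (c : G) * u := fun c => ((hC c).1 c.2).symm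
  set f : C → ℂ := fun c : C => (χ : G → ℂ) (u * c) with hf
  have hfcf : Cfsg.IsClassFunction C f := isClassFunction_sec C u hcomm χ
  set V : C → ℂ := Cfsg.pRegularPart p (Cfsg.blockPart e f) with hV
  have hχ : ∀ s : C, (χ : G → ℂ) (u⁻¹ * (s : G)⁻¹) = conj (f s) := by
    intro s
    rw [hf]
    simp only
    rw [← irr_inv χ]
    congr 1
    rw [hcomm s, mul_inv_rev]
  have hfexp : ∀ s : C, f s = ∑ θ : Cfsg.IrrCharacter C,
      Cfsg.classInner f (θ : C → ℂ) * (θ : C → ℂ) s :=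
    fun s => Cfsg.Agent.Lib.Helper80.classFun_expansion_apply f hfcf s
  have hbp : ∀ s : C, Cfsg.blockPart e f s = ∑ θ : Cfsg.IrrCharacter C,
      if θ ∈ e then Cfsg.classInner f (θ : C → ℂ) * (θ : C → ℂ) s else 0 := by
    intro s
    show ∑ᶠ θ ∈ e, Cfsg.classInner f (θ : C → ℂ) * (θ : C → ℂ) s = _
    rw [finsum_mem_eq_sum_ite]
  have hVs : ∀ s : C, V s = if p ∣ orderOf s then 0 else Cfsg.blockPart e f s := by
    intro s
    rw [hV, pRegularPart_apply']
  -- orthogonality of `V` to the characters outside `e`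
  have horth : ∀ θ' : Cfsg.IrrCharacter C, θ' ∉ e → ∑ s : C, V s * conj ((θ' : C → ℂ) s) = 0 := by
    intro θ' hθ'
    have h2 : ∀ s : C, V s * conj ((θ' : C → ℂ) s) = ∑ θ : Cfsg.IrrCharacter C,
        if θ ∈ e then Cfsg.classInner f (θ : C → ℂ) *
          ((if p ∣ orderOf s then (0 : ℂ) else (θ : C → ℂ) s) * (θ' : C → ℂ) s⁻¹) else 0 := by
      intro s
      rw [hVs, irr_inv θ']
      by_cases hs : p ∣ orderOf s
      · simp [hs]
      · simp only [if_neg hs]
        rw [hbp, Finset.sum_mul]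
        refine Finset.sum_congr rfl (fun θ _ => ?_)
        split_ifs
        · ring
        · rw [zero_mul]
    rw [Finset.sum_congr rfl (fun s _ => h2 s), Finset.sum_comm]
    refine Finset.sum_eq_zero (fun θ _ => ?_)
    by_cases hθ : θ ∈ e
    · simp only [if_pos hθ]
      rw [← Finset.mul_sum, weak_block_orth hM e he θ hθ θ' hθ', mul_zero]
    · simp only [if_neg hθ, Finset.sum_const_zero]
  -- the difference
  have hdiff : ∀ s : C, V s * conj (V s) = V s * conj (f s) -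
      ∑ θ' : Cfsg.IrrCharacter C, if θ' ∈ e then 0 else
        conj (Cfsg.classInner f (θ' : C → ℂ)) * (V s * conj ((θ' : C → ℂ) s)) := by
    intro s
    by_cases hs : p ∣ orderOf s
    · have : V s = 0 := by rw [hVs, if_pos hs]
      simp [this]
    · have hVb : V s = Cfsg.blockPart e f s := by rw [hVs, if_neg hs]
      have h3 : f s - V s = ∑ θ' : Cfsg.IrrCharacter C, if θ' ∈ e then 0 else
          Cfsg.classInner f (θ' : C → ℂ) * (θ' : C → ℂ) s := by
        rw [hVb, hfexp s, hbp s, ← Finset.sum_sub_distrib]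
        refine Finset.sum_congr rfl (fun θ' _ => ?_)
        split_ifs
        · rw [sub_self]
        · rw [sub_zero]
      have h4 : conj (V s) = conj (f s) - conj (f s - V s) := by
        rw [map_sub]; ring
      rw [h4, h3, mul_sub, map_sum, Finset.mul_sum]
      congr 1
      refine Finset.sum_congr rfl (fun θ' _ => ?_)
      split_ifs
      · simp
      · rw [map_mul]; ring
  have hsum0 : ∑ s : C, ∑ θ' : Cfsg.IrrCharacter C, (if θ' ∈ e then (0 : ℂ) else
      conj (Cfsg.classInner f (θ' : C → ℂ)) * (V s * conj ((θ' : C → ℂ) s))) = 0 := by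
    rw [Finset.sum_comm]
    refine Finset.sum_eq_zero (fun θ' _ => ?_)
    by_cases hθ' : θ' ∈ e
    · simp only [if_pos hθ', Finset.sum_const_zero]
    · simp only [if_neg hθ']
      rw [← Finset.mul_sum, horth θ' hθ', mul_zero]
  rw [Finset.sum_congr rfl (fun s _ => hdiff s), Finset.sum_sub_distrib, hsum0, sub_zero]
  refine Finset.sum_congr rfl (fun s _ => ?_)
  rw [hχ s]

/-- The square norms of the rows of the contribution matrix at the members of `B` add up to the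
`p`-regular rank of `e`. -/
theorem contrib_total [Fintype (Cfsg.IrrCharacter G)] {p : ℕ} [Fact p.Prime]
    {M : Ideal Cfsg.AlgInt} (hM : Cfsg.IsPModular p M) (B : Set (Cfsg.IrrCharacter G))
    [DecidablePred (· ∈ B)] (u : G)
    (hu : ∃ k : ℕ, orderOf u = p ^ k) (C : Subgroup G)
    (hC : ∀ g : G, g ∈ C ↔ g * u = u * g) (e : Set (Cfsg.IrrCharacter C))
    (hind : Cfsg.IsInducedBlock M C e B) :
    ∑ χ ∈ Finset.univ.filter (· ∈ B), ∑ ψ : Cfsg.IrrCharacter G,
      Complex.normSq (contrib p C e u (χ : G → ℂ) (ψ : G → ℂ)) = (Cfsg.blockRank p e : ℝ) := by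
  classical
  letI : Fintype C := Fintype.ofFinite C
  have hp : p.Prime := Fact.out
  have h1 := sum_block_norm hM B u hu C hC e hind
  have h2 : ((∑ χ ∈ Finset.univ.filter (· ∈ B), ∑ ψ : Cfsg.IrrCharacter G,
      Complex.normSq (contrib p C e u (χ : G → ℂ) (ψ : G → ℂ)) : ℝ) : ℂ) =
      ((Cfsg.blockRank p e : ℝ) : ℂ) := by
    push_cast
    rw [← h1]
    refine Finset.sum_congr rfl (fun χ _ => ?_)
    exact sum_normSq_contrib hp u hu C hC e χ
  exact Complex.ofReal_injective h2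

/-- For `p = 2` and `χ` of height zero in `B`: the sum over the generators `y ^ j` of `⟨y⟩` of
`2 ^ d(e) * contrib (y ^ j) χ χ` is `φ(2 ^ k)` times an odd integer. -/
theorem contrib_diag_odd [Fintype (Cfsg.IrrCharacter G)]
    {M : Ideal Cfsg.AlgInt} (hM : Cfsg.IsPModular 2 M) (B : Set (Cfsg.IrrCharacter G))
    (y : G) (k : ℕ) (hk : orderOf y = 2 ^ k) (C : Subgroup G)
    (hC : ∀ g : G, g ∈ C ↔ g * y = y * g) (e : Set (Cfsg.IrrCharacter C))
    (hind : Cfsg.IsInducedBlock M C e B) (χ : Cfsg.IrrCharacter G) (hχ : χ ∈ B)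
    (h0χ : Cfsg.blockHeight 2 B (χ : G → ℂ) = 0) :
    ∃ a : ℤ, Odd a ∧
      ∑ j ∈ (Finset.range (2 ^ k)).filter (fun j => Nat.Coprime j (2 ^ k)),
        ((2 ^ Cfsg.blockDefect 2 e : ℕ) : ℂ) *
          contrib 2 C e (y ^ j) (χ : G → ℂ) (χ : G → ℂ) = (Nat.totient (2 ^ k) : ℂ) * (a : ℂ) := by
  classical
  have hp : (2 : ℕ).Prime := Nat.prime_two
  haveI : Fact (Nat.Prime 2) := ⟨hp⟩
  letI : Fintype C := Fintype.ofFinite _
  letI : Fintype (Cfsg.IrrCharacter C) := @Fintype.ofFinite _ (irr_finite _)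
  obtain ⟨ω, hω, hcon⟩ := contrib_lam hp y k hk C hC e
  obtain ⟨nχ, hnχ⟩ := character_expansion
    (Cfsg.Agent.Lib.Helper75.isCharacter_res C (isCharacter_of_irr χ.2))
  have hz : ∀ θ : Cfsg.IrrCharacter C, ∃ z : Cfsg.IrrCharacter C → ℤ,
      (∀ θ', θ' ∉ e → z θ' = 0) ∧ (θ ∈ e → ∀ θ' : Cfsg.IrrCharacter C,
        ((2 ^ Cfsg.blockDefect 2 e : ℕ) : ℂ) *
          Cfsg.classInner (Cfsg.pRegularPart 2 (θ : C → ℂ)) (θ' : C → ℂ) = (z θ' : ℂ)) := by
    intro θ
    by_cases hθ : θ ∈ e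
    · obtain ⟨z, hz0, hz⟩ := exists_int_truncInner hM e hind.1 θ hθ
      exact ⟨z, hz0, fun _ => hz⟩
    · exact ⟨fun _ => 0, fun _ _ => rfl, fun h => absurd h hθ⟩
  choose z hz0 hz using hz
  have hunit := unit_core hM C e B hind χ χ hχ hχ h0χ h0χ nχ nχ hnχ hnχ z
    (fun θ hθ θ' => hz θ hθ θ')
  have hzsymm : ∀ θ ∈ e, ∀ θ' ∈ e, z θ θ' = z θ' θ := by
    intro θ hθ θ' hθ'
    have h1 := hz θ hθ θ'
    have h2 := hz θ' hθ' θ
    have h3 : ((2 ^ Cfsg.blockDefect 2 e : ℕ) : ℂ) *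
        Cfsg.classInner (Cfsg.pRegularPart 2 (θ' : C → ℂ)) (θ : C → ℂ) = (z θ θ' : ℂ) := by
      have := congrArg conj h1
      rw [map_mul, map_natCast, map_intCast, truncInner_conj] at this
      exact this
    have h4 : (z θ θ' : ℂ) = (z θ' θ : ℂ) := h3.symm.trans h2
    exact_mod_cast h4
  set c : Cfsg.IrrCharacter C × Cfsg.IrrCharacter C → ℤ :=
    fun i => if i.1 ∈ e then (nχ i.1 : ℤ) * (nχ i.2 : ℤ) * z i.1 i.2 else 0 with hc
  set r : Cfsg.IrrCharacter C × Cfsg.IrrCharacter C → ℂ :=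
    fun i => ω i.1 * conj (ω i.2) with hr
  have hr1 : ∀ i : Cfsg.IrrCharacter C × Cfsg.IrrCharacter C, r i ^ (2 ^ k) = 1 := by
    intro i
    rw [hr]
    simp only
    rw [mul_pow, ← map_pow, hω, hω, map_one, one_mul]
  have hcτ : ∀ i : Cfsg.IrrCharacter C × Cfsg.IrrCharacter C, c i.swap = c i := by
    rintro ⟨θ, θ'⟩
    simp only [hc, Prod.swap_prod_mk]
    by_cases hθ : θ ∈ e <;> by_cases hθ' : θ' ∈ e
    · rw [if_pos hθ, if_pos hθ', hzsymm θ hθ θ' hθ']
      ring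
    · rw [if_pos hθ, if_neg hθ', hz0 θ θ' hθ', mul_zero]
    · rw [if_neg hθ, if_pos hθ', hz0 θ' θ hθ, mul_zero]
    · rw [if_neg hθ, if_neg hθ']
  have hrτ : ∀ i : Cfsg.IrrCharacter C × Cfsg.IrrCharacter C, r i.swap = conj (r i) := by
    rintro ⟨θ, θ'⟩
    simp only [hr, Prod.swap_prod_mk]
    rw [map_mul, Complex.conj_conj, mul_comm]
  have hsum : ∑ i, c i = ∑ θ ∈ Finset.univ.filter (· ∈ e), ∑ θ' ∈ Finset.univ.filter (· ∈ e),
      (nχ θ : ℤ) * (nχ θ' : ℤ) * z θ θ' := by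
    rw [Fintype.sum_prod_type, Finset.sum_filter]
    refine Finset.sum_congr rfl (fun θ _ => ?_)
    by_cases hθ : θ ∈ e
    · simp only [hc, if_pos hθ]
      rw [Finset.sum_filter]
      refine Finset.sum_congr rfl (fun θ' _ => ?_)
      by_cases hθ' : θ' ∈ e
      · rw [if_pos hθ']
      · rw [if_neg hθ', hz0 θ θ' hθ', mul_zero]
    · simp [hc, hθ]
  have hodd : Odd (∑ i, c i) := by
    rw [hsum]
    apply Int.not_even_iff_odd.1
    intro h
    apply hunit
    have := even_iff_two_dvd.1 h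
    exact_mod_cast this
  obtain ⟨a, ha, hsumj⟩ := two_cyclo_diag k c r hr1 Prod.swap (fun i => Prod.swap_swap i) hcτ hrτ
    hodd
  refine ⟨a, ha, ?_⟩
  rw [← hsumj]
  refine Finset.sum_congr rfl (fun j _ => ?_)
  rw [hcon χ χ j, Fintype.sum_prod_type, Finset.mul_sum]
  refine Finset.sum_congr rfl (fun θ _ => ?_)
  rw [Finset.mul_sum]
  refine Finset.sum_congr rfl (fun θ' _ => ?_)
  by_cases hθ : θ ∈ e
  · simp only [hc, hr, if_pos hθ]
    have h1 : ∀ θ : Cfsg.IrrCharacter C,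
        Cfsg.classInner (fun c : C => (χ : G → ℂ) (c : G)) (θ : C → ℂ) = (nχ θ : ℂ) := by
      intro θ
      rw [hnχ, classInner_expansion_irr]
    rw [h1, h1, map_natCast]
    have h3 := hz θ hθ θ'
    push_cast
    rw [← h3]
    push_cast
    ring
  · simp [hc, hθ]

/-- Numerical data on the characters of height zero of a `2`-block `B` coming from a subsection
`(y, e)`: odd integers `a χ` with `k₀ ≤ 2 ^ d(e) * a χ` and `∑ a χ ≤ 2 ^ d(e) * l(e)`. -/
theorem two_block_k0_core [Fintype (Cfsg.IrrCharacter G)]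
    {M : Ideal Cfsg.AlgInt} (hM : Cfsg.IsPModular 2 M) (B : Set (Cfsg.IrrCharacter G))
    (y : G) (k : ℕ) (hk : orderOf y = 2 ^ k) (C : Subgroup G)
    (hC : ∀ g : G, g ∈ C ↔ g * y = y * g) (e : Set (Cfsg.IrrCharacter C))
    (hind : Cfsg.IsInducedBlock M C e B) (K0 : Finset (Cfsg.IrrCharacter G))
    (hK0 : ∀ χ, χ ∈ K0 ↔ χ ∈ B ∧ Cfsg.blockHeight 2 B (χ : G → ℂ) = 0) :
    ∃ a : Cfsg.IrrCharacter G → ℤ,
      (∀ χ ∈ K0, Odd (a χ) ∧ (K0.card : ℤ) ≤ 2 ^ Cfsg.blockDefect 2 e * a χ) ∧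
      ∑ χ ∈ K0, a χ ≤ 2 ^ Cfsg.blockDefect 2 e * (Cfsg.blockRank 2 e : ℤ) := by
  classical
  have hp : (2 : ℕ).Prime := Nat.prime_two
  haveI : Fact (Nat.Prime 2) := ⟨hp⟩
  set J := (Finset.range (2 ^ k)).filter (fun j => Nat.Coprime j (2 ^ k)) with hJ
  set FB := Finset.univ.filter (· ∈ B) with hFB
  set q := Cfsg.blockDefect 2 e with hq
  have hφ : 0 < Nat.totient (2 ^ k) := Nat.totient_pos.mpr (pow_pos hp.pos k)
  have hφR : (0 : ℝ) < (Nat.totient (2 ^ k) : ℝ) := by exact_mod_cast hφ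
  have hJcard : J.card = Nat.totient (2 ^ k) := by
    rw [Nat.totient_eq_card_coprime, hJ]
    congr 1
    refine Finset.filter_congr (fun j _ => ?_)
    exact Nat.coprime_comm
  have hjf : ∀ j ∈ J, orderOf (y ^ j) = 2 ^ k ∧ ∀ g : G, g ∈ C ↔ g * y ^ j = y ^ j * g :=
    fun j hj => centralizer_pow_coprime y (2 ^ k) hk C hC j (Finset.mem_filter.1 hj).2
  have hK0B : K0 ⊆ FB := by
    intro χ hχ
    exact Finset.mem_filter.2 ⟨Finset.mem_univ _, ((hK0 χ).1 hχ).1⟩
  -- the row norms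
  set R : ℕ → Cfsg.IrrCharacter G → ℝ := fun j χ => ∑ ψ : Cfsg.IrrCharacter G,
    Complex.normSq (contrib 2 C e (y ^ j) (χ : G → ℂ) (ψ : G → ℂ)) with hR
  have hRnn : ∀ j χ, 0 ≤ R j χ := fun j χ => Finset.sum_nonneg (fun ψ _ => Complex.normSq_nonneg _)
  have hself : ∀ j ∈ J, ∀ χ : Cfsg.IrrCharacter G,
      ((R j χ : ℝ) : ℂ) = contrib 2 C e (y ^ j) (χ : G → ℂ) (χ : G → ℂ) := by
    intro j hj χ
    rw [← contrib_self hM (y ^ j) ⟨k, (hjf j hj).1⟩ C (hjf j hj).2 e hind.1 χ, hR]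
    push_cast
    rfl
  have htot : ∀ j ∈ J, ∑ χ ∈ FB, R j χ = (Cfsg.blockRank 2 e : ℝ) := fun j hj =>
    contrib_total hM B (y ^ j) ⟨k, (hjf j hj).1⟩ C (hjf j hj).2 e hind
  -- the odd integers
  have hex : ∀ χ : Cfsg.IrrCharacter G, ∃ a : ℤ, χ ∈ K0 → (Odd a ∧
      ∑ j ∈ J, ((2 ^ q : ℕ) : ℂ) * contrib 2 C e (y ^ j) (χ : G → ℂ) (χ : G → ℂ) =
        (Nat.totient (2 ^ k) : ℂ) * (a : ℂ)) := by
    intro χ
    by_cases hχ : χ ∈ K0
    · obtain ⟨a, ha, hs⟩ := contrib_diag_odd hM B y k hk C hC e hind χ ((hK0 χ).1 hχ).1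
        ((hK0 χ).1 hχ).2
      exact ⟨a, fun _ => ⟨ha, hs⟩⟩
    · exact ⟨0, fun h => absurd h hχ⟩
  choose a ha using hex
  have key1 : ∀ χ ∈ K0, ∑ j ∈ J, (2 : ℝ) ^ q * R j χ = (Nat.totient (2 ^ k) : ℝ) * (a χ : ℝ) := by
    intro χ hχ
    have h1 := (ha χ hχ).2
    have h2 : ((∑ j ∈ J, (2 : ℝ) ^ q * R j χ : ℝ) : ℂ) =
        (((Nat.totient (2 ^ k) : ℝ) * (a χ : ℝ) : ℝ) : ℂ) := by
      push_cast
      rw [← h1]
      refine Finset.sum_congr rfl (fun j hj => ?_)
      rw [hself j hj χ]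
      push_cast
      rfl
    exact Complex.ofReal_injective h2
  refine ⟨a, fun χ hχ => ⟨(ha χ hχ).1, ?_⟩, ?_⟩
  · -- (A)
    have hA : (K0.card : ℝ) * (Nat.totient (2 ^ k) : ℝ) ≤
        (Nat.totient (2 ^ k) : ℝ) * ((2 : ℝ) ^ q * (a χ : ℝ)) := by
      calc (K0.card : ℝ) * (Nat.totient (2 ^ k) : ℝ)
          = ∑ ψ ∈ K0, (Nat.totient (2 ^ k) : ℝ) := by
            rw [Finset.sum_const, nsmul_eq_mul]
        _ ≤ ∑ ψ ∈ K0, ∑ j ∈ J, Complex.normSq (((2 ^ q : ℕ) : ℂ) *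
              contrib 2 C e (y ^ j) (χ : G → ℂ) (ψ : G → ℂ)) := by
            refine Finset.sum_le_sum (fun ψ hψ => ?_)
            exact contrib_avg hM B y k hk C hC e hind χ ψ ((hK0 χ).1 hχ).1 ((hK0 ψ).1 hψ).1
              ((hK0 χ).1 hχ).2 ((hK0 ψ).1 hψ).2
        _ = ∑ j ∈ J, (2 : ℝ) ^ q * ((2 : ℝ) ^ q * ∑ ψ ∈ K0,
              Complex.normSq (contrib 2 C e (y ^ j) (χ : G → ℂ) (ψ : G → ℂ))) := by
            rw [Finset.sum_comm]
            refine Finset.sum_congr rfl (fun j _ => ?_)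
            rw [Finset.mul_sum, Finset.mul_sum]
            refine Finset.sum_congr rfl (fun ψ _ => ?_)
            rw [Complex.normSq_mul, Complex.normSq_natCast]
            push_cast
            ring
        _ ≤ ∑ j ∈ J, (2 : ℝ) ^ q * ((2 : ℝ) ^ q * R j χ) := by
            refine Finset.sum_le_sum (fun j _ => ?_)
            refine mul_le_mul_of_nonneg_left (mul_le_mul_of_nonneg_left ?_ (by positivity))
              (by positivity)
            rw [hR]
            exact Finset.sum_le_sum_of_subset_of_nonneg (Finset.subset_univ _)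
              (fun ψ _ _ => Complex.normSq_nonneg _)
        _ = (2 : ℝ) ^ q * ∑ j ∈ J, (2 : ℝ) ^ q * R j χ := by
            rw [Finset.mul_sum]
        _ = (Nat.totient (2 ^ k) : ℝ) * ((2 : ℝ) ^ q * (a χ : ℝ)) := by
            rw [key1 χ hχ]
            ring
    have hA' : (K0.card : ℝ) ≤ (2 : ℝ) ^ q * (a χ : ℝ) := by
      rw [mul_comm] at hA
      exact le_of_mul_le_mul_left hA hφR
    exact_mod_cast hA'
  · -- (B)
    have hB : (Nat.totient (2 ^ k) : ℝ) * ∑ χ ∈ K0, (a χ : ℝ) ≤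
        (Nat.totient (2 ^ k) : ℝ) * ((2 : ℝ) ^ q * (Cfsg.blockRank 2 e : ℝ)) := by
      calc (Nat.totient (2 ^ k) : ℝ) * ∑ χ ∈ K0, (a χ : ℝ)
          = ∑ χ ∈ K0, ∑ j ∈ J, (2 : ℝ) ^ q * R j χ := by
            rw [Finset.mul_sum]
            exact Finset.sum_congr rfl (fun χ hχ => (key1 χ hχ).symm)
        _ = ∑ j ∈ J, (2 : ℝ) ^ q * ∑ χ ∈ K0, R j χ := by
            rw [Finset.sum_comm]
            refine Finset.sum_congr rfl (fun j _ => ?_)
            rw [Finset.mul_sum]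
        _ ≤ ∑ j ∈ J, (2 : ℝ) ^ q * (Cfsg.blockRank 2 e : ℝ) := by
            refine Finset.sum_le_sum (fun j hj => ?_)
            refine mul_le_mul_of_nonneg_left ?_ (by positivity)
            rw [← htot j hj]
            exact Finset.sum_le_sum_of_subset_of_nonneg hK0B (fun χ _ _ => hRnn j χ)
        _ = (Nat.totient (2 ^ k) : ℝ) * ((2 : ℝ) ^ q * (Cfsg.blockRank 2 e : ℝ)) := by
            rw [Finset.sum_const, hJcard, nsmul_eq_mul]
    have hB' : ∑ χ ∈ K0, (a χ : ℝ) ≤ (2 : ℝ) ^ q * (Cfsg.blockRank 2 e : ℝ) :=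
      le_of_mul_le_mul_left hB hφR
    exact_mod_cast hB'

end Cfsg.Agent.Lib.Helper76
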