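import Mathlib
import Cfsg.Agent.Lib.Helper76.CycloAvg

/-!
# Averages of square norms of integer combinations of `p`-power roots of unity, continued

* `cyclo_dichotomy`: the sum over the exponents prime to `p` of `|∑ c i * r i ^ j|²` is either
  zero termwise or at least `φ(p ^ k)`.
* `cyclo_two`: if moreover `p ∣ ∑ c i`, it is zero termwise or at least `2 φ(p ^ k)`.
-/

set_option autoImplicit false

namespace Cfsg.Agent.Lib.Helper76

open scoped ComplexConjugate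

/-- The fiber inequality, refined. -/
theorem fiber_dichotomy (p : ℕ) (hp : p.Prime) {α : Type*} (F : Finset α) (hF : F.card ≤ p)
    (a : α → ℤ) :
    0 ≤ (p : ℤ) * ∑ i ∈ F, a i ^ 2 - (∑ i ∈ F, a i) ^ 2 ∧
    ((p : ℤ) * ∑ i ∈ F, a i ^ 2 - (∑ i ∈ F, a i) ^ 2 = 0 ∨
      (p : ℤ) - 1 ≤ (p : ℤ) * ∑ i ∈ F, a i ^ 2 - (∑ i ∈ F, a i) ^ 2) ∧
    ((p : ℤ) * ∑ i ∈ F, a i ^ 2 - (∑ i ∈ F, a i) ^ 2 = 0 → (p : ℤ) ∣ ∑ i ∈ F, a i) ∧
    ((p : ℤ) ∣ ∑ i ∈ F, a i → (p : ℤ) * ∑ i ∈ F, a i ^ 2 - (∑ i ∈ F, a i) ^ 2 = 0 ∨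
      2 * (p : ℤ) ≤ (p : ℤ) * ∑ i ∈ F, a i ^ 2 - (∑ i ∈ F, a i) ^ 2) := by
  obtain ⟨h0, h1⟩ := int_fiber_ineq p hp.two_le F hF a
  have hpZ : Prime (p : ℤ) := Nat.prime_iff_prime_int.mp hp
  have hp0 : (0 : ℤ) < p := by exact_mod_cast hp.pos
  have hdvdΦ : (p : ℤ) ∣ ∑ i ∈ F, a i →
      (p : ℤ) ∣ (p : ℤ) * ∑ i ∈ F, a i ^ 2 - (∑ i ∈ F, a i) ^ 2 := fun h =>
    dvd_sub (dvd_mul_right _ _) (dvd_pow h two_ne_zero)
  refine ⟨h0, ?_, ?_, ?_⟩
  · by_cases hd : (p : ℤ) ∣ ∑ i ∈ F, a i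
    · rcases h0.eq_or_lt with h | h
      · left; exact h.symm
      · right
        have := Int.le_of_dvd h (hdvdΦ hd)
        linarith
    · right; exact h1 hd
  · intro h
    have h2 : (∑ i ∈ F, a i) ^ 2 = (p : ℤ) * ∑ i ∈ F, a i ^ 2 := by linarith
    exact hpZ.dvd_of_dvd_pow (h2 ▸ dvd_mul_right _ _)
  · intro hd
    rcases h0.eq_or_lt with h | h
    · left; exact h.symm
    · right
      obtain ⟨A', hA'⟩ := hd
      have hΦ : (p : ℤ) * ∑ i ∈ F, a i ^ 2 - (∑ i ∈ F, a i) ^ 2 =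
          (p : ℤ) * (∑ i ∈ F, a i ^ 2 - (p : ℤ) * A' ^ 2) := by rw [hA']; ring
      rw [hΦ] at h ⊢
      have ht0 : 0 < ∑ i ∈ F, a i ^ 2 - (p : ℤ) * A' ^ 2 := by
        by_contra hneg
        push Not at hneg
        nlinarith
      have ht1 : ∑ i ∈ F, a i ^ 2 - (p : ℤ) * A' ^ 2 ≠ 1 := by
        intro ht1
        have hpar : Even (∑ i ∈ F, ((a i - A') ^ 2 - (a i - A'))) := by
          apply Finset.even_sum
          intro i _
          have : (a i - A') ^ 2 - (a i - A') = (a i - A') * (a i - A' - 1) := by ring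
          rw [this]
          exact Int.even_mul_pred_self _
        have hsum : ∑ i ∈ F, ((a i - A') ^ 2 - (a i - A')) =
            1 - ((p : ℤ) - F.card) * (A' * (A' + 1)) := by
          have e1 : ∀ i ∈ F, (a i - A') ^ 2 - (a i - A') =
              a i ^ 2 - (2 * A' + 1) * a i + (A' ^ 2 + A') := fun i _ => by ring
          rw [Finset.sum_congr rfl e1, Finset.sum_add_distrib, Finset.sum_sub_distrib,
            ← Finset.mul_sum, Finset.sum_const, nsmul_eq_mul]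
          have hQ1 : ∑ i ∈ F, a i ^ 2 = (p : ℤ) * A' ^ 2 + 1 := by linarith
          rw [hQ1, hA']
          ring
        rw [hsum] at hpar
        have hev : Even (((p : ℤ) - F.card) * (A' * (A' + 1))) :=
          (Int.even_mul_succ_self A').mul_left _
        have h1e : Even (1 : ℤ) := by
          have := hpar.add hev
          simpa using this
        exact Int.not_even_one h1e
      have ht2 : 2 ≤ ∑ i ∈ F, a i ^ 2 - (p : ℤ) * A' ^ 2 := by omega
      nlinarith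

/-- The fiber formula for the sum over the exponents prime to `p`. -/
theorem cyclo_fiber_formula {p : ℕ} (hp : p.Prime) (k' : ℕ) {ι : Type*} (s : Finset ι)
    (c : ι → ℤ) (r : ι → ℂ) (hr : ∀ i ∈ s, r i ^ (p ^ (k' + 1)) = 1) :
    ∃ (P : Finset ℂ) (Φ A : ℂ → ℤ),
      (∀ τ ∈ P, 0 ≤ Φ τ ∧ (Φ τ = 0 ∨ (p : ℤ) - 1 ≤ Φ τ) ∧ (Φ τ = 0 → (p : ℤ) ∣ A τ) ∧
        ((p : ℤ) ∣ A τ → Φ τ = 0 ∨ 2 * (p : ℤ) ≤ Φ τ)) ∧
      ∑ τ ∈ P, A τ = ∑ i ∈ s, c i ∧
      ∑ j ∈ (Finset.range (p ^ (k' + 1))).filter (fun j => Nat.Coprime j (p ^ (k' + 1))),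
        Complex.normSq (∑ i ∈ s, (c i : ℂ) * r i ^ j) =
          ((p ^ k' : ℕ) : ℝ) * ((∑ τ ∈ P, Φ τ : ℤ) : ℝ) := by
  classical
  set n' := p ^ k' with hn'
  have hn'pos : 0 < n' := pow_pos hp.pos _
  have hnn : p ^ (k' + 1) = p * n' := by rw [pow_succ, mul_comm]
  have hcop : ∀ j : ℕ, Nat.Coprime j (p ^ (k' + 1)) ↔ ¬ p ∣ j := by
    intro j
    rw [Nat.coprime_pow_right_iff (Nat.succ_pos k'), Nat.coprime_comm,
      Nat.Prime.coprime_iff_not_dvd hp]
  set f : ℕ → ℝ := fun j => Complex.normSq (∑ i ∈ s, (c i : ℂ) * r i ^ j) with hf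
  have hsplit : ∑ j ∈ (Finset.range (p ^ (k' + 1))).filter (fun j => Nat.Coprime j (p ^ (k' + 1))),
      f j = ∑ j ∈ Finset.range (p ^ (k' + 1)), f j - ∑ j' ∈ Finset.range n', f (p * j') := by
    have h1 := Finset.sum_filter_add_sum_filter_not (Finset.range (p ^ (k' + 1)))
      (fun j => Nat.Coprime j (p ^ (k' + 1))) f
    have h2 : ∑ j ∈ (Finset.range (p ^ (k' + 1))).filter
        (fun j => ¬ Nat.Coprime j (p ^ (k' + 1))), f j = ∑ j' ∈ Finset.range n', f (p * j') := by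
      symm
      apply Finset.sum_bij (fun j' _ => p * j')
      · intro j' hj'
        rw [Finset.mem_filter, Finset.mem_range, hcop, not_not, hnn]
        exact ⟨Nat.mul_lt_mul_of_pos_left (Finset.mem_range.mp hj') hp.pos, dvd_mul_right _ _⟩
      · intro a _ b _ hab
        exact Nat.eq_of_mul_eq_mul_left hp.pos hab
      · intro j hj
        rw [Finset.mem_filter, Finset.mem_range, hcop, not_not, hnn] at hj
        obtain ⟨j', rfl⟩ := hj.2
        exact ⟨j', Finset.mem_range.mpr (Nat.lt_of_mul_lt_mul_left hj.1), rfl⟩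
      · intro j' _
        rfl
    linarith
  have hfull := sum_normSq_pow s c r (p ^ (k' + 1)) (pow_pos hp.pos _) hr
  have hr' : ∀ i ∈ s, (r i ^ p) ^ n' = 1 := by
    intro i hi
    rw [← pow_mul, ← hnn]
    exact hr i hi
  have hsub := sum_normSq_pow s c (fun i => r i ^ p) n' hn'pos hr'
  have hsub' : ∑ j' ∈ Finset.range n', f (p * j') =
      (n' : ℝ) * ((∑ i ∈ s, ∑ i' ∈ s, (if r i ^ p = r i' ^ p then c i * c i' else 0) : ℤ) : ℝ) := by
    rw [← hsub]
    refine Finset.sum_congr rfl fun j' _ => ?_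
    rw [hf]
    simp only [pow_mul]
  have hmain : ∑ j ∈ (Finset.range (p ^ (k' + 1))).filter
      (fun j => Nat.Coprime j (p ^ (k' + 1))), f j =
      ((p ^ (k' + 1) : ℕ) : ℝ) * ((∑ ρ ∈ s.image r,
        (∑ i ∈ s.filter (fun i => r i = ρ), c i) ^ 2 : ℤ) : ℝ) -
      (n' : ℝ) * ((∑ τ ∈ s.image (fun i => r i ^ p),
        (∑ i ∈ s.filter (fun i => r i ^ p = τ), c i) ^ 2 : ℤ) : ℝ) := by
    rw [hsplit, hfull, hsub', sum_diag_eq s c r, sum_diag_eq s c (fun i => r i ^ p)]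
  set R := s.image r with hR
  set a : ℂ → ℤ := fun ρ => ∑ i ∈ s.filter (fun i => r i = ρ), c i with ha
  set P := s.image (fun i => r i ^ p) with hP
  have hPR : P = R.image (fun ρ => ρ ^ p) := by
    rw [hP, hR, Finset.image_image]
    rfl
  have hA : ∀ τ ∈ P, (∑ i ∈ s.filter (fun i => r i ^ p = τ), c i) =
      ∑ ρ ∈ R.filter (fun ρ => ρ ^ p = τ), a ρ := by
    intro τ _
    rw [← Finset.sum_fiberwise_of_maps_to (g := r) (t := R.filter (fun ρ => ρ ^ p = τ))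
      (fun i hi => by
        rw [Finset.mem_filter] at hi ⊢
        exact ⟨Finset.mem_image_of_mem r hi.1, hi.2⟩)]
    refine Finset.sum_congr rfl fun ρ hρ => ?_
    rw [ha]
    simp only
    congr 1
    ext i
    simp only [Finset.mem_filter]
    constructor
    · rintro ⟨⟨h1, _⟩, h3⟩
      exact ⟨h1, h3⟩
    · rintro ⟨h1, h3⟩
      refine ⟨⟨h1, ?_⟩, h3⟩
      rw [h3]
      exact (Finset.mem_filter.mp hρ).2
  have hcard : ∀ τ ∈ P, (R.filter (fun ρ => ρ ^ p = τ)).card ≤ p := by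
    intro τ _
    have hsub : R.filter (fun ρ => ρ ^ p = τ) ⊆ (Polynomial.nthRoots p τ).toFinset := by
      intro ρ hρ
      rw [Multiset.mem_toFinset, Polynomial.mem_nthRoots hp.pos]
      exact (Finset.mem_filter.mp hρ).2
    calc (R.filter (fun ρ => ρ ^ p = τ)).card ≤ (Polynomial.nthRoots p τ).toFinset.card :=
          Finset.card_le_card hsub
      _ ≤ Multiset.card (Polynomial.nthRoots p τ) := Multiset.toFinset_card_le _
      _ ≤ p := Polynomial.card_nthRoots p τ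
  have hT1 : ∑ ρ ∈ R, (a ρ) ^ 2 = ∑ τ ∈ P, ∑ ρ ∈ R.filter (fun ρ => ρ ^ p = τ), (a ρ) ^ 2 := by
    rw [hPR]
    exact (Finset.sum_fiberwise_of_maps_to (g := fun ρ : ℂ => ρ ^ p)
      (fun ρ hρ => Finset.mem_image_of_mem _ hρ) _).symm
  have hsumA : ∑ τ ∈ P, ∑ ρ ∈ R.filter (fun ρ => ρ ^ p = τ), a ρ = ∑ i ∈ s, c i := by
    rw [← Finset.sum_fiberwise_of_maps_to (g := fun i => r i ^ p) (t := P)
      (fun i hi => Finset.mem_image_of_mem _ hi)]
    refine Finset.sum_congr rfl fun τ hτ => ?_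
    rw [hA τ hτ]
  refine ⟨P, fun τ => (p : ℤ) * ∑ ρ ∈ R.filter (fun ρ => ρ ^ p = τ), (a ρ) ^ 2 -
      (∑ ρ ∈ R.filter (fun ρ => ρ ^ p = τ), a ρ) ^ 2,
    fun τ => ∑ ρ ∈ R.filter (fun ρ => ρ ^ p = τ), a ρ, ?_, hsumA, ?_⟩
  · intro τ hτ
    exact fiber_dichotomy p hp _ (hcard τ hτ) a
  · have hΦsum : ∑ τ ∈ P, ((p : ℤ) * ∑ ρ ∈ R.filter (fun ρ => ρ ^ p = τ), (a ρ) ^ 2 -
        (∑ ρ ∈ R.filter (fun ρ => ρ ^ p = τ), a ρ) ^ 2) =
        (p : ℤ) * ∑ ρ ∈ R, (a ρ) ^ 2 -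
          ∑ τ ∈ P, (∑ i ∈ s.filter (fun i => r i ^ p = τ), c i) ^ 2 := by
      rw [Finset.sum_sub_distrib, ← Finset.mul_sum, ← hT1]
      congr 1
      refine Finset.sum_congr rfl fun τ hτ => ?_
      rw [hA τ hτ]
    have hpn : ((p ^ (k' + 1) : ℕ) : ℝ) = (p : ℝ) * (n' : ℝ) := by
      rw [hnn]; push_cast; ring
    have hmain' : ∑ j ∈ (Finset.range (p ^ (k' + 1))).filter
        (fun j => Nat.Coprime j (p ^ (k' + 1))), f j =
        ((p ^ (k' + 1) : ℕ) : ℝ) * ((∑ ρ ∈ R, (a ρ) ^ 2 : ℤ) : ℝ) -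
        (n' : ℝ) * ((∑ τ ∈ P, (∑ i ∈ s.filter (fun i => r i ^ p = τ), c i) ^ 2 : ℤ) : ℝ) :=
      hmain
    rw [hmain', hΦsum, hpn]
    push_cast
    ring

/-- **Dichotomy.** The sum over the exponents `j` prime to `p` of the square norms of
`∑ c i * r i ^ j` is zero termwise or at least `φ(p ^ k)`. -/
theorem cyclo_dichotomy {p : ℕ} (hp : p.Prime) (k : ℕ) {ι : Type*} (s : Finset ι) (c : ι → ℤ)
    (r : ι → ℂ) (hr : ∀ i ∈ s, r i ^ (p ^ k) = 1) :
    (∀ j ∈ (Finset.range (p ^ k)).filter (fun j => Nat.Coprime j (p ^ k)),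
      ∑ i ∈ s, (c i : ℂ) * r i ^ j = 0) ∨
    (Nat.totient (p ^ k) : ℝ) ≤
      ∑ j ∈ (Finset.range (p ^ k)).filter (fun j => Nat.Coprime j (p ^ k)),
        Complex.normSq (∑ i ∈ s, (c i : ℂ) * r i ^ j) := by
  classical
  rcases Nat.eq_zero_or_pos k with hk | hk
  · subst hk
    have hfil : (Finset.range (p ^ 0)).filter (fun j => Nat.Coprime j (p ^ 0)) = {0} := by
      ext j
      simp
    rw [hfil]
    simp only [Finset.sum_singleton, Finset.mem_singleton, forall_eq, pow_zero, mul_one,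
      Nat.totient_one, Nat.cast_one]
    have h1 : (∑ i ∈ s, (c i : ℂ)) = (((∑ i ∈ s, c i : ℤ) : ℝ) : ℂ) := by push_cast; rfl
    by_cases hne : (∑ i ∈ s, c i) = 0
    · left
      rw [h1, hne]
      simp
    · right
      rw [h1, Complex.normSq_ofReal]
      have h2 : (1 : ℤ) ≤ (∑ i ∈ s, c i) * (∑ i ∈ s, c i) := by
        have := Int.one_le_abs hne
        nlinarith [abs_mul_abs_self (∑ i ∈ s, c i)]
      exact_mod_cast h2
  · obtain ⟨k', rfl⟩ : ∃ k', k = k' + 1 := ⟨k - 1, by omega⟩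
    obtain ⟨P, Φ, A, hprop, -, hform⟩ := cyclo_fiber_formula hp k' s c r hr
    by_cases hall : ∀ τ ∈ P, Φ τ = 0
    · left
      have hz : ∑ j ∈ (Finset.range (p ^ (k' + 1))).filter
          (fun j => Nat.Coprime j (p ^ (k' + 1))),
          Complex.normSq (∑ i ∈ s, (c i : ℂ) * r i ^ j) = 0 := by
        rw [hform, Finset.sum_eq_zero hall]
        simp
      intro j hj
      have := (Finset.sum_eq_zero_iff_of_nonneg (fun j _ => Complex.normSq_nonneg _)).1 hz j hj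
      exact Complex.normSq_eq_zero.1 this
    · right
      push Not at hall
      obtain ⟨τ₀, hτ₀, hne⟩ := hall
      have h1 : (p : ℤ) - 1 ≤ Φ τ₀ := by
        rcases (hprop τ₀ hτ₀).2.1 with h | h
        · exact absurd h hne
        · exact h
      have h2 : Φ τ₀ ≤ ∑ τ ∈ P, Φ τ :=
        Finset.single_le_sum (f := Φ) (fun τ hτ => (hprop τ hτ).1) hτ₀
      rw [hform, Nat.totient_prime_pow_succ hp]
      have h3 : ((p : ℝ) - 1) ≤ ((∑ τ ∈ P, Φ τ : ℤ) : ℝ) := by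
        have : (p : ℤ) - 1 ≤ ∑ τ ∈ P, Φ τ := le_trans h1 h2
        exact_mod_cast this
      have hlhs : ((p ^ k' * (p - 1) : ℕ) : ℝ) = ((p ^ k' : ℕ) : ℝ) * ((p : ℝ) - 1) := by
        rw [Nat.cast_mul, Nat.cast_sub hp.one_le, Nat.cast_one]
      rw [hlhs]
      exact mul_le_mul_of_nonneg_left h3 (by positivity)

/-- If `p` divides the sum of the coefficients, the sum over the exponents prime to `p` of the
square norms is zero termwise or at least `2 φ(p ^ k)`. -/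
theorem cyclo_two {p : ℕ} (hp : p.Prime) (k : ℕ) {ι : Type*} (s : Finset ι) (c : ι → ℤ)
    (r : ι → ℂ) (hr : ∀ i ∈ s, r i ^ (p ^ k) = 1) (hc : (p : ℤ) ∣ ∑ i ∈ s, c i) :
    (∀ j ∈ (Finset.range (p ^ k)).filter (fun j => Nat.Coprime j (p ^ k)),
      ∑ i ∈ s, (c i : ℂ) * r i ^ j = 0) ∨
    2 * (Nat.totient (p ^ k) : ℝ) ≤
      ∑ j ∈ (Finset.range (p ^ k)).filter (fun j => Nat.Coprime j (p ^ k)),
        Complex.normSq (∑ i ∈ s, (c i : ℂ) * r i ^ j) := by
  classical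
  have hp0 : (0 : ℤ) < p := by exact_mod_cast hp.pos
  have hp2 : (2 : ℤ) ≤ p := by exact_mod_cast hp.two_le
  rcases Nat.eq_zero_or_pos k with hk | hk
  · subst hk
    have hfil : (Finset.range (p ^ 0)).filter (fun j => Nat.Coprime j (p ^ 0)) = {0} := by
      ext j
      simp
    rw [hfil]
    simp only [Finset.sum_singleton, Finset.mem_singleton, forall_eq, pow_zero, mul_one,
      Nat.totient_one, Nat.cast_one]
    have h1 : (∑ i ∈ s, (c i : ℂ)) = (((∑ i ∈ s, c i : ℤ) : ℝ) : ℂ) := by push_cast; rfl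
    by_cases hne : (∑ i ∈ s, c i) = 0
    · left
      rw [h1, hne]
      simp
    · right
      rw [h1, Complex.normSq_ofReal]
      have h2 : (2 : ℤ) ≤ (∑ i ∈ s, c i) * (∑ i ∈ s, c i) := by
        have habs : (p : ℤ) ≤ |∑ i ∈ s, c i| := by
          have hd : (p : ℤ) ∣ |∑ i ∈ s, c i| := (dvd_abs _ _).mpr hc
          exact Int.le_of_dvd (abs_pos.mpr hne) hd
        nlinarith [abs_mul_abs_self (∑ i ∈ s, c i)]
      exact_mod_cast h2
  · obtain ⟨k', rfl⟩ : ∃ k', k = k' + 1 := ⟨k - 1, by omega⟩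
    obtain ⟨P, Φ, A, hprop, hsumA, hform⟩ := cyclo_fiber_formula hp k' s c r hr
    by_cases hall : ∀ τ ∈ P, Φ τ = 0
    · left
      have hz : ∑ j ∈ (Finset.range (p ^ (k' + 1))).filter
          (fun j => Nat.Coprime j (p ^ (k' + 1))),
          Complex.normSq (∑ i ∈ s, (c i : ℂ) * r i ^ j) = 0 := by
        rw [hform, Finset.sum_eq_zero hall]
        simp
      intro j hj
      have := (Finset.sum_eq_zero_iff_of_nonneg (fun j _ => Complex.normSq_nonneg _)).1 hz j hj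
      exact Complex.normSq_eq_zero.1 this
    · right
      push Not at hall
      obtain ⟨τ₀, hτ₀, hne⟩ := hall
      have hkey : 2 * ((p : ℤ) - 1) ≤ ∑ τ ∈ P, Φ τ := by
        by_cases hex : ∃ τ₁ ∈ P, τ₁ ≠ τ₀ ∧ Φ τ₁ ≠ 0
        · obtain ⟨τ₁, hτ₁, hne1, hΦ1⟩ := hex
          have h0 : (p : ℤ) - 1 ≤ Φ τ₀ := by
            rcases (hprop τ₀ hτ₀).2.1 with h | h
            · exact absurd h hne
            · exact h
          have h1 : (p : ℤ) - 1 ≤ Φ τ₁ := by
            rcases (hprop τ₁ hτ₁).2.1 with h | h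
            · exact absurd h hΦ1
            · exact h
          have hsub : ({τ₀, τ₁} : Finset ℂ) ⊆ P := by
            intro x hx
            rw [Finset.mem_insert, Finset.mem_singleton] at hx
            rcases hx with rfl | rfl
            · exact hτ₀
            · exact hτ₁
          have h2 : ∑ τ ∈ ({τ₀, τ₁} : Finset ℂ), Φ τ ≤ ∑ τ ∈ P, Φ τ :=
            Finset.sum_le_sum_of_subset_of_nonneg hsub (fun τ hτ _ => (hprop τ hτ).1)
          rw [Finset.sum_pair (fun h => hne1 h.symm)] at h2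
          linarith
        · push Not at hex
          have hdvd : ∀ τ ∈ P.erase τ₀, (p : ℤ) ∣ A τ := by
            intro τ hτ
            rw [Finset.mem_erase] at hτ
            exact (hprop τ hτ.2).2.2.1 (hex τ hτ.2 hτ.1)
          have hA0 : (p : ℤ) ∣ A τ₀ := by
            have h1 : A τ₀ = ∑ i ∈ s, c i - ∑ τ ∈ P.erase τ₀, A τ := by
              rw [← hsumA, ← Finset.add_sum_erase P A hτ₀]
              ring
            rw [h1]
            exact dvd_sub hc (Finset.dvd_sum hdvd)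
          have h0 : 2 * (p : ℤ) ≤ Φ τ₀ := by
            rcases (hprop τ₀ hτ₀).2.2.2 hA0 with h | h
            · exact absurd h hne
            · exact h
          have h2 : Φ τ₀ ≤ ∑ τ ∈ P, Φ τ :=
            Finset.single_le_sum (f := Φ) (fun τ hτ => (hprop τ hτ).1) hτ₀
          linarith
      rw [hform, Nat.totient_prime_pow_succ hp]
      have h3 : 2 * ((p : ℝ) - 1) ≤ ((∑ τ ∈ P, Φ τ : ℤ) : ℝ) := by
        exact_mod_cast hkey
      have hlhs : ((p ^ k' * (p - 1) : ℕ) : ℝ) = ((p ^ k' : ℕ) : ℝ) * ((p : ℝ) - 1) := by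
        rw [Nat.cast_mul, Nat.cast_sub hp.one_le, Nat.cast_one]
      rw [hlhs]
      have h4 := mul_le_mul_of_nonneg_left h3 (by positivity : (0 : ℝ) ≤ ((p ^ k' : ℕ) : ℝ))
      linarith

end Cfsg.Agent.Lib.Helper76
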