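import Mathlib
import Cfsg.Agent.Lib.Helper76.CycloNe

/-!
# Counting with cyclotomic masses

Pure counting lemmas: a finite family of vectors with coordinates in the integer combinations of
`p ^ k`-th roots of unity, satisfying Parseval identities with respect to a reduced integral
binary (or unary) form, has at most `P` members.
-/

set_option autoImplicit false

namespace Cfsg.Agent.Lib.Helper76

open scoped ComplexConjugate

/-- Integer combinations of the `j`-th powers of a family of numbers. -/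
noncomputable def cyc {ι : Type*} (s : Finset ι) (ω : ι → ℂ) (c : ι → ℤ) (j : ℕ) : ℂ :=
  ∑ i ∈ s, (c i : ℂ) * ω i ^ j

/-- The exponents below `p ^ k` prime to `p ^ k`. -/
def unitExps (p k : ℕ) : Finset ℕ :=
  (Finset.range (p ^ k)).filter (fun j => Nat.Coprime j (p ^ k))

theorem card_unitExps (p k : ℕ) : (unitExps p k).card = Nat.totient (p ^ k) := by
  rw [Nat.totient_eq_card_coprime, unitExps]
  congr 1
  refine Finset.filter_congr (fun j _ => ?_)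
  exact Nat.coprime_comm

theorem unitExps_nonempty {p : ℕ} (hp : p.Prime) (k : ℕ) : (unitExps p k).Nonempty := by
  rw [← Finset.card_pos, card_unitExps]
  exact Nat.totient_pos.mpr (pow_pos hp.pos k)

theorem cyc_add_mul {ι : Type*} (s : Finset ι) (ω : ι → ℂ) (c1 c2 : ι → ℤ) (ε : ℤ) (j : ℕ) :
    cyc s ω (fun i => c1 i + ε * c2 i) j = cyc s ω c1 j + (ε : ℂ) * cyc s ω c2 j := by
  unfold cyc
  rw [Finset.mul_sum, ← Finset.sum_add_distrib]
  refine Finset.sum_congr rfl (fun i _ => ?_)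
  push_cast
  ring

theorem cyc_conj {ι : Type*} (s : Finset ι) (ω : ι → ℂ) (c : ι → ℤ) (j : ℕ) :
    cyc s (fun i => conj (ω i)) c j = conj (cyc s ω c j) := by
  unfold cyc
  rw [map_sum]
  refine Finset.sum_congr rfl (fun i _ => ?_)
  rw [map_mul, map_pow, map_intCast]

theorem cyc_mass_ge {p : ℕ} (hp : p.Prime) (k : ℕ) {ι : Type*} (s : Finset ι) (ω : ι → ℂ)
    (hω : ∀ i ∈ s, ω i ^ (p ^ k) = 1) (c : ι → ℤ)
    (h : ∃ j ∈ unitExps p k, cyc s ω c j ≠ 0) :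
    (Nat.totient (p ^ k) : ℝ) ≤ ∑ j ∈ unitExps p k, Complex.normSq (cyc s ω c j) := by
  rcases cyclo_dichotomy hp k s c ω hω with h0 | h1
  · obtain ⟨j, hj, hne⟩ := h
    exact absurd (h0 j hj) hne
  · exact h1

theorem cyc_mass_ge_two {p : ℕ} (hp : p.Prime) (k : ℕ) {ι : Type*} (s : Finset ι) (ω : ι → ℂ)
    (hω : ∀ i ∈ s, ω i ^ (p ^ k) = 1) (c : ι → ℤ) (hc : (p : ℤ) ∣ ∑ i ∈ s, c i)
    (h : ∃ j ∈ unitExps p k, cyc s ω c j ≠ 0) :
    2 * (Nat.totient (p ^ k) : ℝ) ≤ ∑ j ∈ unitExps p k, Complex.normSq (cyc s ω c j) := by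
  rcases cyclo_two hp k s c ω hω hc with h0 | h1
  · obtain ⟨j, hj, hne⟩ := h
    exact absurd (h0 j hj) hne
  · exact h1

theorem cyc_mass_nonneg (p k : ℕ) {ι : Type*} (s : Finset ι) (ω : ι → ℂ) (c : ι → ℤ) :
    (0 : ℝ) ≤ ∑ j ∈ unitExps p k, Complex.normSq (cyc s ω c j) :=
  Finset.sum_nonneg (fun _ _ => Complex.normSq_nonneg _)

/-- Counting for a form of rank one. -/
theorem count_rank_one {p : ℕ} (hp : p.Prime) (k : ℕ) {X ι : Type*} (Bf : Finset X)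
    (s : Finset ι) (ω : ι → ℂ) (hω : ∀ i ∈ s, ω i ^ (p ^ k) = 1) (c : X → ι → ℤ) (n11 : ℤ)
    (hn : 0 < n11) (P : ℕ)
    (hpars : ∀ j ∈ unitExps p k,
      (n11 : ℝ) * ∑ χ ∈ Bf, Complex.normSq (cyc s ω (c χ) j) = (P : ℝ))
    (hnz : ∀ χ ∈ Bf, ∃ j ∈ unitExps p k, cyc s ω (c χ) j ≠ 0) :
    Bf.card ≤ P := by
  have hφ : 0 < Nat.totient (p ^ k) := Nat.totient_pos.mpr (pow_pos hp.pos k)
  have hφR : (0 : ℝ) < (Nat.totient (p ^ k) : ℝ) := by exact_mod_cast hφ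
  have h1 : (Nat.totient (p ^ k) : ℝ) * (Bf.card : ℝ) ≤
      ∑ χ ∈ Bf, ∑ j ∈ unitExps p k, Complex.normSq (cyc s ω (c χ) j) := by
    calc (Nat.totient (p ^ k) : ℝ) * (Bf.card : ℝ) = ∑ χ ∈ Bf, (Nat.totient (p ^ k) : ℝ) := by
          rw [Finset.sum_const, nsmul_eq_mul, mul_comm]
      _ ≤ _ := Finset.sum_le_sum (fun χ hχ => cyc_mass_ge hp k s ω hω (c χ) (hnz χ hχ))
  have h2 : (n11 : ℝ) * ∑ χ ∈ Bf, ∑ j ∈ unitExps p k, Complex.normSq (cyc s ω (c χ) j) =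
      (Nat.totient (p ^ k) : ℝ) * (P : ℝ) := by
    rw [Finset.sum_comm, Finset.mul_sum, Finset.sum_congr rfl hpars, Finset.sum_const,
      card_unitExps, nsmul_eq_mul]
  have hn1 : (1 : ℝ) ≤ (n11 : ℝ) := by exact_mod_cast hn
  have hSum0 : (0 : ℝ) ≤ ∑ χ ∈ Bf, ∑ j ∈ unitExps p k, Complex.normSq (cyc s ω (c χ) j) :=
    Finset.sum_nonneg (fun _ _ => cyc_mass_nonneg p k s ω _)
  have h3 : (Nat.totient (p ^ k) : ℝ) * (Bf.card : ℝ) ≤
      (Nat.totient (p ^ k) : ℝ) * (P : ℝ) := by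
    nlinarith
  have h4 := le_of_mul_le_mul_left h3 hφR
  exact_mod_cast h4

/-- Counting for a reduced binary form with minimum at least two. -/
theorem count_rank_two_good {p : ℕ} (hp : p.Prime) (k : ℕ) {X ι : Type*} (Bf : Finset X)
    (s : Finset ι) (ω : ι → ℂ) (hω : ∀ i ∈ s, ω i ^ (p ^ k) = 1) (c1 c2 : X → ι → ℤ)
    (n11 n12 n22 : ℤ) (h1 : |2 * n12| ≤ n11) (h2 : n11 ≤ n22) (h3 : 2 ≤ n11) (P : ℕ)
    (hpars : ∀ j ∈ unitExps p k, ∀ a1 a2 : ℤ, ∑ χ ∈ Bf, Complex.normSq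
        (cyc s ω (c1 χ) j * ((a1 * n11 + a2 * n12 : ℤ) : ℂ) +
          cyc s ω (c2 χ) j * ((a1 * n12 + a2 * n22 : ℤ) : ℂ)) =
      (P : ℝ) * ((a1 ^ 2 * n11 + 2 * a1 * a2 * n12 + a2 ^ 2 * n22 : ℤ) : ℝ))
    (hnz : ∀ χ ∈ Bf, ∀ j ∈ unitExps p k,
      ¬ (cyc s ω (c1 χ) j = 0 ∧ cyc s ω (c2 χ) j = 0)) :
    Bf.card ≤ P := by
  classical
  have hφ : 0 < Nat.totient (p ^ k) := Nat.totient_pos.mpr (pow_pos hp.pos k)
  have hφR : (0 : ℝ) < (Nat.totient (p ^ k) : ℝ) := by exact_mod_cast hφ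
  obtain ⟨j0, hj0⟩ := unitExps_nonempty hp k
  obtain ⟨hl, hu⟩ := abs_le.1 h1
  set Δ : ℤ := n11 * n22 - n12 ^ 2 with hΔ
  have hΔpos : 0 < Δ := by
    rw [hΔ]
    nlinarith
  obtain ⟨ε, hε2, hεn⟩ : ∃ ε : ℤ, ε ^ 2 = 1 ∧ ε * n12 = |n12| := by
    rcases le_or_gt 0 n12 with h | h
    · exact ⟨1, by norm_num, by rw [one_mul, abs_of_nonneg h]⟩
    · exact ⟨-1, by norm_num, by rw [abs_of_neg h]; ring⟩
  set m : ℤ := |n12| with hm
  have hm0 : 0 ≤ m := abs_nonneg _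
  have hm2 : 2 * m ≤ n11 := by
    have : |2 * n12| = 2 * m := by rw [abs_mul, hm]; norm_num
    rw [← this]
    exact h1
  have hmsq : m ^ 2 = n12 ^ 2 := sq_abs n12
  have hmm : 0 ≤ m * (m - 1) := by
    rcases hm0.eq_or_lt with h | h
    · rw [← h]; norm_num
    · exact mul_nonneg hm0 (by omega)
  have hfinal : n11 + n22 - m ≤ Δ := by
    rw [hΔ, ← hmsq]
    nlinarith [mul_nonneg (show (0 : ℤ) ≤ n11 - 2 by omega) (show (0 : ℤ) ≤ n11 - 2 * m by omega),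
      mul_nonneg (show (0 : ℤ) ≤ n22 - n11 by omega) (show (0 : ℤ) ≤ n11 - 1 by omega),
      mul_nonneg hm0 (show (0 : ℤ) ≤ n11 - 2 * m by omega), hmm]
  set c3 : X → ι → ℤ := fun χ i => c1 χ i + ε * c2 χ i with hc3
  have hR3 : ∀ χ j, cyc s ω (c3 χ) j = cyc s ω (c1 χ) j + (ε : ℂ) * cyc s ω (c2 χ) j :=
    fun χ j => cyc_add_mul s ω (c1 χ) (c2 χ) ε j
  have hΔR : (0 : ℝ) < (Δ : ℝ) := by exact_mod_cast hΔpos
  have hΔ0 : (Δ : ℝ) ≠ 0 := hΔR.ne'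
  -- three Parseval identities
  have hP1 : ∀ j ∈ unitExps p k, (Δ : ℝ) * ∑ χ ∈ Bf, Complex.normSq (cyc s ω (c1 χ) j) =
      (P : ℝ) * (n22 : ℝ) := by
    intro j hj
    have ha := hpars j hj n22 (-n12)
    have e1 : n22 * n11 + -n12 * n12 = Δ := by rw [hΔ]; ring
    have e2 : n22 * n12 + -n12 * n22 = 0 := by ring
    have e3 : n22 ^ 2 * n11 + 2 * n22 * -n12 * n12 + (-n12) ^ 2 * n22 = n22 * Δ := by
      rw [hΔ]; ring
    rw [e1, e2, e3] at ha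
    simp only [Int.cast_zero, mul_zero, add_zero, Complex.normSq_mul,
      Complex.normSq_intCast] at ha
    rw [← Finset.sum_mul] at ha
    push_cast at ha
    apply mul_left_cancel₀ hΔ0
    linear_combination ha
  have hP2 : ∀ j ∈ unitExps p k, (Δ : ℝ) * ∑ χ ∈ Bf, Complex.normSq (cyc s ω (c2 χ) j) =
      (P : ℝ) * (n11 : ℝ) := by
    intro j hj
    have ha := hpars j hj (-n12) n11
    have e1 : -n12 * n11 + n11 * n12 = 0 := by ring
    have e2 : -n12 * n12 + n11 * n22 = Δ := by rw [hΔ]; ring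
    have e3 : (-n12) ^ 2 * n11 + 2 * -n12 * n11 * n12 + n11 ^ 2 * n22 = n11 * Δ := by
      rw [hΔ]; ring
    rw [e1, e2, e3] at ha
    simp only [Int.cast_zero, mul_zero, zero_add, Complex.normSq_mul,
      Complex.normSq_intCast] at ha
    rw [← Finset.sum_mul] at ha
    push_cast at ha
    apply mul_left_cancel₀ hΔ0
    linear_combination ha
  have hP3 : ∀ j ∈ unitExps p k, (Δ : ℝ) * ∑ χ ∈ Bf, Complex.normSq (cyc s ω (c3 χ) j) =
      (P : ℝ) * ((n11 : ℝ) + n22 - 2 * m) := by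
    intro j hj
    have ha := hpars j hj (n22 - ε * n12) (-n12 + ε * n11)
    have e1 : (n22 - ε * n12) * n11 + (-n12 + ε * n11) * n12 = Δ := by rw [hΔ]; ring
    have e2 : (n22 - ε * n12) * n12 + (-n12 + ε * n11) * n22 = ε * Δ := by rw [hΔ]; ring
    have e3 : (n22 - ε * n12) ^ 2 * n11 + 2 * (n22 - ε * n12) * (-n12 + ε * n11) * n12 +
        (-n12 + ε * n11) ^ 2 * n22 = Δ * (n11 + n22 - 2 * m) := by
      rw [hΔ, ← hεn]
      linear_combination (n11 * (n11 * n22 - n12 ^ 2)) * hε2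
    rw [e1, e2, e3] at ha
    have hterm : ∀ χ ∈ Bf, Complex.normSq (cyc s ω (c1 χ) j * ((Δ : ℤ) : ℂ) +
        cyc s ω (c2 χ) j * ((ε * Δ : ℤ) : ℂ)) =
        Complex.normSq (cyc s ω (c3 χ) j) * ((Δ : ℝ) * (Δ : ℝ)) := by
      intro χ _
      rw [hR3, ← Complex.normSq_intCast, ← Complex.normSq_mul]
      congr 1
      push_cast
      ring
    rw [Finset.sum_congr rfl hterm, ← Finset.sum_mul] at ha
    push_cast at ha
    apply mul_left_cancel₀ hΔ0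
    linear_combination ha
  -- masses
  have hmass : ∀ χ ∈ Bf, 2 * (Nat.totient (p ^ k) : ℝ) ≤
      ∑ j ∈ unitExps p k, Complex.normSq (cyc s ω (c1 χ) j) +
      ∑ j ∈ unitExps p k, Complex.normSq (cyc s ω (c2 χ) j) +
      ∑ j ∈ unitExps p k, Complex.normSq (cyc s ω (c3 χ) j) := by
    intro χ hχ
    have n1 := cyc_mass_nonneg p k s ω (c1 χ)
    have n2 := cyc_mass_nonneg p k s ω (c2 χ)
    have n3 := cyc_mass_nonneg p k s ω (c3 χ)
    have hε0 : (ε : ℂ) ≠ 0 := by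
      intro h
      have : ε = 0 := by exact_mod_cast h
      rw [this] at hε2
      norm_num at hε2
    by_cases z1 : ∀ j ∈ unitExps p k, cyc s ω (c1 χ) j = 0
    · have hR2 : cyc s ω (c2 χ) j0 ≠ 0 := fun h => hnz χ hχ j0 hj0 ⟨z1 j0 hj0, h⟩
      have m2 := cyc_mass_ge hp k s ω hω (c2 χ) ⟨j0, hj0, hR2⟩
      have hR3' : cyc s ω (c3 χ) j0 ≠ 0 := by
        rw [hR3, z1 j0 hj0, zero_add]
        exact mul_ne_zero hε0 hR2
      have m3 := cyc_mass_ge hp k s ω hω (c3 χ) ⟨j0, hj0, hR3'⟩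
      linarith
    · push Not at z1
      have m1 := cyc_mass_ge hp k s ω hω (c1 χ) z1
      by_cases z2 : ∀ j ∈ unitExps p k, cyc s ω (c2 χ) j = 0
      · obtain ⟨j1, hj1, hne⟩ := z1
        have hR3' : cyc s ω (c3 χ) j1 ≠ 0 := by
          rw [hR3, z2 j1 hj1, mul_zero, add_zero]
          exact hne
        have m3 := cyc_mass_ge hp k s ω hω (c3 χ) ⟨j1, hj1, hR3'⟩
        linarith
      · push Not at z2
        have m2 := cyc_mass_ge hp k s ω hω (c2 χ) z2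
        linarith
  have hS : ∀ (c : X → ι → ℤ) (N : ℝ),
      (∀ j ∈ unitExps p k, (Δ : ℝ) * ∑ χ ∈ Bf, Complex.normSq (cyc s ω (c χ) j) = (P : ℝ) * N) →
      (Δ : ℝ) * ∑ χ ∈ Bf, ∑ j ∈ unitExps p k, Complex.normSq (cyc s ω (c χ) j) =
        (Nat.totient (p ^ k) : ℝ) * ((P : ℝ) * N) := by
    intro c N h
    rw [Finset.sum_comm, Finset.mul_sum, Finset.sum_congr rfl h, Finset.sum_const,
      card_unitExps, nsmul_eq_mul]
  have hS1 := hS c1 _ hP1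
  have hS2 := hS c2 _ hP2
  have hS3 := hS c3 _ hP3
  have hsum : 2 * (Nat.totient (p ^ k) : ℝ) * (Bf.card : ℝ) ≤
      ∑ χ ∈ Bf, ∑ j ∈ unitExps p k, Complex.normSq (cyc s ω (c1 χ) j) +
      ∑ χ ∈ Bf, ∑ j ∈ unitExps p k, Complex.normSq (cyc s ω (c2 χ) j) +
      ∑ χ ∈ Bf, ∑ j ∈ unitExps p k, Complex.normSq (cyc s ω (c3 χ) j) := by
    rw [← Finset.sum_add_distrib, ← Finset.sum_add_distrib]
    calc 2 * (Nat.totient (p ^ k) : ℝ) * (Bf.card : ℝ)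
        = ∑ χ ∈ Bf, 2 * (Nat.totient (p ^ k) : ℝ) := by
          rw [Finset.sum_const, nsmul_eq_mul, mul_comm]
      _ ≤ _ := Finset.sum_le_sum hmass
  have hfinalR : (n11 : ℝ) + n22 - m ≤ (Δ : ℝ) := by exact_mod_cast hfinal
  have hPR : (0 : ℝ) ≤ (P : ℝ) := Nat.cast_nonneg P
  have h5 : (Δ : ℝ) * (2 * (Nat.totient (p ^ k) : ℝ) * (Bf.card : ℝ)) ≤
      (Δ : ℝ) * (2 * (Nat.totient (p ^ k) : ℝ) * (P : ℝ)) := by
    have hA := mul_le_mul_of_nonneg_left hsum hΔR.le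
    have hB : (Nat.totient (p ^ k) : ℝ) * ((P : ℝ) * ((n11 : ℝ) + n22 - m)) ≤
        (Nat.totient (p ^ k) : ℝ) * ((P : ℝ) * (Δ : ℝ)) :=
      mul_le_mul_of_nonneg_left (mul_le_mul_of_nonneg_left hfinalR hPR) hφR.le
    nlinarith
  have h6 := le_of_mul_le_mul_left h5 hΔR
  have h7 : (Nat.totient (p ^ k) : ℝ) * (Bf.card : ℝ) ≤ (Nat.totient (p ^ k) : ℝ) * (P : ℝ) := by
    linarith
  have h8 := le_of_mul_le_mul_left h7 hφR
  exact_mod_cast h8

/-- Counting for the form `x ^ 2 + n * y ^ 2`, `n ≥ 2`, with the integrality information on the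
first coordinate. -/
theorem count_rank_two_bad {p : ℕ} (hp : p.Prime) (k : ℕ) {X ι : Type*} (Bf : Finset X)
    (B0 : X → Prop) (s : Finset ι) (ω : ι → ℂ) (hω : ∀ i ∈ s, ω i ^ (p ^ k) = 1)
    (c1 c2 : X → ι → ℤ) (n : ℤ) (hn : 2 ≤ n) (P : ℕ)
    (hpars1 : ∀ j ∈ unitExps p k, ∑ χ ∈ Bf, Complex.normSq (cyc s ω (c1 χ) j) = (P : ℝ))
    (hpars2 : ∀ j ∈ unitExps p k,
      (n : ℝ) * ∑ χ ∈ Bf, Complex.normSq (cyc s ω (c2 χ) j) = (P : ℝ))
    (h0nz : ∀ χ ∈ Bf, B0 χ → ∃ j ∈ unitExps p k, cyc s ω (c1 χ) j ≠ 0)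
    (hpos : ∀ χ ∈ Bf, ¬ B0 χ → (p : ℤ) ∣ ∑ i ∈ s, c1 χ i)
    (hnzT : ∀ χ ∈ Bf, ∀ j ∈ unitExps p k, cyc s ω (c1 χ) j = 0 → cyc s ω (c2 χ) j ≠ 0)
    (hnz0 : ∀ ψ ∈ Bf, B0 ψ → ∀ χ ∈ Bf, ∀ j ∈ unitExps p k,
      cyc s ω (c1 χ) j = 0 → cyc s ω (c2 ψ) j ≠ 0) :
    Bf.card ≤ P := by
  classical
  have hφ : 0 < Nat.totient (p ^ k) := Nat.totient_pos.mpr (pow_pos hp.pos k)
  have hφR : (0 : ℝ) < (Nat.totient (p ^ k) : ℝ) := by exact_mod_cast hφ
  obtain ⟨j0, hj0⟩ := unitExps_nonempty hp k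
  set a : X → ℝ := fun χ => if B0 χ then 1 else 0 with ha
  set t : X → ℝ := fun χ => if (∀ j ∈ unitExps p k, cyc s ω (c1 χ) j = 0) then 1 else 0 with ht
  have hB0t : ∀ χ ∈ Bf, B0 χ → ¬ (∀ j ∈ unitExps p k, cyc s ω (c1 χ) j = 0) := by
    intro χ hχ hB hall
    obtain ⟨j, hj, hne⟩ := h0nz χ hχ hB
    exact hne (hall j hj)
  have hI : ∀ χ ∈ Bf, (Nat.totient (p ^ k) : ℝ) * (2 - a χ - 2 * t χ) ≤
      ∑ j ∈ unitExps p k, Complex.normSq (cyc s ω (c1 χ) j) := by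
    intro χ hχ
    by_cases hB : B0 χ
    · have h1 : a χ = 1 := by simp [ha, hB]
      have h2 : t χ = 0 := by simp only [ht]; rw [if_neg (hB0t χ hχ hB)]
      rw [h1, h2]
      have := cyc_mass_ge hp k s ω hω (c1 χ) (h0nz χ hχ hB)
      linarith
    · have h1 : a χ = 0 := by simp [ha, hB]
      by_cases hall : ∀ j ∈ unitExps p k, cyc s ω (c1 χ) j = 0
      · have h2 : t χ = 1 := by simp only [ht]; rw [if_pos hall]
        rw [h1, h2]
        have := cyc_mass_nonneg p k s ω (c1 χ)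
        linarith
      · have h2 : t χ = 0 := by simp only [ht]; rw [if_neg hall]
        rw [h1, h2]
        push Not at hall
        have := cyc_mass_ge_two hp k s ω hω (c1 χ) (hpos χ hχ hB) hall
        linarith
  have hat : ∀ χ ∈ Bf, a χ + t χ ≤ 1 ∧ 0 ≤ a χ ∧ 0 ≤ t χ ∧ a χ ≤ 1 := by
    intro χ hχ
    by_cases hB : B0 χ
    · have h1 : a χ = 1 := by simp [ha, hB]
      have h2 : t χ = 0 := by simp only [ht]; rw [if_neg (hB0t χ hχ hB)]
      rw [h1, h2]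
      norm_num
    · have h1 : a χ = 0 := by simp [ha, hB]
      by_cases hall : ∀ j ∈ unitExps p k, cyc s ω (c1 χ) j = 0
      · have h2 : t χ = 1 := by simp only [ht]; rw [if_pos hall]
        rw [h1, h2]
        norm_num
      · have h2 : t χ = 0 := by simp only [ht]; rw [if_neg hall]
        rw [h1, h2]
        norm_num
  have hS1 : ∑ χ ∈ Bf, ∑ j ∈ unitExps p k, Complex.normSq (cyc s ω (c1 χ) j) =
      (Nat.totient (p ^ k) : ℝ) * (P : ℝ) := by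
    rw [Finset.sum_comm, Finset.sum_congr rfl hpars1, Finset.sum_const, card_unitExps,
      nsmul_eq_mul]
  have hS2 : (n : ℝ) * ∑ χ ∈ Bf, ∑ j ∈ unitExps p k, Complex.normSq (cyc s ω (c2 χ) j) =
      (Nat.totient (p ^ k) : ℝ) * (P : ℝ) := by
    rw [Finset.sum_comm, Finset.mul_sum, Finset.sum_congr rfl hpars2, Finset.sum_const,
      card_unitExps, nsmul_eq_mul]
  have hcard : (Bf.card : ℝ) = ∑ χ ∈ Bf, (1 : ℝ) := by
    rw [Finset.sum_const, nsmul_eq_mul, mul_one]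
  -- (I) summed
  have hIsum : (Nat.totient (p ^ k) : ℝ) *
      (2 * (Bf.card : ℝ) - ∑ χ ∈ Bf, a χ - 2 * ∑ χ ∈ Bf, t χ) ≤
      (Nat.totient (p ^ k) : ℝ) * (P : ℝ) := by
    rw [← hS1]
    have h1 : ∑ χ ∈ Bf, (Nat.totient (p ^ k) : ℝ) * (2 - a χ - 2 * t χ) =
        (Nat.totient (p ^ k) : ℝ) *
        (2 * (Bf.card : ℝ) - ∑ χ ∈ Bf, a χ - 2 * ∑ χ ∈ Bf, t χ) := by
      rw [← Finset.mul_sum, Finset.sum_sub_distrib, Finset.sum_sub_distrib,
        ← Finset.mul_sum, Finset.sum_const, nsmul_eq_mul]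
      ring
    rw [← h1]
    exact Finset.sum_le_sum hI
  have hI' : 2 * (Bf.card : ℝ) - ∑ χ ∈ Bf, a χ - 2 * ∑ χ ∈ Bf, t χ ≤ (P : ℝ) :=
    le_of_mul_le_mul_left hIsum hφR
  have hA0 : (0 : ℝ) ≤ ∑ χ ∈ Bf, a χ := Finset.sum_nonneg (fun χ hχ => (hat χ hχ).2.1)
  have hT0 : (0 : ℝ) ≤ ∑ χ ∈ Bf, t χ := Finset.sum_nonneg (fun χ hχ => (hat χ hχ).2.2.1)
  have hA1 : ∑ χ ∈ Bf, a χ ≤ (Bf.card : ℝ) := by
    rw [hcard]
    exact Finset.sum_le_sum (fun χ hχ => (hat χ hχ).2.2.2)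
  have hgoal : (Bf.card : ℝ) ≤ (P : ℝ) := by
    by_cases hex : ∃ χ0 ∈ Bf, ∀ j ∈ unitExps p k, cyc s ω (c1 χ0) j = 0
    · obtain ⟨χ0, hχ0, hz0⟩ := hex
      have hII : ∀ χ ∈ Bf, (Nat.totient (p ^ k) : ℝ) * (a χ + t χ) ≤
          ∑ j ∈ unitExps p k, Complex.normSq (cyc s ω (c2 χ) j) := by
        intro χ hχ
        by_cases hB : B0 χ
        · have h1 : a χ = 1 := by simp [ha, hB]
          have h2 : t χ = 0 := by simp only [ht]; rw [if_neg (hB0t χ hχ hB)]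
          rw [h1, h2]
          have := cyc_mass_ge hp k s ω hω (c2 χ)
            ⟨j0, hj0, hnz0 χ hχ hB χ0 hχ0 j0 hj0 (hz0 j0 hj0)⟩
          linarith
        · have h1 : a χ = 0 := by simp [ha, hB]
          by_cases hall : ∀ j ∈ unitExps p k, cyc s ω (c1 χ) j = 0
          · have h2 : t χ = 1 := by simp only [ht]; rw [if_pos hall]
            rw [h1, h2]
            have := cyc_mass_ge hp k s ω hω (c2 χ) ⟨j0, hj0, hnzT χ hχ j0 hj0 (hall j0 hj0)⟩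
            linarith
          · have h2 : t χ = 0 := by simp only [ht]; rw [if_neg hall]
            rw [h1, h2]
            have := cyc_mass_nonneg p k s ω (c2 χ)
            linarith
      have hIIsum : (Nat.totient (p ^ k) : ℝ) * (∑ χ ∈ Bf, a χ + ∑ χ ∈ Bf, t χ) ≤
          ∑ χ ∈ Bf, ∑ j ∈ unitExps p k, Complex.normSq (cyc s ω (c2 χ) j) := by
        rw [← Finset.sum_add_distrib, Finset.mul_sum]
        exact Finset.sum_le_sum hII
      have hnR : (2 : ℝ) ≤ (n : ℝ) := by exact_mod_cast hn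
      have h3 : (Nat.totient (p ^ k) : ℝ) * (2 * (∑ χ ∈ Bf, a χ + ∑ χ ∈ Bf, t χ)) ≤
          (Nat.totient (p ^ k) : ℝ) * (P : ℝ) := by
        rw [← hS2]
        have hS20 : (0 : ℝ) ≤ ∑ χ ∈ Bf, ∑ j ∈ unitExps p k,
            Complex.normSq (cyc s ω (c2 χ) j) :=
          Finset.sum_nonneg (fun _ _ => cyc_mass_nonneg p k s ω _)
        nlinarith
      have h4 := le_of_mul_le_mul_left h3 hφR
      linarith
    · push Not at hex
      have hT : ∑ χ ∈ Bf, t χ = 0 := by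
        refine Finset.sum_eq_zero (fun χ hχ => ?_)
        obtain ⟨j, hj, hne⟩ := hex χ hχ
        simp only [ht]
        rw [if_neg]
        intro hall
        exact hne (hall j hj)
      rw [hT] at hI'
      linarith
  exact_mod_cast hgoal

end Cfsg.Agent.Lib.Helper76
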