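import Mathlib
import Cfsg.Prelude.Def_Blocks
import Cfsg.Agent.Lib.Helper76.ContribDiag
import Cfsg.Agent.Lib.Helper78.SecondMain

/-!
# The frame of truncated block parts of the sections of the members of a block

For a `p`-element `u` with centralizer `C` and a block `e` of `C` inducing `B`, the class
functions `vsec χ = ((χ_u)_e)⁰` (`χ ∈ B`) form a Parseval frame of the space spanned by the
truncations `θ⁰`, `θ ∈ e`.
-/

set_option autoImplicit false

namespace Cfsg.Agent.Lib.Helper76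

open Cfsg Cfsg.Agent.Lib.Helper16 Cfsg.Agent.Lib.Helper26 Cfsg.Agent.Lib.Helper78
  Cfsg.Agent.Lib.Helper81
open scoped ComplexConjugate

variable {G : Type*} [Group G] [Fintype G]

/-- The truncation to the `p`-regular elements of the `e`-part of the section `c ↦ χ (u c)`. -/
noncomputable def vsec (p : ℕ) (C : Subgroup G) (e : Set (Cfsg.IrrCharacter C)) (u : G)
    (χ : G → ℂ) : C → ℂ :=
  Cfsg.pRegularPart p (Cfsg.blockPart e (fun c : C => χ (u * c)))

theorem vsec_singular (p : ℕ) (C : Subgroup G) (e : Set (Cfsg.IrrCharacter C)) (u : G)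
    (χ : G → ℂ) (s : C) (hs : p ∣ orderOf s) : vsec p C e u χ s = 0 := by
  letI : Fintype C := Fintype.ofFinite C
  unfold vsec
  rw [pRegularPart_apply', if_pos hs]

theorem isClassFunction_vsec (p : ℕ) (C : Subgroup G) (e : Set (Cfsg.IrrCharacter C)) (u : G)
    (χ : G → ℂ) : Cfsg.IsClassFunction C (vsec p C e u χ) := by
  letI : Fintype C := Fintype.ofFinite C
  exact isClassFunction_pRegularPart p (isClassFunction_blockPart e _)

/-- Conjugate symmetry of the inner product. -/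
theorem classInner_conj_symm {K : Type*} [Group K] [Fintype K] (a b : K → ℂ) :
    conj (Cfsg.classInner a b) = Cfsg.classInner b a := by
  unfold Cfsg.classInner
  rw [map_mul, map_inv₀, map_natCast, map_sum]
  congr 1
  refine Finset.sum_congr rfl (fun g _ => ?_)
  rw [map_mul, Complex.conj_conj, mul_comm]

/-- The truncated block parts are orthogonal to the characters outside the block. -/
theorem vsec_orth {p : ℕ} [Fact p.Prime] {M : Ideal Cfsg.AlgInt} (hM : Cfsg.IsPModular p M)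
    (C : Subgroup G) (e : Set (Cfsg.IrrCharacter C)) (he : Cfsg.IsPBlock M e) (u : G)
    (χ : G → ℂ) (θ' : Cfsg.IrrCharacter C) (hθ' : θ' ∉ e) :
    letI : Fintype C := Fintype.ofFinite C
    ∑ s : C, vsec p C e u χ s * conj ((θ' : C → ℂ) s) = 0 := by
  classical
  letI : Fintype C := Fintype.ofFinite C
  have := irr_finite C
  letI : Fintype (Cfsg.IrrCharacter C) := Fintype.ofFinite _
  set f : C → ℂ := fun c : C => χ (u * c) with hf
  have hbp : ∀ s : C, Cfsg.blockPart e f s = ∑ θ : Cfsg.IrrCharacter C,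
      if θ ∈ e then Cfsg.classInner f (θ : C → ℂ) * (θ : C → ℂ) s else 0 := by
    intro s
    show ∑ᶠ θ ∈ e, Cfsg.classInner f (θ : C → ℂ) * (θ : C → ℂ) s = _
    rw [finsum_mem_eq_sum_ite]
  have h2 : ∀ s : C, vsec p C e u χ s * conj ((θ' : C → ℂ) s) = ∑ θ : Cfsg.IrrCharacter C,
      if θ ∈ e then Cfsg.classInner f (θ : C → ℂ) *
        ((if p ∣ orderOf s then (0 : ℂ) else (θ : C → ℂ) s) * (θ' : C → ℂ) s⁻¹) else 0 := by
    intro s
    unfold vsec
    rw [pRegularPart_apply', irr_inv θ']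
    by_cases hs : p ∣ orderOf s
    · simp [hs]
    · simp only [if_neg hs]
      rw [hbp, Finset.sum_mul]
      refine Finset.sum_congr rfl (fun θ _ => ?_)
      split_ifs
      · ring
      · rw [zero_mul]
  rw [Finset.sum_congr rfl (fun s _ => h2 s), Finset.sum_comm]
  refine Finset.sum_eq_zero (fun θ _ => ?_)
  by_cases hθ : θ ∈ e
  · simp only [if_pos hθ]
    rw [← Finset.mul_sum, weak_block_orth hM e he θ hθ θ' hθ', mul_zero]
  · simp only [if_neg hθ, Finset.sum_const_zero]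

/-- Pairing a `p`-regular function in the span of `e` with a section equals pairing it with the
truncated block part of the section. -/
theorem inner_sec_eq {p : ℕ} (C : Subgroup G)
    (e : Set (Cfsg.IrrCharacter C)) {u : G}
    (hcomm : ∀ c : C, u * (c : G) = (c : G) * u) (χ : Cfsg.IrrCharacter G) (w : C → ℂ)
    (hw0 : ∀ s : C, p ∣ orderOf s → w s = 0)
    (horth : ∀ θ' : Cfsg.IrrCharacter C, θ' ∉ e →
      (letI : Fintype C := Fintype.ofFinite C; ∑ s : C, w s * conj ((θ' : C → ℂ) s)) = 0) :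
    letI : Fintype C := Fintype.ofFinite C
    ∑ s : C, w s * (χ : G → ℂ) (u⁻¹ * (s : G)⁻¹) =
      ∑ s : C, w s * conj (vsec p C e u (χ : G → ℂ) s) := by
  classical
  letI : Fintype C := Fintype.ofFinite C
  have := irr_finite C
  letI : Fintype (Cfsg.IrrCharacter C) := Fintype.ofFinite _
  set f : C → ℂ := fun c : C => (χ : G → ℂ) (u * c) with hf
  have hfcf : Cfsg.IsClassFunction C f := isClassFunction_sec C u hcomm χ
  have hχ : ∀ s : C, (χ : G → ℂ) (u⁻¹ * (s : G)⁻¹) = conj (f s) := by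
    intro s
    rw [hf]
    simp only
    rw [← irr_inv χ]
    congr 1
    rw [hcomm s, mul_inv_rev]
  have hfexp : ∀ s : C, f s = ∑ θ : Cfsg.IrrCharacter C,
      Cfsg.classInner f (θ : C → ℂ) * (θ : C → ℂ) s :=
    fun s => Cfsg.Agent.Lib.Helper80.classFun_expansion_apply f hfcf s
  have hbp : ∀ s : C, Cfsg.blockPart e f s = ∑ θ : Cfsg.IrrCharacter C,
      if θ ∈ e then Cfsg.classInner f (θ : C → ℂ) * (θ : C → ℂ) s else 0 := by
    intro s
    show ∑ᶠ θ ∈ e, Cfsg.classInner f (θ : C → ℂ) * (θ : C → ℂ) s = _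
    rw [finsum_mem_eq_sum_ite]
  have hVs : ∀ s : C, vsec p C e u (χ : G → ℂ) s =
      if p ∣ orderOf s then 0 else Cfsg.blockPart e f s := by
    intro s
    unfold vsec
    rw [pRegularPart_apply']
  have hdiff : ∀ s : C, w s * conj (vsec p C e u (χ : G → ℂ) s) = w s * conj (f s) -
      ∑ θ' : Cfsg.IrrCharacter C, if θ' ∈ e then 0 else
        conj (Cfsg.classInner f (θ' : C → ℂ)) * (w s * conj ((θ' : C → ℂ) s)) := by
    intro s
    by_cases hs : p ∣ orderOf s
    · have : w s = 0 := hw0 s hs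
      simp [this]
    · have hVb : vsec p C e u (χ : G → ℂ) s = Cfsg.blockPart e f s := by rw [hVs, if_neg hs]
      have h3 : f s - vsec p C e u (χ : G → ℂ) s = ∑ θ' : Cfsg.IrrCharacter C,
          if θ' ∈ e then 0 else Cfsg.classInner f (θ' : C → ℂ) * (θ' : C → ℂ) s := by
        rw [hVb, hfexp s, hbp s, ← Finset.sum_sub_distrib]
        refine Finset.sum_congr rfl (fun θ' _ => ?_)
        split_ifs
        · rw [sub_self]
        · rw [sub_zero]
      have h4 : conj (vsec p C e u (χ : G → ℂ) s) =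
          conj (f s) - conj (f s - vsec p C e u (χ : G → ℂ) s) := by
        rw [map_sub]; ring
      rw [h4, h3, mul_sub, map_sum, Finset.mul_sum]
      congr 1
      refine Finset.sum_congr rfl (fun θ' _ => ?_)
      split_ifs
      · simp
      · rw [map_mul]; ring
  have hsum0 : ∑ s : C, ∑ θ' : Cfsg.IrrCharacter C, (if θ' ∈ e then (0 : ℂ) else
      conj (Cfsg.classInner f (θ' : C → ℂ)) * (w s * conj ((θ' : C → ℂ) s))) = 0 := by
    rw [Finset.sum_comm]
    refine Finset.sum_eq_zero (fun θ' _ => ?_)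
    by_cases hθ' : θ' ∈ e
    · simp only [if_pos hθ', Finset.sum_const_zero]
    · simp only [if_neg hθ']
      rw [← Finset.mul_sum, horth θ' hθ', mul_zero]
  rw [Finset.sum_congr rfl (fun s _ => hdiff s), Finset.sum_sub_distrib, hsum0, sub_zero]
  refine Finset.sum_congr rfl (fun s _ => ?_)
  rw [hχ s]

/-- **Second main theorem**, in the form used here: the truncated `e`-part of a section of a
character outside the induced block vanishes. -/
theorem vsec_eq_zero_of_not_mem {p : ℕ} [Fact p.Prime] {M : Ideal Cfsg.AlgInt}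
    (hM : Cfsg.IsPModular p M) (B : Set (Cfsg.IrrCharacter G)) (u : G)
    (hu : ∃ k : ℕ, orderOf u = p ^ k) (C : Subgroup G)
    (hC : ∀ g : G, g ∈ C ↔ g * u = u * g) (e : Set (Cfsg.IrrCharacter C))
    (hind : Cfsg.IsInducedBlock M C e B) (χ : Cfsg.IrrCharacter G) (hχ : χ ∉ B) (s : C) :
    vsec p C e u (χ : G → ℂ) s = 0 := by
  classical
  have hp : p.Prime := hM.1
  have he := hind.1
  letI : Fintype C := Fintype.ofFinite C
  have huC : u ∈ C := (hC u).2 rfl
  have hcomm : ∀ c : C, u * (c : G) = (c : G) * u := fun c => ((hC c).1 c.2).symm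
  unfold vsec
  rw [pRegularPart_apply']
  by_cases hs : p ∣ orderOf s
  · rw [if_pos hs]
  · rw [if_neg hs]
    have hs' : ¬ p ∣ orderOf (s : G) := by rw [Subgroup.orderOf_coe]; exact hs
    have hxy : Cfsg.IsPPart p (u * (s : G)) u := ⟨(s : G), rfl, hcomm s, hu, hs'⟩
    have hmain := second_main_idem hM C e B hind (⟨u, huC⟩ * s)
      (by
        intro z hz
        have hz' : Cfsg.IsPPart p (u * (s : G)) z := hz
        rw [← isPPart_unique hp hxy hz']
        intro g hg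
        rw [Subgroup.mem_centralizer_iff] at hg
        rw [hC]
        exact (hg u rfl).symm)
      χ hχ
    have hφ : Cfsg.IsClassFunction C (fun c : C => (χ : G → ℂ) (u * (c : G))) :=
      isClassFunction_sec C u hcomm χ
    rw [blockPart_eq_sum_blockCoeff e _ hφ s, ← hmain]
    refine Finset.sum_congr rfl fun k _ => ?_
    have e1 : u * ((k * s : C) : G) = (k : G) * ((⟨u, huC⟩ * s : C) : G) := by
      push_cast
      rw [← mul_assoc, ← mul_assoc, hcomm k]
    rw [e1]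

/-- Bessel equality for a `p`-regular class function on the centralizer of a `p`-element. -/
theorem sum_normSq_sec [Fintype (Cfsg.IrrCharacter G)] {p : ℕ} (hp : p.Prime) (u : G)
    (hu : ∃ k : ℕ, orderOf u = p ^ k) (C : Subgroup G)
    (hC : ∀ g : G, g ∈ C ↔ g * u = u * g) (V : C → ℂ) (hVcf : Cfsg.IsClassFunction C V)
    (hV0 : ∀ s : C, p ∣ orderOf s → V s = 0) :
    letI : Fintype C := Fintype.ofFinite C
    ∑ ψ : Cfsg.IrrCharacter G, ((Complex.normSq ((Nat.card C : ℂ)⁻¹ * ∑ s : C,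
        V s * (ψ : G → ℂ) (u⁻¹ * (s : G)⁻¹)) : ℝ) : ℂ) =
      (Nat.card C : ℂ)⁻¹ * ∑ s : C, V s * conj (V s) := by
  classical
  letI : Fintype C := Fintype.ofFinite C
  have := irr_finite C
  letI : Fintype (Cfsg.IrrCharacter C) := Fintype.ofFinite _
  have hcomm : ∀ c : C, u * (c : G) = (c : G) * u := fun c => ((hC c).1 c.2).symm
  set A : Cfsg.IrrCharacter G → ℂ := fun ψ => (Nat.card C : ℂ)⁻¹ * ∑ s : C,
    V s * (ψ : G → ℂ) (u⁻¹ * (s : G)⁻¹) with hA
  have hcontrib : ∀ ψ : Cfsg.IrrCharacter G, A ψ =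
      (Nat.card C : ℂ)⁻¹ * ∑ s : C, (ψ : G → ℂ) (u⁻¹ * (s : G)⁻¹) * V s := by
    intro ψ
    rw [hA]
    simp only
    congr 1
    exact Finset.sum_congr rfl (fun s _ => mul_comm _ _)
  have hconj : ∀ ψ : Cfsg.IrrCharacter G, conj (A ψ) =
      (Nat.card C : ℂ)⁻¹ * ∑ s : C, (ψ : G → ℂ) (u * (s : G)) * conj (V s) := by
    intro ψ
    rw [hcontrib, map_mul, map_inv₀, map_natCast, map_sum]
    congr 1
    refine Finset.sum_congr rfl (fun s _ => ?_)
    rw [map_mul, ← irr_inv ψ]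
    congr 2
    rw [mul_inv_rev, inv_inv, inv_inv, hcomm s]
  have hswap := sum_kernel_swap (fun h : C => V h) (fun h : C => conj (V h))
    (fun (ψ : Cfsg.IrrCharacter G) (h : C) => (ψ : G → ℂ) (u⁻¹ * (h : G)⁻¹))
    (fun (ψ : Cfsg.IrrCharacter G) (h : C) => (ψ : G → ℂ) (u * (h : G)))
    (fun (θ : Cfsg.IrrCharacter C) (h : C) => (θ : C → ℂ) h⁻¹)
    (fun (θ : Cfsg.IrrCharacter C) (h : C) => (θ : C → ℂ) h)
    (by
      intro h h'
      by_cases hh : p ∣ orderOf h
      · simp only [hV0 h hh, zero_mul]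
      · by_cases hh' : p ∣ orderOf h'
        · simp only [hV0 h' hh', map_zero, mul_zero, zero_mul]
        · have hh1 : ¬ p ∣ orderOf h⁻¹ := by rw [orderOf_inv]; exact hh
          have h1 := col_orth_section hp u hu C hC h' h⁻¹ hh' hh1
          congr 1
          calc ∑ ψ : Cfsg.IrrCharacter G, (ψ : G → ℂ) (u⁻¹ * (h : G)⁻¹) * (ψ : G → ℂ) (u * (h' : G))
              = ∑ ψ : Cfsg.IrrCharacter G, (ψ : G → ℂ) (u * (h' : G)) *
                  (ψ : G → ℂ) (u⁻¹ * ((h⁻¹ : C) : G)) :=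
                Finset.sum_congr rfl (fun ψ _ => mul_comm _ _)
            _ = ∑ θ : Cfsg.IrrCharacter C, (θ : C → ℂ) h' * (θ : C → ℂ) h⁻¹ := h1
            _ = ∑ θ : Cfsg.IrrCharacter C, (θ : C → ℂ) h⁻¹ * (θ : C → ℂ) h' :=
                Finset.sum_congr rfl (fun θ _ => mul_comm _ _))
  have hC0 : (Nat.card C : ℂ) ≠ 0 := by exact_mod_cast Nat.card_pos.ne'
  have hinner : ∀ θ : Cfsg.IrrCharacter C, ∑ h : C, (θ : C → ℂ) h⁻¹ * V h =
      (Nat.card C : ℂ) * Cfsg.classInner V (θ : C → ℂ) := by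
    intro θ
    unfold Cfsg.classInner
    rw [← mul_assoc, mul_inv_cancel₀ hC0, one_mul]
    refine Finset.sum_congr rfl (fun h _ => ?_)
    rw [irr_inv θ, mul_comm]
  have h1 : ∀ ψ : Cfsg.IrrCharacter G,
      ((Complex.normSq (A ψ) : ℝ) : ℂ) =
      (Nat.card C : ℂ)⁻¹ * (Nat.card C : ℂ)⁻¹ *
        ((∑ s : C, (ψ : G → ℂ) (u⁻¹ * (s : G)⁻¹) * V s) *
          (∑ s : C, (ψ : G → ℂ) (u * (s : G)) * conj (V s))) := by
    intro ψ
    rw [← Complex.mul_conj, hconj ψ, hcontrib ψ]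
    ring
  have hsum : ∑ ψ : Cfsg.IrrCharacter G,
      ((Complex.normSq (A ψ) : ℝ) : ℂ) =
      (Nat.card C : ℂ)⁻¹ * (Nat.card C : ℂ)⁻¹ * ∑ ψ : Cfsg.IrrCharacter G,
        ((∑ s : C, (ψ : G → ℂ) (u⁻¹ * (s : G)⁻¹) * V s) *
          (∑ s : C, (ψ : G → ℂ) (u * (s : G)) * conj (V s))) := by
    rw [Finset.mul_sum]
    exact Finset.sum_congr rfl (fun ψ _ => h1 ψ)
  show ∑ ψ : Cfsg.IrrCharacter G, ((Complex.normSq (A ψ) : ℝ) : ℂ) = _
  rw [hsum, hswap]
  have hsum2 : ∑ θ : Cfsg.IrrCharacter C, (∑ h : C, (θ : C → ℂ) h⁻¹ * V h) *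
      ∑ h' : C, (θ : C → ℂ) h' * conj (V h') =
      ∑ θ : Cfsg.IrrCharacter C, (Nat.card C : ℂ) * Cfsg.classInner V (θ : C → ℂ) *
      ∑ h' : C, (θ : C → ℂ) h' * conj (V h') :=
    Finset.sum_congr rfl (fun θ _ => by rw [hinner θ])
  rw [hsum2]
  have h2 : ∑ θ : Cfsg.IrrCharacter C, (Nat.card C : ℂ) * Cfsg.classInner V (θ : C → ℂ) *
      ∑ h' : C, (θ : C → ℂ) h' * conj (V h') =
      (Nat.card C : ℂ) * ∑ h' : C, V h' * conj (V h') := by
    have hexp : ∀ h' : C, ∑ θ : Cfsg.IrrCharacter C,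
        Cfsg.classInner V (θ : C → ℂ) * (θ : C → ℂ) h' = V h' := fun h' =>
      (Cfsg.Agent.Lib.Helper80.classFun_expansion_apply V hVcf h').symm
    calc ∑ θ : Cfsg.IrrCharacter C, (Nat.card C : ℂ) * Cfsg.classInner V (θ : C → ℂ) *
          ∑ h' : C, (θ : C → ℂ) h' * conj (V h')
        = ∑ θ : Cfsg.IrrCharacter C, ∑ h' : C, (Nat.card C : ℂ) *
            (Cfsg.classInner V (θ : C → ℂ) * (θ : C → ℂ) h') * conj (V h') := by
          refine Finset.sum_congr rfl (fun θ _ => ?_)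
          rw [Finset.mul_sum]
          refine Finset.sum_congr rfl (fun h' _ => ?_)
          ring
      _ = ∑ h' : C, ∑ θ : Cfsg.IrrCharacter C, (Nat.card C : ℂ) *
            (Cfsg.classInner V (θ : C → ℂ) * (θ : C → ℂ) h') * conj (V h') := Finset.sum_comm
      _ = ∑ h' : C, (Nat.card C : ℂ) * (V h' * conj (V h')) := by
          refine Finset.sum_congr rfl (fun h' _ => ?_)
          rw [← Finset.sum_mul, ← Finset.mul_sum, hexp h']
          ring
      _ = (Nat.card C : ℂ) * ∑ h' : C, V h' * conj (V h') := (Finset.mul_sum _ _ _).symm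
  rw [h2, ← mul_assoc, mul_assoc _ _ (Nat.card C : ℂ), inv_mul_cancel₀ hC0, mul_one]

/-- **Parseval identity for the frame `vsec χ`, `χ ∈ B`.** -/
theorem frame_parseval [Fintype (Cfsg.IrrCharacter G)] {p : ℕ} [Fact p.Prime]
    {M : Ideal Cfsg.AlgInt} (hM : Cfsg.IsPModular p M) (B : Set (Cfsg.IrrCharacter G))
    [DecidablePred (· ∈ B)] (u : G)
    (hu : ∃ k : ℕ, orderOf u = p ^ k) (C : Subgroup G)
    (hC : ∀ g : G, g ∈ C ↔ g * u = u * g) (e : Set (Cfsg.IrrCharacter C))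
    (hind : Cfsg.IsInducedBlock M C e B) (w : C → ℂ) (hwcf : Cfsg.IsClassFunction C w)
    (hw0 : ∀ s : C, p ∣ orderOf s → w s = 0)
    (horth : ∀ θ' : Cfsg.IrrCharacter C, θ' ∉ e →
      (letI : Fintype C := Fintype.ofFinite C; ∑ s : C, w s * conj ((θ' : C → ℂ) s)) = 0) :
    letI : Fintype C := Fintype.ofFinite C
    ∑ χ ∈ Finset.univ.filter (· ∈ B),
      ((Complex.normSq (Cfsg.classInner (vsec p C e u (χ : G → ℂ)) w) : ℝ) : ℂ) =
      Cfsg.classInner w w := by
  classical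
  letI : Fintype C := Fintype.ofFinite C
  have hp : p.Prime := Fact.out
  have hcomm : ∀ c : C, u * (c : G) = (c : G) * u := fun c => ((hC c).1 c.2).symm
  have h1 := sum_normSq_sec hp u hu C hC w hwcf hw0
  have h2 : ∀ ψ : Cfsg.IrrCharacter G, (Nat.card C : ℂ)⁻¹ * ∑ s : C,
      w s * (ψ : G → ℂ) (u⁻¹ * (s : G)⁻¹) = Cfsg.classInner w (vsec p C e u (ψ : G → ℂ)) := by
    intro ψ
    rw [inner_sec_eq C e hcomm ψ w hw0 horth]
    rfl
  have h3 : ∀ ψ : Cfsg.IrrCharacter G,
      Complex.normSq (Cfsg.classInner w (vsec p C e u (ψ : G → ℂ))) =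
      Complex.normSq (Cfsg.classInner (vsec p C e u (ψ : G → ℂ)) w) := by
    intro ψ
    rw [← classInner_conj_symm, Complex.normSq_conj]
  have h4 : Cfsg.classInner w w = (Nat.card C : ℂ)⁻¹ * ∑ s : C, w s * conj (w s) := rfl
  rw [h4, ← h1, Finset.sum_filter]
  refine Finset.sum_congr rfl (fun ψ _ => ?_)
  rw [h2 ψ, h3 ψ]
  split_ifs with hψ
  · rfl
  · have hz : vsec p C e u (ψ : G → ℂ) = 0 := by
      funext s
      exact vsec_eq_zero_of_not_mem hM B u hu C hC e hind ψ hψ s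
    rw [hz]
    unfold Cfsg.classInner
    simp

/-- The contribution numbers are the inner products of the frame vectors. -/
theorem contrib_eq_inner {p : ℕ} [Fact p.Prime] {M : Ideal Cfsg.AlgInt}
    (hM : Cfsg.IsPModular p M) (u : G) (C : Subgroup G)
    (hC : ∀ g : G, g ∈ C ↔ g * u = u * g) (e : Set (Cfsg.IrrCharacter C))
    (he : Cfsg.IsPBlock M e) (ψ χ : Cfsg.IrrCharacter G) :
    letI : Fintype C := Fintype.ofFinite C
    contrib p C e u (ψ : G → ℂ) (χ : G → ℂ) =
      Cfsg.classInner (vsec p C e u (ψ : G → ℂ)) (vsec p C e u (χ : G → ℂ)) := by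
  classical
  letI : Fintype C := Fintype.ofFinite C
  have hcomm : ∀ c : C, u * (c : G) = (c : G) * u := fun c => ((hC c).1 c.2).symm
  have h1 := inner_sec_eq (p := p) C e hcomm χ (vsec p C e u (ψ : G → ℂ))
    (fun s hs => vsec_singular p C e u _ s hs)
    (fun θ' hθ' => vsec_orth hM C e he u _ θ' hθ')
  unfold contrib Cfsg.classInner
  congr 1

/-- Expansion of the frame vectors at the powers of a `p`-element `y` in terms of the
truncations of the members of `e`. -/
theorem vsec_expansion [Fintype (Cfsg.IrrCharacter G)] {p : ℕ} (hp : p.Prime) (y : G) (k : ℕ)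
    (hk : orderOf y = p ^ k) (C : Subgroup G) (hC : ∀ g : G, g ∈ C ↔ g * y = y * g)
    (e : Set (Cfsg.IrrCharacter C)) :
    letI : Fintype C := Fintype.ofFinite _
    letI : Fintype (Cfsg.IrrCharacter C) := @Fintype.ofFinite _ (irr_finite _)
    ∃ ω : Cfsg.IrrCharacter C → ℂ,
      (∀ θ, ω θ ^ (p ^ k) = 1) ∧
      ∀ χ : Cfsg.IrrCharacter G, ∃ n : Cfsg.IrrCharacter C → ℕ,
        ((fun c : C => (χ : G → ℂ) (c : G)) =
          ∑ θ : Cfsg.IrrCharacter C, (n θ : ℂ) • (θ : C → ℂ)) ∧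
        ∀ (j : ℕ) (s : C), vsec p C e (y ^ j) (χ : G → ℂ) s =
          ∑ θ : Cfsg.IrrCharacter C, (open Classical in if θ ∈ e then
            ω θ ^ j * (n θ : ℂ) * Cfsg.pRegularPart p (θ : C → ℂ) s else 0) := by
  classical
  letI : Fintype C := Fintype.ofFinite C
  have hfin := irr_finite C
  letI : Fintype (Cfsg.IrrCharacter C) := @Fintype.ofFinite _ hfin
  have hyC : y ∈ C := (hC y).2 rfl
  have hcy : ∀ c : C, (c : G) * y = y * (c : G) := fun c => (hC c).1 c.2
  set z : C := ⟨y, hyC⟩ with hz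
  have hzc : z ∈ Subgroup.center C := by
    rw [Subgroup.mem_center_iff]
    intro c
    apply Subtype.ext
    show (c : G) * y = y * (c : G)
    exact hcy c
  have hord : orderOf z = p ^ k := by
    rw [← hk, ← Subgroup.orderOf_coe]
  have hex : ∀ θ : Cfsg.IrrCharacter C, ∃ ω : ℂ, ω ^ (p ^ k) = 1 ∧
      ∀ (x : C) (j : ℕ), (θ : C → ℂ) (x * z ^ j) = ω ^ j * (θ : C → ℂ) x := by
    intro θ
    obtain ⟨ω, h1, h2⟩ := Cfsg.Agent.Lib.Helper75.central_scalar θ.2 z hzc
    exact ⟨ω, by rw [← hord]; exact h1, h2⟩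
  choose ω hω1 hω2 using hex
  have hωc : ∀ θ, ω θ * conj (ω θ) = 1 := by
    intro θ
    have h1 : ‖ω θ‖ = 1 :=
      Complex.norm_eq_one_of_pow_eq_one (hω1 θ) (pow_pos hp.pos k).ne'
    rw [Complex.mul_conj, Complex.normSq_eq_norm_sq, h1]
    simp
  refine ⟨ω, hω1, ?_⟩
  intro χ
  obtain ⟨n, hn⟩ := character_expansion
    (Cfsg.Agent.Lib.Helper75.isCharacter_res C (isCharacter_of_irr χ.2))
  refine ⟨n, hn, ?_⟩
  intro j s
  have hsec : ∀ θ : Cfsg.IrrCharacter C,
      Cfsg.classInner (fun c : C => (χ : G → ℂ) (y ^ j * (c : G))) (θ : C → ℂ) =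
        ω θ ^ j * Cfsg.classInner (fun c : C => (χ : G → ℂ) (c : G)) (θ : C → ℂ) := by
    intro θ
    exact classInner_sec_pow C z hzc χ θ (ω θ) (hω2 θ) (hωc θ) j
  have hn1 : ∀ θ : Cfsg.IrrCharacter C,
      Cfsg.classInner (fun c : C => (χ : G → ℂ) (c : G)) (θ : C → ℂ) = (n θ : ℂ) := by
    intro θ
    rw [hn, classInner_expansion_irr]
  unfold vsec
  rw [pRegularPart_apply']
  by_cases hs : p ∣ orderOf s
  · rw [if_pos hs]
    symm
    apply Finset.sum_eq_zero
    intro θ _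
    rw [pRegularPart_apply', if_pos hs]
    simp
  · rw [if_neg hs]
    show ∑ᶠ θ ∈ e, Cfsg.classInner (fun c : C => (χ : G → ℂ) (y ^ j * (c : G)))
      (θ : C → ℂ) * (θ : C → ℂ) s = _
    rw [finsum_mem_eq_sum_ite]
    refine Finset.sum_congr rfl (fun θ _ => ?_)
    rw [pRegularPart_apply', if_neg hs, hsec θ, hn1 θ]

end Cfsg.Agent.Lib.Helper76
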