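import Mathlib
import Cfsg.Agent.S4574

set_option autoImplicit false

namespace Cfsg.Agent.Lib.Helper76

open scoped ComplexConjugate
open Polynomial

variable {G : Type*} [Group G] [Fintype G] {V : Type*} [AddCommGroup V] [Module ℂ V]
  [FiniteDimensional ℂ V]

/-- The standard primitive `|G|`-th root of unity. -/
noncomputable def zetaCard (G : Type*) [Fintype G] : ℂ :=
  Complex.exp (2 * Real.pi * Complex.I / (Fintype.card G : ℂ))

theorem isPrimitiveRoot_zetaCard : IsPrimitiveRoot (zetaCard G) (Fintype.card G) :=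
  Complex.isPrimitiveRoot_exp (Fintype.card G) Fintype.card_pos.ne'

/-- The values `χ(g^k)` are the values of one integer polynomial at the powers `ζ^k`. -/
theorem exists_poly_character (ρ : Representation ℂ G V) (g : G) :
    ∃ F : ℤ[X], ∀ k : ℕ, ρ.character (g ^ k) = aeval (zetaCard G ^ k) F := by
  have hN : 0 < Fintype.card G := Fintype.card_pos
  obtain ⟨ι, hι, d, hd, -, hk⟩ :=
    Cfsg.Agent.S4574.exists_eigen_pow ρ g (Fintype.card G) hN pow_card_eq_one
  obtain ⟨F, hF⟩ := Cfsg.Agent.S4574.exists_poly d (Fintype.card G) hN hd (zetaCard G)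
    isPrimitiveRoot_zetaCard
  exact ⟨F, fun k => (hk k).trans (hF k)⟩

/-- Vanishing of a character is invariant under coprime powers. -/
theorem character_pow_eq_zero_iff (ρ : Representation ℂ G V) (g : G) (k : ℕ)
    (hk : k.Coprime (Fintype.card G)) : ρ.character (g ^ k) = 0 ↔ ρ.character g = 0 := by
  have hN : 0 < Fintype.card G := Fintype.card_pos
  obtain ⟨F, hF⟩ := exists_poly_character ρ g
  have h1 := hF 1
  simp only [pow_one] at h1
  rw [hF k, h1]
  have hζ := isPrimitiveRoot_zetaCard (G := G)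
  constructor
  · exact Cfsg.Agent.S4574.aeval_eq_zero_of_primitive F _ hN _ _ (hζ.pow_of_coprime k hk) hζ
  · exact Cfsg.Agent.S4574.aeval_eq_zero_of_primitive F _ hN _ _ hζ (hζ.pow_of_coprime k hk)

/-- `g ↦ g ^ k` is injective for `k` coprime to the group order. -/
theorem pow_injective_of_coprime (k : ℕ) (hk : k.Coprime (Fintype.card G)) :
    Function.Injective (fun g : G => g ^ k) :=
  (powCoprime (G := G) (n := k) (by rw [Nat.card_eq_fintype_card]; exact hk.symm)).injective

/-- **Galois/AM-GM bound**: on a set closed under coprime powers on which the character does not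
vanish, the sum of `|χ|^2` is at least the number of elements. -/
theorem card_le_sum_norm_sq (ρ : Representation ℂ G V) (S : Finset G)
    (hclosed : ∀ g ∈ S, ∀ k : ℕ, k.Coprime (Fintype.card G) → g ^ k ∈ S)
    (hne : ∀ g ∈ S, ρ.character g ≠ 0) : (S.card : ℝ) ≤ ∑ g ∈ S, ‖ρ.character g‖ ^ 2 := by
  classical
  set N := Fintype.card G with hNdef
  have hN : 0 < N := Fintype.card_pos
  have hζ : IsPrimitiveRoot (zetaCard G) N := isPrimitiveRoot_zetaCard
  have hNZ : NeZero N := ⟨hN.ne'⟩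
  have hswap : ∀ k : ℕ, k.Coprime N →
      ∑ g ∈ S, ‖ρ.character (g ^ k)‖ ^ 2 = ∑ g ∈ S, ‖ρ.character g‖ ^ 2 := by
    intro k hk
    have hinj := pow_injective_of_coprime (G := G) k hk
    have himg : S.image (fun g => g ^ k) = S := by
      apply Finset.eq_of_subset_of_card_le
      · intro x hx
        obtain ⟨g, hg, rfl⟩ := Finset.mem_image.1 hx
        exact hclosed g hg k hk
      · rw [Finset.card_image_of_injective _ hinj]
    conv_rhs => rw [← himg]
    rw [Finset.sum_image (fun x _ y _ h => hinj h)]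
  have hex : ∀ μ ∈ primitiveRoots N ℂ, ∃ i : ℕ, i.Coprime N ∧ zetaCard G ^ i = μ := by
    intro μ hμ
    rw [mem_primitiveRoots hN, hζ.isPrimitiveRoot_iff] at hμ
    obtain ⟨i, _, hi, h⟩ := hμ
    exact ⟨i, hi, h⟩
  choose! kf hkf using hex
  have h1 : ∑ μ ∈ primitiveRoots N ℂ, ∑ g ∈ S, ‖ρ.character (g ^ kf μ)‖ ^ 2 =
      (primitiveRoots N ℂ).card * ∑ g ∈ S, ‖ρ.character g‖ ^ 2 := by
    rw [Finset.sum_congr rfl (fun μ hμ => hswap (kf μ) (hkf μ hμ).1), Finset.sum_const,
      nsmul_eq_mul]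
  have h2 : ∀ g ∈ S, ((primitiveRoots N ℂ).card : ℝ) ≤
      ∑ μ ∈ primitiveRoots N ℂ, ‖ρ.character (g ^ kf μ)‖ ^ 2 := by
    intro g hg
    obtain ⟨F, hF⟩ := exists_poly_character ρ g
    have h0 : aeval (zetaCard G) F ≠ 0 := by
      have h4 := hF 1
      simp only [pow_one] at h4
      rw [← h4]
      exact hne g hg
    refine (Cfsg.Agent.S4574.sum_norm_sq_ge F N hN _ hζ h0).trans (le_of_eq ?_)
    refine Finset.sum_congr rfl (fun μ hμ => ?_)
    rw [hF, (hkf μ hμ).2]
  have h3 : (S.card : ℝ) * (primitiveRoots N ℂ).card ≤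
      ∑ g ∈ S, ∑ μ ∈ primitiveRoots N ℂ, ‖ρ.character (g ^ kf μ)‖ ^ 2 := by
    calc (S.card : ℝ) * (primitiveRoots N ℂ).card
        = ∑ g ∈ S, ((primitiveRoots N ℂ).card : ℝ) := by rw [Finset.sum_const, nsmul_eq_mul]
      _ ≤ _ := Finset.sum_le_sum h2
  rw [Finset.sum_comm, h1] at h3
  have hpos : (0 : ℝ) < (primitiveRoots N ℂ).card := by
    have : zetaCard G ∈ primitiveRoots N ℂ := (mem_primitiveRoots hN).2 hζ
    exact_mod_cast Finset.card_pos.2 ⟨_, this⟩
  rw [mul_comm] at h3
  exact le_of_mul_le_mul_left h3 hpos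

/-- The value of a character at an inverse is the complex conjugate. -/
theorem character_inv (ρ : Representation ℂ G V) (g : G) :
    ρ.character g⁻¹ = conj (ρ.character g) := by
  have hN : 0 < Fintype.card G := Fintype.card_pos
  obtain ⟨ι, hι, d, hd, -, hk⟩ :=
    Cfsg.Agent.S4574.exists_eigen_pow ρ g (Fintype.card G) hN pow_card_eq_one
  have h1 : g⁻¹ = g ^ (Fintype.card G - 1) :=
    (eq_inv_of_mul_eq_one_left (by rw [← pow_succ, Nat.sub_add_cancel hN, pow_card_eq_one])).symm
  have hk1 := hk 1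
  simp only [pow_one] at hk1
  rw [h1, hk (Fintype.card G - 1), hk1, map_sum]
  refine Finset.sum_congr rfl (fun i _ => ?_)
  have hnorm : ‖d i‖ = 1 := Complex.norm_eq_one_of_pow_eq_one (hd i) hN.ne'
  have h2 : d i ^ (Fintype.card G - 1) * d i = 1 := by
    rw [← pow_succ, Nat.sub_add_cancel hN, hd i]
  rw [← Complex.inv_eq_conj hnorm]
  exact eq_inv_of_mul_eq_one_left h2

/-- First orthogonality relation, in the form `∑ |χ(g)|^2 = |G|`. -/
theorem sum_norm_sq_eq_card (ρ : Representation ℂ G V) [ρ.IsIrreducible] :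
    ∑ g : G, ‖ρ.character g‖ ^ 2 = (Fintype.card G : ℝ) := by
  have hN : 0 < Fintype.card G := Fintype.card_pos
  have hne : (Nat.card G : ℂ) ≠ 0 := by
    rw [Nat.card_eq_fintype_card]; exact_mod_cast hN.ne'
  have : Invertible (Nat.card G : ℂ) := invertibleOfNonzero hne
  have h2 := Representation.char_orthonormal ρ ρ
  rw [if_pos ⟨Representation.Equiv.refl ρ⟩] at h2
  have h3 : ∑ g : G, ρ.character g * ρ.character g⁻¹ = (Fintype.card G : ℂ) := by
    rw [inv_mul_eq_iff_eq_mul₀ hne, mul_one] at h2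
    rw [h2, Nat.card_eq_fintype_card]
  have h4 : ∑ g : G, ρ.character g * ρ.character g⁻¹ =
      ((∑ g : G, ‖ρ.character g‖ ^ 2 : ℝ) : ℂ) := by
    rw [Complex.ofReal_sum]
    refine Finset.sum_congr rfl (fun g _ => ?_)
    rw [character_inv, Complex.mul_conj, Complex.normSq_eq_norm_sq]
  rw [h4] at h3
  exact_mod_cast h3

end Cfsg.Agent.Lib.Helper76
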