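import Mathlib

/-!
# Reduced bases of lattices of rank at most two

A pure statement: an additive subgroup `L` of a complex vector space carrying a positive definite
hermitian form with integer values on `L` has a shortest nonzero vector `v₁`; the members of `L`
proportional to `v₁` are integer multiples of `v₁`; and if `L` is not contained in the line of
`v₁` there is `v₂ ∈ L` such that the Gram matrix of `v₁, v₂` is reduced and the members of `L` in
the plane of `v₁, v₂` are integer combinations of `v₁, v₂`.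
-/

set_option autoImplicit false

namespace Cfsg.Agent.Lib.Helper76

open scoped ComplexConjugate

section Lattice

variable {V : Type*} [AddCommGroup V] [Module ℂ V] (ip : V → V → ℂ)

/-- Minimal vectors in a subset of a lattice with integral form. -/
theorem exists_min_vector (L : AddSubgroup V)
    (hint : ∀ x ∈ L, ∀ y ∈ L, ∃ n : ℤ, ip x y = n)
    (hnn : ∀ x, 0 ≤ (ip x x).re) (S : V → Prop) (hex : ∃ x ∈ L, S x) :
    ∃ v ∈ L, S v ∧ ∀ w ∈ L, S w → (ip v v).re ≤ (ip w w).re := by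
  classical
  have hP : ∃ m : ℕ, ∃ x ∈ L, S x ∧ ip x x = (m : ℂ) := by
    obtain ⟨x, hx, hS⟩ := hex
    obtain ⟨n, hn⟩ := hint x hx x hx
    have h0 : 0 ≤ n := by
      have := hnn x
      rw [hn] at this
      simpa using this
    obtain ⟨m, rfl⟩ := Int.eq_ofNat_of_zero_le h0
    refine ⟨m, x, hx, hS, ?_⟩
    rw [hn, Int.cast_natCast]
  obtain ⟨v, hv, hSv, hvm⟩ := Nat.find_spec hP
  refine ⟨v, hv, hSv, fun w hw hSw => ?_⟩
  obtain ⟨n, hn⟩ := hint w hw w hw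
  have h0 : 0 ≤ n := by
    have := hnn w
    rw [hn] at this
    simpa using this
  obtain ⟨m, rfl⟩ := Int.eq_ofNat_of_zero_le h0
  have hw' : ip w w = (m : ℂ) := by
    rw [hn, Int.cast_natCast]
  have hle := Nat.find_min' hP ⟨w, hw, hSw, hw'⟩
  rw [hvm, hw']
  simp only [Complex.natCast_re]
  exact_mod_cast hle

variable (hadd : ∀ x y z, ip (x + y) z = ip x z + ip y z)
  (hsmul : ∀ (c : ℂ) x z, ip (c • x) z = c * ip x z)
  (hconj : ∀ x y, ip y x = conj (ip x y))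
  (hpos : ∀ x, x ≠ 0 → 0 < (ip x x).re)

include hadd hsmul hconj hpos

/-- **Reduction of lattices of rank at most two.** -/
theorem lattice_reduce (L : AddSubgroup V)
    (hint : ∀ x ∈ L, ∀ y ∈ L, ∃ n : ℤ, ip x y = n) (hne : ∃ x ∈ L, x ≠ 0) :
    ∃ v1 ∈ L, ∃ n11 : ℤ, 0 < n11 ∧ ip v1 v1 = n11 ∧ v1 ≠ 0 ∧
      (∀ w ∈ L, (∃ c : ℂ, w = c • v1) → ∃ x : ℤ, w = (x : ℂ) • v1) ∧
      ((∃ w ∈ L, ¬ ∃ c : ℂ, w = c • v1) →
        ∃ v2 ∈ L, ∃ n12 n22 : ℤ, ip v1 v2 = n12 ∧ ip v2 v2 = n22 ∧ |2 * n12| ≤ n11 ∧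
          n11 ≤ n22 ∧ (¬ ∃ c : ℂ, v2 = c • v1) ∧
          ∀ w ∈ L, (∃ a b : ℂ, w = a • v1 + b • v2) →
            ∃ x y : ℤ, w = (x : ℂ) • v1 + (y : ℂ) • v2) := by
  classical
  -- algebra of the form
  have hzl : ∀ z, ip 0 z = 0 := by
    intro z
    have := hsmul 0 0 z
    rwa [zero_smul, zero_mul] at this
  have haddr : ∀ x y z, ip x (y + z) = ip x y + ip x z := by
    intro x y z
    rw [hconj (y + z) x, hadd, map_add, ← hconj, ← hconj]
  have hsmulr : ∀ (c : ℂ) x z, ip x (c • z) = conj c * ip x z := by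
    intro c x z
    rw [hconj (c • z) x, hsmul, map_mul, ← hconj]
  have hnn : ∀ x, 0 ≤ (ip x x).re := by
    intro x
    by_cases hx : x = 0
    · rw [hx, hzl]; simp
    · exact (hpos x hx).le
  have hmemsmul : ∀ (n : ℤ) x, x ∈ L → (n : ℂ) • x ∈ L := by
    intro n x hx
    rw [Int.cast_smul_eq_zsmul]
    exact L.zsmul_mem hx n
  -- the first minimum
  obtain ⟨v1, hv1L, hv1ne, hv1min⟩ := exists_min_vector ip L hint hnn (fun x => x ≠ 0)
    (by obtain ⟨x, hx, hx0⟩ := hne; exact ⟨x, hx, hx0⟩)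
  obtain ⟨n11, hn11⟩ := hint v1 hv1L v1 hv1L
  have hn11pos : 0 < n11 := by
    have := hpos v1 hv1ne
    rw [hn11] at this
    simpa using this
  have hn11R : (0 : ℝ) < (n11 : ℝ) := by exact_mod_cast hn11pos
  have hv1re : (ip v1 v1).re = (n11 : ℝ) := by rw [hn11]; simp
  -- rank one statement
  have hrank1 : ∀ w ∈ L, (∃ c : ℂ, w = c • v1) → ∃ x : ℤ, w = (x : ℂ) • v1 := by
    rintro w hw ⟨c, rfl⟩
    obtain ⟨m, hm⟩ := hint _ hw v1 hv1L
    rw [hsmul, hn11] at hm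
    have hn11C : (n11 : ℂ) ≠ 0 := by exact_mod_cast hn11pos.ne'
    have hc : c = ((m : ℝ) / (n11 : ℝ) : ℝ) := by
      push_cast
      field_simp
      exact hm
    set α : ℝ := (m : ℝ) / (n11 : ℝ) with hα
    set x : ℤ := round α with hx
    set α' : ℝ := α - x with hα'
    have hα'abs : |α'| ≤ 1 / 2 := abs_sub_round α
    have hw' : c • v1 - (x : ℂ) • v1 = (α' : ℂ) • v1 := by
      rw [← sub_smul, hc, hα']
      push_cast
      rfl
    have hw'L : (α' : ℂ) • v1 ∈ L := by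
      rw [← hw']
      exact L.sub_mem hw (hmemsmul x v1 hv1L)
    by_cases hα0 : α' = 0
    · refine ⟨x, ?_⟩
      have : c • v1 - (x : ℂ) • v1 = 0 := by rw [hw', hα0]; simp
      exact sub_eq_zero.1 this
    · exfalso
      have hne' : (α' : ℂ) • v1 ≠ 0 := by
        intro h
        rcases smul_eq_zero.1 h with h | h
        · exact hα0 (by exact_mod_cast h)
        · exact hv1ne h
      have h1 := hv1min _ hw'L hne'
      rw [hsmul, hsmulr, hn11, Complex.conj_ofReal] at h1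
      have h2 : ((α' : ℂ) * ((α' : ℂ) * (n11 : ℂ))).re = α' ^ 2 * (n11 : ℝ) := by
        have : (α' : ℂ) * ((α' : ℂ) * (n11 : ℂ)) = ((α' ^ 2 * (n11 : ℝ) : ℝ) : ℂ) := by
          push_cast; ring
        rw [this, Complex.ofReal_re]
      rw [h2] at h1
      simp only [Complex.intCast_re] at h1
      have h3 : α' ^ 2 ≤ 1 / 4 := by
        have := abs_le.1 hα'abs
        nlinarith [this.1, this.2]
      nlinarith
  refine ⟨v1, hv1L, n11, hn11pos, hn11, hv1ne, hrank1, ?_⟩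
  intro hex2
  -- the second minimum
  obtain ⟨v2, hv2L, hv2S, hv2min⟩ := exists_min_vector ip L hint hnn
    (fun w => ¬ ∃ c : ℂ, w = c • v1) hex2
  obtain ⟨n12, hn12⟩ := hint v1 hv1L v2 hv2L
  obtain ⟨n22, hn22⟩ := hint v2 hv2L v2 hv2L
  have hn21 : ip v2 v1 = (n12 : ℂ) := by
    rw [hconj v1 v2, hn12, map_intCast]
  have hv2ne : v2 ≠ 0 := by
    intro h
    apply hv2S
    exact ⟨0, by rw [h, zero_smul]⟩
  have hv2re : (ip v2 v2).re = (n22 : ℝ) := by rw [hn22]; simp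
  have h1122 : n11 ≤ n22 := by
    have := hv1min v2 hv2L hv2ne
    rw [hv1re, hv2re] at this
    exact_mod_cast this
  -- general quadratic expansion for real coefficients
  have hquad : ∀ s t : ℝ, (ip ((s : ℂ) • v1 + (t : ℂ) • v2) ((s : ℂ) • v1 + (t : ℂ) • v2)).re =
      s ^ 2 * (n11 : ℝ) + 2 * s * t * (n12 : ℝ) + t ^ 2 * (n22 : ℝ) := by
    intro s t
    rw [hadd, haddr, haddr, hsmul, hsmul, hsmulr, hsmulr, hsmul, hsmul, hsmulr, hsmulr, hn11,
      hn12, hn21, hn22, Complex.conj_ofReal, Complex.conj_ofReal]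
    have : (s : ℂ) * ((s : ℂ) * (n11 : ℂ)) + (s : ℂ) * ((t : ℂ) * (n12 : ℂ)) +
        ((t : ℂ) * ((s : ℂ) * (n12 : ℂ)) + (t : ℂ) * ((t : ℂ) * (n22 : ℂ))) =
        ((s ^ 2 * (n11 : ℝ) + 2 * s * t * (n12 : ℝ) + t ^ 2 * (n22 : ℝ) : ℝ) : ℂ) := by
      push_cast; ring
    rw [this, Complex.ofReal_re]
  have hS_of : ∀ s t : ℝ, t ≠ 0 → ¬ ∃ c : ℂ, (s : ℂ) • v1 + (t : ℂ) • v2 = c • v1 := by
    rintro s t ht ⟨c, hc⟩
    apply hv2S
    refine ⟨(c - (s : ℂ)) / (t : ℂ), ?_⟩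
    have htC : (t : ℂ) ≠ 0 := by exact_mod_cast ht
    have h1 : (t : ℂ) • v2 = (c - (s : ℂ)) • v1 := by
      rw [sub_smul, ← hc]; abel
    have h2 : v2 = (t : ℂ)⁻¹ • ((t : ℂ) • v2) := by
      rw [smul_smul, inv_mul_cancel₀ htC, one_smul]
    rw [h2, h1, smul_smul]
    congr 1
    field_simp
  -- |2 n12| ≤ n11
  have h12 : |2 * n12| ≤ n11 := by
    have hp1 := hv2min ((1 : ℂ) • v1 + (1 : ℂ) • v2)
      (L.add_mem (by rw [one_smul]; exact hv1L) (by rw [one_smul]; exact hv2L))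
      (by have := hS_of 1 1 one_ne_zero; simpa using this)
    have hm1 := hv2min ((-1 : ℂ) • v1 + (1 : ℂ) • v2)
      (L.add_mem (by rw [neg_one_smul]; exact L.neg_mem hv1L) (by rw [one_smul]; exact hv2L))
      (by have := hS_of (-1) 1 one_ne_zero; simpa using this)
    have e1 := hquad 1 1
    have e2 := hquad (-1) 1
    simp only [Complex.ofReal_one, Complex.ofReal_neg] at e1 e2
    rw [e1, hv2re] at hp1
    rw [e2, hv2re] at hm1
    have hp1' : (0 : ℝ) ≤ (n11 : ℝ) + 2 * (n12 : ℝ) := by linarith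
    have hm1' : (0 : ℝ) ≤ (n11 : ℝ) - 2 * (n12 : ℝ) := by linarith
    have hp1'' : 0 ≤ n11 + 2 * n12 := by exact_mod_cast hp1'
    have hm1'' : 0 ≤ n11 - 2 * n12 := by exact_mod_cast hm1'
    rw [abs_le]
    constructor <;> linarith
  have h12R : |2 * (n12 : ℝ)| ≤ (n11 : ℝ) := by exact_mod_cast h12
  have h1122R : (n11 : ℝ) ≤ (n22 : ℝ) := by exact_mod_cast h1122
  refine ⟨v2, hv2L, n12, n22, hn12, hn22, h12, h1122, hv2S, ?_⟩
  rintro w hw ⟨a, b, rfl⟩
  -- the coefficients are real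
  obtain ⟨m1, hm1⟩ := hint _ hw v1 hv1L
  obtain ⟨m2, hm2⟩ := hint _ hw v2 hv2L
  rw [hadd, hsmul, hsmul, hn11, hn21] at hm1
  rw [hadd, hsmul, hsmul, hn12, hn22] at hm2
  set Δ : ℝ := (n11 : ℝ) * (n22 : ℝ) - (n12 : ℝ) ^ 2 with hΔ
  have hΔpos : 0 < Δ := by
    have h1 : (n12 : ℝ) ^ 2 ≤ (n11 : ℝ) ^ 2 / 4 := by
      have := abs_le.1 h12R
      nlinarith [this.1, this.2]
    nlinarith
  have hΔC : ((Δ : ℝ) : ℂ) ≠ 0 := by exact_mod_cast hΔpos.ne'
  set α : ℝ := ((m1 : ℝ) * (n22 : ℝ) - (m2 : ℝ) * (n12 : ℝ)) / Δ with hα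
  set β : ℝ := ((m2 : ℝ) * (n11 : ℝ) - (m1 : ℝ) * (n12 : ℝ)) / Δ with hβ
  have ha : a = (α : ℂ) := by
    have h1 : a * ((Δ : ℝ) : ℂ) = (m1 : ℂ) * (n22 : ℂ) - (m2 : ℂ) * (n12 : ℂ) := by
      rw [← hm1, ← hm2, hΔ]; push_cast; ring
    rw [hα]
    push_cast
    rw [eq_div_iff hΔC]
    exact h1
  have hb : b = (β : ℂ) := by
    have h1 : b * ((Δ : ℝ) : ℂ) = (m2 : ℂ) * (n11 : ℂ) - (m1 : ℂ) * (n12 : ℂ) := by
      rw [← hm1, ← hm2, hΔ]; push_cast; ring
    rw [hβ]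
    push_cast
    rw [eq_div_iff hΔC]
    exact h1
  set x : ℤ := round α with hx
  set y : ℤ := round β with hy
  set α' : ℝ := α - x with hα'
  set β' : ℝ := β - y with hβ'
  have hα'abs : |α'| ≤ 1 / 2 := abs_sub_round α
  have hβ'abs : |β'| ≤ 1 / 2 := abs_sub_round β
  have hw' : a • v1 + b • v2 - ((x : ℂ) • v1 + (y : ℂ) • v2) = (α' : ℂ) • v1 + (β' : ℂ) • v2 := by
    rw [ha, hb, hα', hβ']
    push_cast
    simp only [sub_smul]
    abel
  have hw'L : (α' : ℂ) • v1 + (β' : ℂ) • v2 ∈ L := by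
    rw [← hw']
    exact L.sub_mem hw (L.add_mem (hmemsmul x v1 hv1L) (hmemsmul y v2 hv2L))
  have hα'sq : α' ^ 2 ≤ 1 / 4 := by
    have := abs_le.1 hα'abs
    nlinarith [this.1, this.2]
  have hβ'sq : β' ^ 2 ≤ 1 / 4 := by
    have := abs_le.1 hβ'abs
    nlinarith [this.1, this.2]
  have hβ0 : β' = 0 := by
    by_contra hβne
    have h1 := hv2min _ hw'L (hS_of α' β' hβne)
    rw [hquad, hv2re] at h1
    have hcross : 2 * α' * β' * (n12 : ℝ) ≤ (n11 : ℝ) / 4 := by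
      have habs : |2 * α' * β' * (n12 : ℝ)| ≤ (n11 : ℝ) / 4 := by
        have e : |2 * α' * β' * (n12 : ℝ)| = |α'| * |β'| * |2 * (n12 : ℝ)| := by
          rw [← abs_mul, ← abs_mul]; congr 1; ring
        rw [e]
        have h2 : |α'| * |β'| ≤ 1 / 2 * (1 / 2) :=
          mul_le_mul hα'abs hβ'abs (abs_nonneg _) (by norm_num)
        have h3 : |α'| * |β'| * |2 * (n12 : ℝ)| ≤ 1 / 2 * (1 / 2) * (n11 : ℝ) :=
          mul_le_mul h2 h12R (abs_nonneg _) (by norm_num)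
        linarith
      exact (abs_le.1 habs).2
    have h4 : α' ^ 2 * (n11 : ℝ) ≤ (n11 : ℝ) / 4 := by nlinarith
    have h5 : β' ^ 2 * (n22 : ℝ) ≤ (n22 : ℝ) / 4 := by
      have : (0 : ℝ) < (n22 : ℝ) := lt_of_lt_of_le hn11R h1122R
      nlinarith
    have hn22pos : (0 : ℝ) < (n22 : ℝ) := lt_of_lt_of_le hn11R h1122R
    linarith
  have hα0 : α' = 0 := by
    by_contra hαne
    have hne' : (α' : ℂ) • v1 + (β' : ℂ) • v2 ≠ 0 := by
      rw [hβ0]
      simp only [Complex.ofReal_zero, zero_smul, add_zero]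
      intro h
      rcases smul_eq_zero.1 h with h | h
      · exact hαne (by exact_mod_cast h)
      · exact hv1ne h
    have h1 := hv1min _ hw'L hne'
    rw [hquad, hv1re, hβ0] at h1
    nlinarith
  refine ⟨x, y, ?_⟩
  have : a • v1 + b • v2 - ((x : ℂ) • v1 + (y : ℂ) • v2) = 0 := by
    rw [hw', hα0, hβ0]
    simp
  exact sub_eq_zero.1 this

end Lattice

end Cfsg.Agent.Lib.Helper76
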