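import Mathlib
import Cfsg.Prelude.Def_Blocks
import Cfsg.Agent.Lib.Helper76.Frame
import Cfsg.Agent.Lib.Helper16.IndBlock
import Cfsg.Agent.Lib.Helper78.HeightZero
import Cfsg.Agent.Lib.Helper78.Swan
import Cfsg.Agent.Lib.Helper77.Degree

/-!
# Nonvanishing of the contributions of a subsection of full defect

For a subsection `(y, e)` with `d(e) = d(B)` and `ψ ∈ B` of height zero, the contribution numbers
`contrib ψ χ` are nonzero for every `χ ∈ B`, and `p ^ d * contrib ψ χ` lies in the local ideal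
when `χ` has positive height.
-/

set_option autoImplicit false

namespace Cfsg.Agent.Lib.Helper76

open Cfsg Cfsg.Agent.Lib.Helper16 Cfsg.Agent.Lib.Helper26 Cfsg.Agent.Lib.Helper78
  Cfsg.Agent.Lib.Helper81
open scoped ComplexConjugate

/-- Integer combinations of `p`-power roots of unity: local integrality, and membership in the
local ideal in terms of the sum of the coefficients. -/
theorem memLocalIdeal_cyclo_iff {p : ℕ} {M : Ideal Cfsg.AlgInt} (hM : Cfsg.IsPModular p M)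
    (k : ℕ) {ι : Type*} (s : Finset ι) (c : ι → ℤ) (r : ι → ℂ)
    (hr : ∀ i ∈ s, r i ^ (p ^ k) = 1) :
    MemLocalRing M (∑ i ∈ s, (c i : ℂ) * r i) ∧
      (MemLocalIdeal M (∑ i ∈ s, (c i : ℂ) * r i) ↔ (p : ℤ) ∣ ∑ i ∈ s, c i) := by
  have hMp := isPrime_of_isPModular hM
  have hr1 : ∀ i ∈ s, MemLocalIdeal M (r i - 1) := fun i hi =>
    memLocalIdeal_sub_one_of_pow_pow_eq_one hM k (hr i hi)
  have hdiff : MemLocalIdeal M (∑ i ∈ s, (c i : ℂ) * r i - ((∑ i ∈ s, c i : ℤ) : ℂ)) := by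
    have : ∑ i ∈ s, (c i : ℂ) * r i - ((∑ i ∈ s, c i : ℤ) : ℂ) =
        ∑ i ∈ s, (c i : ℂ) * (r i - 1) := by
      push_cast
      rw [← Finset.sum_sub_distrib]
      refine Finset.sum_congr rfl (fun i _ => ?_)
      ring
    rw [this]
    exact memLocalIdeal_sum hMp _ _ (fun i hi =>
      memLocalIdeal_mul_left hMp (memLocalRing_intCast hMp _) (hr1 i hi))
  refine ⟨?_, ?_, ?_⟩
  · exact memLocalRing_sum hMp _ _ (fun i hi => memLocalRing_mul hMp (memLocalRing_intCast hMp _)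
      (memLocalRing_of_sub_one hMp (hr1 i hi)))
  · intro h
    apply int_dvd_of_memLocalIdeal hM
    have := memLocalIdeal_sub hMp h hdiff
    rwa [sub_sub_cancel] at this
  · intro h
    have h1 := memLocalIdeal_intCast_of_dvd hM _ h
    have := memLocalIdeal_add hMp hdiff h1
    rwa [sub_add_cancel] at this

section Generic

variable {K : Type*} [Group K] [Fintype K]

/-- Characters of positive height have degree quotient divisible by `p`. -/
theorem degree_height_pos {p : ℕ} [Fact p.Prime] (e : Set (Cfsg.IrrCharacter K))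
    (θ : Cfsg.IrrCharacter K) (hθ : θ ∈ e) (hh : Cfsg.blockHeight p e (θ : K → ℂ) ≠ 0) :
    p ∣ Cfsg.charDegree (θ : K → ℂ) /
      p ^ ((Nat.card K).factorization p - Cfsg.blockDefect p e) := by
  have hp : p.Prime := Fact.out
  set S := (fun χ : Cfsg.IrrCharacter K => (Cfsg.charDegree (χ : K → ℂ)).factorization p) '' e
    with hS
  have hd : Cfsg.blockDefect p e = (Nat.card K).factorization p - sInf S := rfl
  have hht : Cfsg.blockHeight p e (θ : K → ℂ) =
      (Cfsg.charDegree (θ : K → ℂ)).factorization p - sInf S := rfl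
  have h1 : sInf S ≤ (Cfsg.charDegree (θ : K → ℂ)).factorization p := Nat.sInf_le ⟨θ, hθ, rfl⟩
  obtain ⟨-, hpos, hdvd⟩ := Cfsg.Agent.Lib.Helper79.irr_charDegree θ.2
  have h2 : (Cfsg.charDegree (θ : K → ℂ)).factorization p ≤ (Nat.card K).factorization p :=
    (Nat.factorization_le_iff_dvd hpos.ne' Nat.card_pos.ne').mpr hdvd p
  have h3 : (Nat.card K).factorization p - Cfsg.blockDefect p e = sInf S := by
    rw [hd]
    exact Nat.sub_sub_self (h1.trans h2)
  rw [h3]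
  have h4 : sInf S + 1 ≤ (Cfsg.charDegree (θ : K → ℂ)).factorization p := by
    rw [hht] at hh
    omega
  have h5 : p ^ (sInf S + 1) ∣ Cfsg.charDegree (θ : K → ℂ) :=
    (pow_dvd_pow p h4).trans (Nat.ordProj_dvd _ p)
  obtain ⟨m, hm⟩ := h5
  rw [hm, pow_succ, mul_assoc, Nat.mul_div_cancel_left _ (pow_pos hp.pos _)]
  exact dvd_mul_right _ _

end Generic

variable {G : Type*} [Group G] [Fintype G]

/-- The numbers `p ^ d(e) * contrib (y ^ j) χ ψ`, for `χ, ψ` of height zero, as integer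
combinations of `p ^ k`-th roots of unity with coefficient sum prime to `p`. -/
theorem contrib_cyclo_data [Fintype (Cfsg.IrrCharacter G)] {p : ℕ} [Fact p.Prime]
    {M : Ideal Cfsg.AlgInt} (hM : Cfsg.IsPModular p M) (B : Set (Cfsg.IrrCharacter G))
    (y : G) (k : ℕ) (hk : orderOf y = p ^ k) (C : Subgroup G)
    (hC : ∀ g : G, g ∈ C ↔ g * y = y * g) (e : Set (Cfsg.IrrCharacter C))
    (hind : Cfsg.IsInducedBlock M C e B) (χ ψ : Cfsg.IrrCharacter G) (hχ : χ ∈ B) (hψ : ψ ∈ B)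
    (h0χ : Cfsg.blockHeight p B (χ : G → ℂ) = 0) (h0ψ : Cfsg.blockHeight p B (ψ : G → ℂ) = 0) :
    letI : Fintype C := Fintype.ofFinite _
    letI : Fintype (Cfsg.IrrCharacter C) := @Fintype.ofFinite _ (irr_finite _)
    ∃ (c : Cfsg.IrrCharacter C × Cfsg.IrrCharacter C → ℤ)
      (r : Cfsg.IrrCharacter C × Cfsg.IrrCharacter C → ℂ),
      (∀ i, r i ^ (p ^ k) = 1) ∧ ¬ (p : ℤ) ∣ ∑ i, c i ∧
      ∀ j : ℕ, ((p ^ Cfsg.blockDefect p e : ℕ) : ℂ) *
          contrib p C e (y ^ j) (χ : G → ℂ) (ψ : G → ℂ) = ∑ i, (c i : ℂ) * r i ^ j := by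
  classical
  have hp : p.Prime := Fact.out
  letI : Fintype C := Fintype.ofFinite _
  letI : Fintype (Cfsg.IrrCharacter C) := @Fintype.ofFinite _ (irr_finite _)
  obtain ⟨ω, hω, hcon⟩ := contrib_lam hp y k hk C hC e
  obtain ⟨nχ, hnχ⟩ := character_expansion
    (Cfsg.Agent.Lib.Helper75.isCharacter_res C (isCharacter_of_irr χ.2))
  obtain ⟨nψ, hnψ⟩ := character_expansion
    (Cfsg.Agent.Lib.Helper75.isCharacter_res C (isCharacter_of_irr ψ.2))
  have hz : ∀ θ : Cfsg.IrrCharacter C, ∃ z : Cfsg.IrrCharacter C → ℤ,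
      (∀ θ', θ' ∉ e → z θ' = 0) ∧ (θ ∈ e → ∀ θ' : Cfsg.IrrCharacter C,
        ((p ^ Cfsg.blockDefect p e : ℕ) : ℂ) *
          Cfsg.classInner (Cfsg.pRegularPart p (θ : C → ℂ)) (θ' : C → ℂ) = (z θ' : ℂ)) := by
    intro θ
    by_cases hθ : θ ∈ e
    · obtain ⟨z, hz0, hz⟩ := exists_int_truncInner hM e hind.1 θ hθ
      exact ⟨z, hz0, fun _ => hz⟩
    · exact ⟨fun _ => 0, fun _ _ => rfl, fun h => absurd h hθ⟩
  choose z hz0 hz using hz
  have hunit := unit_core hM C e B hind χ ψ hχ hψ h0χ h0ψ nχ nψ hnχ hnψ z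
    (fun θ hθ θ' => hz θ hθ θ')
  refine ⟨fun i => if i.1 ∈ e then (nχ i.1 : ℤ) * (nψ i.2 : ℤ) * z i.1 i.2 else 0,
    fun i => ω i.1 * conj (ω i.2), ?_, ?_, ?_⟩
  · intro i
    rw [mul_pow, ← map_pow, hω, hω, map_one, one_mul]
  · have hsum : ∑ i : Cfsg.IrrCharacter C × Cfsg.IrrCharacter C,
        (if i.1 ∈ e then (nχ i.1 : ℤ) * (nψ i.2 : ℤ) * z i.1 i.2 else 0) =
        ∑ θ ∈ Finset.univ.filter (· ∈ e), ∑ θ' ∈ Finset.univ.filter (· ∈ e),
          (nχ θ : ℤ) * (nψ θ' : ℤ) * z θ θ' := by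
      rw [Fintype.sum_prod_type, Finset.sum_filter]
      refine Finset.sum_congr rfl (fun θ _ => ?_)
      by_cases hθ : θ ∈ e
      · simp only [if_pos hθ]
        rw [Finset.sum_filter]
        refine Finset.sum_congr rfl (fun θ' _ => ?_)
        by_cases hθ' : θ' ∈ e
        · rw [if_pos hθ']
        · rw [if_neg hθ', hz0 θ θ' hθ', mul_zero]
      · simp [hθ]
    rw [hsum]
    exact hunit
  · intro j
    rw [hcon χ ψ j, Fintype.sum_prod_type, Finset.mul_sum]
    refine Finset.sum_congr rfl (fun θ _ => ?_)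
    rw [Finset.mul_sum]
    refine Finset.sum_congr rfl (fun θ' _ => ?_)
    by_cases hθ : θ ∈ e
    · simp only [if_pos hθ]
      have h1 : Cfsg.classInner (fun c : C => (χ : G → ℂ) (c : G)) (θ : C → ℂ) = (nχ θ : ℂ) := by
        rw [hnχ, classInner_expansion_irr]
      have h2 : Cfsg.classInner (fun c : C => (ψ : G → ℂ) (c : G)) (θ' : C → ℂ) = (nψ θ' : ℂ) := by
        rw [hnψ, classInner_expansion_irr]
      rw [h1, h2, map_natCast]
      have h3 := hz θ hθ θ'
      push_cast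
      rw [← h3]
      push_cast
      ring
    · simp [hθ]

/-- For `χ, ψ` of height zero, `p ^ d(e) * contrib y χ ψ` is a unit of the local ring. -/
theorem contrib_unit [Fintype (Cfsg.IrrCharacter G)] {p : ℕ} [Fact p.Prime]
    {M : Ideal Cfsg.AlgInt} (hM : Cfsg.IsPModular p M) (B : Set (Cfsg.IrrCharacter G))
    (y : G) (k : ℕ) (hk : orderOf y = p ^ k) (C : Subgroup G)
    (hC : ∀ g : G, g ∈ C ↔ g * y = y * g) (e : Set (Cfsg.IrrCharacter C))
    (hind : Cfsg.IsInducedBlock M C e B) (χ ψ : Cfsg.IrrCharacter G) (hχ : χ ∈ B) (hψ : ψ ∈ B)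
    (h0χ : Cfsg.blockHeight p B (χ : G → ℂ) = 0) (h0ψ : Cfsg.blockHeight p B (ψ : G → ℂ) = 0) :
    ¬ MemLocalIdeal M (((p ^ Cfsg.blockDefect p e : ℕ) : ℂ) *
      contrib p C e y (χ : G → ℂ) (ψ : G → ℂ)) := by
  classical
  letI : Fintype C := Fintype.ofFinite _
  letI : Fintype (Cfsg.IrrCharacter C) := @Fintype.ofFinite _ (irr_finite _)
  obtain ⟨c, r, hr, hc, hform⟩ := contrib_cyclo_data hM B y k hk C hC e hind χ ψ hχ hψ h0χ h0ψ
  have h1 := hform 1
  simp only [pow_one] at h1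
  rw [h1]
  intro hmem
  exact hc ((memLocalIdeal_cyclo_iff hM k Finset.univ c r (fun i _ => hr i)).2.1 hmem)

/-- **Nonvanishing for subsections of full defect.** -/
theorem major_nonvanishing [Fintype (Cfsg.IrrCharacter G)] {p : ℕ} [Fact p.Prime]
    {M : Ideal Cfsg.AlgInt} (hM : Cfsg.IsPModular p M) (B : Set (Cfsg.IrrCharacter G))
    (y : G) (k : ℕ) (hk : orderOf y = p ^ k) (C : Subgroup G)
    (hC : ∀ g : G, g ∈ C ↔ g * y = y * g) (e : Set (Cfsg.IrrCharacter C))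
    (hind : Cfsg.IsInducedBlock M C e B)
    (hdef : Cfsg.blockDefect p e = Cfsg.blockDefect p B)
    (ψ χ : Cfsg.IrrCharacter G) (hψ : ψ ∈ B) (hχ : χ ∈ B)
    (h0ψ : Cfsg.blockHeight p B (ψ : G → ℂ) = 0) :
    contrib p C e y (ψ : G → ℂ) (χ : G → ℂ) ≠ 0 ∧
      (Cfsg.blockHeight p B (χ : G → ℂ) ≠ 0 →
        MemLocalIdeal M (((p ^ Cfsg.blockDefect p B : ℕ) : ℂ) *
          contrib p C e y (ψ : G → ℂ) (χ : G → ℂ))) := by
  classical
  have hp : p.Prime := Fact.out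
  have hMp := isPrime_of_isPModular hM
  letI : Fintype C := Fintype.ofFinite _
  letI : Fintype (Cfsg.IrrCharacter C) := @Fintype.ofFinite _ (irr_finite _)
  have hyC : y ∈ C := (hC y).2 rfl
  have hcomm : ∀ c : C, y * (c : G) = (c : G) * y := fun c => ((hC c).1 c.2).symm
  set z : C := ⟨y, hyC⟩ with hz
  set V : C → ℂ := vsec p C e y (ψ : G → ℂ) with hV
  have hVcf : Cfsg.IsClassFunction C V := isClassFunction_vsec p C e y _
  -- local integrality of the values of `V`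
  have hVR : ∀ s : C, MemLocalRing M (V s) := by
    obtain ⟨ω, hω, hexp⟩ := vsec_expansion hp y k hk C hC e
    obtain ⟨n, -, hn⟩ := hexp ψ
    intro s
    have h1 := hn 1 s
    rw [pow_one] at h1
    rw [hV, h1]
    refine memLocalRing_sum hMp _ _ (fun θ _ => ?_)
    split_ifs
    · refine memLocalRing_mul hMp (memLocalRing_mul hMp ?_ (memLocalRing_natCast hMp _)) ?_
      · rw [pow_one]
        exact memLocalRing_of_sub_one hMp (memLocalIdeal_sub_one_of_pow_pow_eq_one hM k (hω θ))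
      · rw [pRegularPart_apply']
        split_ifs
        · exact memLocalRing_zero hMp
        · exact Cfsg.Agent.Lib.Helper77.memLocalRing_irr_apply hMp θ s
    · exact memLocalRing_zero hMp
  set β : C → ℂ := fun c => V (z⁻¹ * c) with hβ
  have hzc : ∀ t : C, z⁻¹ * t = t * z⁻¹ := by
    intro t
    have h1 : z * t = t * z := Subtype.ext (hcomm t)
    calc z⁻¹ * t = z⁻¹ * (t * z) * z⁻¹ := by group
      _ = z⁻¹ * (z * t) * z⁻¹ := by rw [h1]
      _ = t * z⁻¹ := by group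
  have hβR : IsRClass M β := by
    refine ⟨?_, fun c => hVR _⟩
    intro c t
    show V (z⁻¹ * (t * c * t⁻¹)) = V (z⁻¹ * c)
    have : z⁻¹ * (t * c * t⁻¹) = t * (z⁻¹ * c) * t⁻¹ := by
      rw [← mul_assoc, ← mul_assoc, hzc t]
      simp only [mul_assoc]
    rw [this]
    exact hVcf _ _
  set α : G → ℂ := fun g => Cfsg.indFun C β g⁻¹ with hα
  have hindR := isRClass_indFun hMp C hβR
  have hαR : IsRClass M α := by
    refine ⟨?_, fun g => hindR.2 _⟩
    intro g h
    show Cfsg.indFun C β (h * g * h⁻¹)⁻¹ = Cfsg.indFun C β g⁻¹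
    have : (h * g * h⁻¹)⁻¹ = h * g⁻¹ * h⁻¹ := by group
    rw [this]
    exact hindR.1 _ _
  have hC0 : (Nat.card C : ℂ) ≠ 0 := by exact_mod_cast Nat.card_pos.ne'
  -- the central character at `α`
  have key : ∀ φ : Cfsg.IrrCharacter G, omega (φ : G → ℂ) α =
      (Nat.card G : ℂ) * contrib p C e y (ψ : G → ℂ) (φ : G → ℂ) / (φ : G → ℂ) 1 := by
    intro φ
    unfold omega
    rw [← Finset.sum_div]
    congr 1
    have hf : Cfsg.IsClassFunction G (fun g => (φ : G → ℂ) g⁻¹) := by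
      intro g h
      show (φ : G → ℂ) (h * g * h⁻¹)⁻¹ = (φ : G → ℂ) g⁻¹
      have : (h * g * h⁻¹)⁻¹ = h * g⁻¹ * h⁻¹ := by group
      rw [this]
      exact irr_conj_class φ _ _
    have h1 : ∑ g : G, α g * (φ : G → ℂ) g =
        ∑ g : G, Cfsg.indFun C β g * (φ : G → ℂ) g⁻¹ := by
      rw [← Equiv.sum_comp (Equiv.inv G) (fun g => Cfsg.indFun C β g * (φ : G → ℂ) g⁻¹)]
      refine Finset.sum_congr rfl (fun g _ => ?_)
      simp only [Equiv.inv_apply, inv_inv]
      rfl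
    rw [h1, sum_indFun_mul C β hf]
    have h2 : ∑ h : C, β h * (φ : G → ℂ) ((h : G))⁻¹ =
        ∑ s : C, V s * (φ : G → ℂ) (y⁻¹ * (s : G)⁻¹) := by
      rw [← Equiv.sum_comp (Equiv.mulLeft z) (fun h : C => β h * (φ : G → ℂ) ((h : G))⁻¹)]
      refine Finset.sum_congr rfl (fun s _ => ?_)
      simp only [Equiv.coe_mulLeft, hβ, inv_mul_cancel_left]
      have hzs : ((z * s : C) : G)⁻¹ = y⁻¹ * (s : G)⁻¹ := by
        show (y * (s : G))⁻¹ = y⁻¹ * (s : G)⁻¹
        rw [hcomm s, mul_inv_rev]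
      rw [hzs]
    rw [h2]
    have h3 : contrib p C e y (ψ : G → ℂ) (φ : G → ℂ) =
        (Nat.card C : ℂ)⁻¹ * ∑ s : C, V s * (φ : G → ℂ) (y⁻¹ * (s : G)⁻¹) := rfl
    rw [h3, ← mul_assoc]
    congr 1
    have h4 : (C.index : ℂ) * (Nat.card C : ℂ) = (Nat.card G : ℂ) := by
      rw [← Nat.cast_mul, Subgroup.index_mul_card]
    rw [← h4]
    field_simp
  -- degrees
  set a := (Nat.card G).factorization p with ha
  set d := Cfsg.blockDefect p B with hd
  obtain ⟨hda, hdvd, hD0⟩ := degree_block_facts (p := p) B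
  set c' := Nat.card G / p ^ a with hc'def
  have hcard : Nat.card G = p ^ a * c' := (Nat.ordProj_mul_ordCompl_eq_self _ p).symm
  have hc' : ¬ p ∣ c' := Nat.not_dvd_ordCompl hp Nat.card_pos.ne'
  have hp0 : (p : ℂ) ≠ 0 := by exact_mod_cast hp.ne_zero
  have hpa : (p : ℂ) ^ a = (p : ℂ) ^ d * (p : ℂ) ^ (a - d) := by
    rw [← pow_add, Nat.add_sub_cancel' hda]
  have hΩD : ∀ φ ∈ B, omega (φ : G → ℂ) α *
      ((Cfsg.charDegree (φ : G → ℂ) / p ^ (a - d) : ℕ) : ℂ) =
      (c' : ℂ) * (((p ^ d : ℕ) : ℂ) * contrib p C e y (ψ : G → ℂ) (φ : G → ℂ)) := by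
    intro φ hφ
    obtain ⟨h1, hpos, -⟩ := Cfsg.Agent.Lib.Helper79.irr_charDegree φ.2
    have hdeg : Cfsg.charDegree (φ : G → ℂ) =
        p ^ (a - d) * (Cfsg.charDegree (φ : G → ℂ) / p ^ (a - d)) :=
      (Nat.mul_div_cancel' (hdvd φ hφ)).symm
    have hDpos : 0 < Cfsg.charDegree (φ : G → ℂ) / p ^ (a - d) := by
      rcases Nat.eq_zero_or_pos (Cfsg.charDegree (φ : G → ℂ) / p ^ (a - d)) with h | h
      · rw [h, mul_zero] at hdeg
        omega
      · exact h
    have hD0' : ((Cfsg.charDegree (φ : G → ℂ) / p ^ (a - d) : ℕ) : ℂ) ≠ 0 := by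
      exact_mod_cast hDpos.ne'
    have hφ1 : (φ : G → ℂ) 1 = (p : ℂ) ^ (a - d) *
        ((Cfsg.charDegree (φ : G → ℂ) / p ^ (a - d) : ℕ) : ℂ) := by
      rw [h1]
      conv_lhs => rw [hdeg]
      push_cast
      rfl
    have hcardC : (Nat.card G : ℂ) = (p : ℂ) ^ a * (c' : ℂ) := by
      rw [hcard]; push_cast; rfl
    rw [key φ, hφ1, hcardC, hpa]
    have hpad : (p : ℂ) ^ (a - d) ≠ 0 := pow_ne_zero _ hp0
    push_cast
    field_simp
  have hsub := memLocalIdeal_omega_sub hMp (IsPBlock.sameBlock hMp hind.2.1 hχ hψ) hαR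
  have hΩψ : ¬ MemLocalIdeal M (omega (ψ : G → ℂ) α) := by
    intro hmem
    have h1 := memLocalIdeal_mul_right hMp hmem
      (memLocalRing_natCast hMp (Cfsg.charDegree (ψ : G → ℂ) / p ^ (a - d)))
    rw [hΩD ψ hψ] at h1
    have h2 := memLocalIdeal_of_natCast_mul hM hc' h1
    have h3 := contrib_unit hM B y k hk C hC e hind ψ ψ hψ hψ h0ψ h0ψ
    rw [hdef] at h3
    exact h3 h2
  have hΩχ : ¬ MemLocalIdeal M (omega (χ : G → ℂ) α) := by
    intro hmem
    apply hΩψ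
    have := memLocalIdeal_sub hMp hmem hsub
    rwa [sub_sub_cancel] at this
  refine ⟨?_, ?_⟩
  · intro h0
    apply hΩχ
    rw [key χ, h0, mul_zero, zero_div]
    exact memLocalIdeal_zero hMp
  · intro hh
    have hpD := degree_height_pos (p := p) B χ hχ hh
    have h1 : MemLocalIdeal M (omega (χ : G → ℂ) α *
        ((Cfsg.charDegree (χ : G → ℂ) / p ^ (a - d) : ℕ) : ℂ)) :=
      memLocalIdeal_mul_left hMp (memLocalRing_omega hMp χ hαR)
        ((memLocalIdeal_natCast_iff hM _).mpr hpD)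
    rw [hΩD χ hχ] at h1
    exact memLocalIdeal_of_natCast_mul hM hc' h1

end Cfsg.Agent.Lib.Helper76
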