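import Mathlib
import Cfsg.Prelude.Def_Blocks
import Cfsg.Agent.Lib.Helper76.Lattice2
import Cfsg.Agent.Lib.Helper76.MajorNV

/-!
# The lattice of a block of rank at most two

For a block `e` of a finite group with `p`-regular rank at most two, the lattice spanned by the
truncations `θ⁰` (`θ ∈ e`) with the form `p ^ d ⟨ , ⟩` has a reduced basis; in the case of the
form `x ^ 2 + n y ^ 2` the number `n` is divisible by `p`.
-/

set_option autoImplicit false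

namespace Cfsg.Agent.Lib.Helper76

open Cfsg Cfsg.Agent.Lib.Helper16 Cfsg.Agent.Lib.Helper26 Cfsg.Agent.Lib.Helper78
  Cfsg.Agent.Lib.Helper81
open scoped ComplexConjugate

section GenericL

variable {K : Type*} [Group K] [Fintype K]

/-- **Rank one modulo `p`**: the integers `z θ θ' = p ^ d ⟨θ⁰, θ'⟩` of a block satisfy
`z θ θ' * D ξ ≡ z θ ξ * D θ'` modulo `p`, where `D θ = θ(1) / p ^ (a - d)`. -/
theorem trunc_rank_one [Fintype (Cfsg.IrrCharacter K)] {p : ℕ} [Fact p.Prime]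
    {M : Ideal Cfsg.AlgInt} (hM : Cfsg.IsPModular p M) (e : Set (Cfsg.IrrCharacter K))
    (he : Cfsg.IsPBlock M e)
    (z : Cfsg.IrrCharacter K → Cfsg.IrrCharacter K → ℤ)
    (hz : ∀ θ ∈ e, ∀ θ' : Cfsg.IrrCharacter K, ((p ^ Cfsg.blockDefect p e : ℕ) : ℂ) *
      Cfsg.classInner (Cfsg.pRegularPart p (θ : K → ℂ)) (θ' : K → ℂ) = (z θ θ' : ℂ))
    (θ θ' ξ : Cfsg.IrrCharacter K) (hθ : θ ∈ e) (hθ' : θ' ∈ e) (hξ : ξ ∈ e) :
    (p : ℤ) ∣ z θ θ' * ((Cfsg.charDegree (ξ : K → ℂ) /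
        p ^ ((Nat.card K).factorization p - Cfsg.blockDefect p e) : ℕ) : ℤ) -
      z θ ξ * ((Cfsg.charDegree (θ' : K → ℂ) /
        p ^ ((Nat.card K).factorization p - Cfsg.blockDefect p e) : ℕ) : ℤ) := by
  have hMp := isPrime_of_isPModular hM
  have hp : p.Prime := Fact.out
  set a := (Nat.card K).factorization p with ha
  set d := Cfsg.blockDefect p e with hd
  obtain ⟨hda, hdvd, -⟩ := degree_block_facts (p := p) e
  set D : Cfsg.IrrCharacter K → ℕ := fun θ => Cfsg.charDegree (θ : K → ℂ) / p ^ (a - d) with hD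
  have hDeq : ∀ θ ∈ e, Cfsg.charDegree (θ : K → ℂ) = p ^ (a - d) * D θ :=
    fun θ hθ => (Nat.mul_div_cancel' (hdvd θ hθ)).symm
  set c' := Nat.card K / p ^ a with hc'def
  have hcard : Nat.card K = p ^ a * c' := (Nat.ordProj_mul_ordCompl_eq_self _ p).symm
  have hc' : ¬ p ∣ c' := Nat.not_dvd_ordCompl hp Nat.card_pos.ne'
  have hdeg : ∀ θ : Cfsg.IrrCharacter K, (θ : K → ℂ) 1 = (Cfsg.charDegree (θ : K → ℂ) : ℂ) ∧
      0 < Cfsg.charDegree (θ : K → ℂ) := fun θ =>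
    ⟨(Cfsg.Agent.Lib.Helper79.irr_charDegree θ.2).1,
      (Cfsg.Agent.Lib.Helper79.irr_charDegree θ.2).2.1⟩
  set Ω : Cfsg.IrrCharacter K → Cfsg.IrrCharacter K → ℂ :=
    fun θ' θ => omega (θ' : K → ℂ) (pRegConj p (θ : K → ℂ)) with hΩ
  have hΩsub : ∀ θ' ∈ e, ∀ ξ' ∈ e, ∀ θ, MemLocalIdeal M (Ω θ' θ - Ω ξ' θ) :=
    fun θ' hθ' ξ' hξ' θ => memLocalIdeal_omega_sub hMp (IsPBlock.sameBlock hMp he hθ' hξ')
      (isRClass_pRegConj hMp p θ)
  have hθ1 : ∀ θ : Cfsg.IrrCharacter K, (θ : K → ℂ) 1 ≠ 0 := by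
    intro θ
    rw [(hdeg θ).1]
    exact_mod_cast (hdeg θ).2.ne'
  have hF4 : ∀ θ' θ : Cfsg.IrrCharacter K, Ω θ' θ * (θ' : K → ℂ) 1 =
      (Nat.card K : ℂ) * Cfsg.classInner (Cfsg.pRegularPart p (θ' : K → ℂ)) (θ : K → ℂ) :=
    fun θ' θ => omega_pRegConj_mul p _ _ (hθ1 θ')
  have hpa : (p : ℂ) ^ a = (p : ℂ) ^ d * (p : ℂ) ^ (a - d) := by
    rw [← pow_add, Nat.add_sub_cancel' hda]
  have hp0 : (p : ℂ) ≠ 0 := by exact_mod_cast hp.ne_zero
  have hpad : (p : ℂ) ^ (a - d) ≠ 0 := pow_ne_zero _ hp0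
  have hdegD : ∀ θ ∈ e, (θ : K → ℂ) 1 = (p : ℂ) ^ (a - d) * (D θ : ℂ) := by
    intro θ hθ
    rw [(hdeg θ).1, hDeq θ hθ]
    push_cast
    rfl
  have hcardC : (Nat.card K : ℂ) = (p : ℂ) ^ a * (c' : ℂ) := by
    rw [hcard]; push_cast; rfl
  have hsymm : ∀ θ ∈ e, ∀ θ' : Cfsg.IrrCharacter K,
      Cfsg.classInner (Cfsg.pRegularPart p (θ' : K → ℂ)) (θ : K → ℂ) =
      Cfsg.classInner (Cfsg.pRegularPart p (θ : K → ℂ)) (θ' : K → ℂ) := by
    intro θ hθ θ'
    rw [← truncInner_conj]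
    have h1 := hz θ hθ θ'
    have hpd : ((p ^ d : ℕ) : ℂ) ≠ 0 := by exact_mod_cast (pow_pos hp.pos d).ne'
    have h2 : Cfsg.classInner (Cfsg.pRegularPart p (θ : K → ℂ)) (θ' : K → ℂ) =
        (z θ θ' : ℂ) / ((p ^ d : ℕ) : ℂ) := by
      rw [← h1, mul_div_cancel_left₀ _ hpd]
    rw [h2, map_div₀, map_intCast, map_natCast]
  have hstar : ∀ θ ∈ e, ∀ θ' ∈ e, (z θ θ' : ℂ) * (c' : ℂ) = (D θ' : ℂ) * Ω θ' θ := by
    intro θ hθ θ' hθ'
    have h1 := hz θ hθ θ'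
    have h3 := hF4 θ' θ
    rw [hsymm θ hθ θ'] at h3
    apply mul_right_cancel₀ (hθ1 θ')
    calc (z θ θ' : ℂ) * (c' : ℂ) * (θ' : K → ℂ) 1
        = ((p ^ d : ℕ) : ℂ) * Cfsg.classInner (Cfsg.pRegularPart p (θ : K → ℂ)) (θ' : K → ℂ) *
            (c' : ℂ) * ((p : ℂ) ^ (a - d) * (D θ' : ℂ)) := by rw [h1, hdegD θ' hθ']
      _ = (D θ' : ℂ) * ((Nat.card K : ℂ) *
            Cfsg.classInner (Cfsg.pRegularPart p (θ : K → ℂ)) (θ' : K → ℂ)) := by
          rw [hcardC, hpa]; push_cast; ring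
      _ = (D θ' : ℂ) * Ω θ' θ * (θ' : K → ℂ) 1 := by rw [← h3]; ring
  have h1 : (c' : ℂ) * ((z θ θ' * (D ξ : ℤ) - z θ ξ * (D θ' : ℤ) : ℤ) : ℂ) =
      (D ξ : ℂ) * (D θ' : ℂ) * (Ω θ' θ - Ω ξ θ) := by
    have e1 := hstar θ hθ θ' hθ'
    have e2 := hstar θ hθ ξ hξ
    push_cast
    linear_combination (D ξ : ℂ) * e1 - (D θ' : ℂ) * e2
  have h2 : MemLocalIdeal M ((c' : ℂ) * ((z θ θ' * (D ξ : ℤ) - z θ ξ * (D θ' : ℤ) : ℤ) : ℂ)) := by
    rw [h1]
    exact memLocalIdeal_mul_left hMp (memLocalRing_mul hMp (memLocalRing_natCast hMp _)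
      (memLocalRing_natCast hMp _)) (hΩsub θ' hθ' ξ hξ θ)
  exact int_dvd_of_memLocalIdeal hM _ (memLocalIdeal_of_natCast_mul hM hc' h2)

/-- Vectors of the block: class functions vanishing on the `p`-singular elements and orthogonal
to the irreducible characters outside the block. -/
def IsBlockVec (p : ℕ) (e : Set (Cfsg.IrrCharacter K)) (v : K → ℂ) : Prop :=
  Cfsg.IsClassFunction K v ∧ (∀ s : K, p ∣ orderOf s → v s = 0) ∧
    ∀ θ' : Cfsg.IrrCharacter K, θ' ∉ e → ∑ s : K, v s * conj ((θ' : K → ℂ) s) = 0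

theorem isBlockVec_zero (p : ℕ) (e : Set (Cfsg.IrrCharacter K)) :
    IsBlockVec p e (0 : K → ℂ) :=
  ⟨fun _ _ => rfl, fun _ _ => rfl, fun _ _ => by simp⟩

theorem IsBlockVec.add {p : ℕ} {e : Set (Cfsg.IrrCharacter K)} {v w : K → ℂ}
    (hv : IsBlockVec p e v) (hw : IsBlockVec p e w) : IsBlockVec p e (v + w) := by
  refine ⟨fun g h => ?_, fun s hs => ?_, fun θ' hθ' => ?_⟩
  · show v _ + w _ = v _ + w _
    rw [hv.1 g h, hw.1 g h]
  · show v s + w s = 0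
    rw [hv.2.1 s hs, hw.2.1 s hs, add_zero]
  · simp only [Pi.add_apply, add_mul, Finset.sum_add_distrib]
    rw [hv.2.2 θ' hθ', hw.2.2 θ' hθ', add_zero]

theorem IsBlockVec.smul {p : ℕ} {e : Set (Cfsg.IrrCharacter K)} {v : K → ℂ} (c : ℂ)
    (hv : IsBlockVec p e v) : IsBlockVec p e (c • v) := by
  refine ⟨fun g h => ?_, fun s hs => ?_, fun θ' hθ' => ?_⟩
  · show c • v _ = c • v _
    rw [hv.1 g h]
  · show c • v s = 0
    rw [hv.2.1 s hs, smul_zero]
  · simp only [Pi.smul_apply, smul_eq_mul, mul_assoc]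
    rw [← Finset.mul_sum, hv.2.2 θ' hθ', mul_zero]

theorem IsBlockVec.neg {p : ℕ} {e : Set (Cfsg.IrrCharacter K)} {v : K → ℂ}
    (hv : IsBlockVec p e v) : IsBlockVec p e (-v) := by
  have := hv.smul (-1)
  rwa [neg_one_smul] at this

/-- Sesquilinear expansion of the inner product of two combinations of a pair. -/
theorem classInner_pair (v1 v2 : K → ℂ) (A1 A2 B1 B2 : ℂ) :
    Cfsg.classInner (A1 • v1 + A2 • v2) (B1 • v1 + B2 • v2) =
      A1 * conj B1 * Cfsg.classInner v1 v1 + A1 * conj B2 * Cfsg.classInner v1 v2 +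
      A2 * conj B1 * Cfsg.classInner v2 v1 + A2 * conj B2 * Cfsg.classInner v2 v2 := by
  unfold Cfsg.classInner
  simp only [Pi.add_apply, Pi.smul_apply, smul_eq_mul, map_add, map_mul]
  have h : ∀ g : K, (A1 * v1 g + A2 * v2 g) * (conj B1 * conj (v1 g) + conj B2 * conj (v2 g)) =
      A1 * conj B1 * (v1 g * conj (v1 g)) + A1 * conj B2 * (v1 g * conj (v2 g)) +
      A2 * conj B1 * (v2 g * conj (v1 g)) + A2 * conj B2 * (v2 g * conj (v2 g)) :=
    fun g => by ring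
  simp only [h, Finset.sum_add_distrib, ← Finset.mul_sum]
  ring

/-- **The reduced lattice of a block of rank at most two.** -/
theorem block_lattice [Fintype (Cfsg.IrrCharacter K)] {p : ℕ} [Fact p.Prime]
    {M : Ideal Cfsg.AlgInt} (hM : Cfsg.IsPModular p M) (e : Set (Cfsg.IrrCharacter K))
    (he : Cfsg.IsPBlock M e) (hl : Cfsg.blockRank p e ≤ 2) :
    ∃ (v1 : K → ℂ) (n11 : ℤ), 0 < n11 ∧ IsBlockVec p e v1 ∧
      ((p ^ Cfsg.blockDefect p e : ℕ) : ℂ) * Cfsg.classInner v1 v1 = (n11 : ℂ) ∧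
      ((∃ x1 : Cfsg.IrrCharacter K → ℤ, ∀ θ ∈ e,
          Cfsg.pRegularPart p (θ : K → ℂ) = (x1 θ : ℂ) • v1) ∨
        (∃ (v2 : K → ℂ) (n12 n22 : ℤ) (x1 x2 : Cfsg.IrrCharacter K → ℤ),
          IsBlockVec p e v2 ∧
          ((p ^ Cfsg.blockDefect p e : ℕ) : ℂ) * Cfsg.classInner v1 v2 = (n12 : ℂ) ∧
          ((p ^ Cfsg.blockDefect p e : ℕ) : ℂ) * Cfsg.classInner v2 v2 = (n22 : ℂ) ∧
          |2 * n12| ≤ n11 ∧ n11 ≤ n22 ∧ (n11 = 1 → (p : ℤ) ∣ n22) ∧
          ∀ θ ∈ e, Cfsg.pRegularPart p (θ : K → ℂ) = (x1 θ : ℂ) • v1 + (x2 θ : ℂ) • v2)) := by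
  classical
  have hp : p.Prime := Fact.out
  have hMp := isPrime_of_isPModular hM
  set d := Cfsg.blockDefect p e with hd
  have hpd0 : ((p ^ d : ℕ) : ℂ) ≠ 0 := by exact_mod_cast (pow_pos hp.pos d).ne'
  set ip : (K → ℂ) → (K → ℂ) → ℂ := fun f g => ((p ^ d : ℕ) : ℂ) * Cfsg.classInner f g with hip
  have hK0 : (Nat.card K : ℂ) ≠ 0 := by exact_mod_cast Nat.card_pos.ne'
  have hadd : ∀ x y z, ip (x + y) z = ip x z + ip y z := by
    intro x y z
    simp only [hip, Cfsg.classInner, Pi.add_apply, add_mul, Finset.sum_add_distrib]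
    ring
  have hsmul : ∀ (c : ℂ) x z, ip (c • x) z = c * ip x z := by
    intro c x z
    simp only [hip, Cfsg.classInner, Pi.smul_apply, smul_eq_mul, mul_assoc, ← Finset.mul_sum]
    ring
  have hconj : ∀ x y, ip y x = conj (ip x y) := by
    intro x y
    simp only [hip]
    rw [map_mul, map_natCast, classInner_conj_symm]
  have hpos : ∀ x, x ≠ 0 → 0 < (ip x x).re := by
    intro x hx
    have h1 : ip x x = (((p ^ d : ℕ) : ℝ) * ((Nat.card K : ℝ)⁻¹ *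
        ∑ g : K, Complex.normSq (x g)) : ℝ) := by
      simp only [hip, Cfsg.classInner]
      push_cast
      congr 2
      refine Finset.sum_congr rfl (fun g _ => ?_)
      rw [Complex.mul_conj]
    rw [h1, Complex.ofReal_re]
    obtain ⟨g0, hg0⟩ : ∃ g, x g ≠ 0 := by
      by_contra hcon
      push Not at hcon
      exact hx (funext hcon)
    have h2 : 0 < ∑ g : K, Complex.normSq (x g) :=
      Finset.sum_pos' (fun g _ => Complex.normSq_nonneg _)
        ⟨g0, Finset.mem_univ _, Complex.normSq_pos.2 hg0⟩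
    have h3 : (0 : ℝ) < (Nat.card K : ℝ) := by exact_mod_cast Nat.card_pos
    have h4 : (0 : ℝ) < ((p ^ d : ℕ) : ℝ) := by exact_mod_cast pow_pos hp.pos d
    positivity
  have haddr : ∀ x y z, ip x (y + z) = ip x y + ip x z := by
    intro x y z
    rw [hconj (y + z) x, hadd, map_add, ← hconj, ← hconj]
  have hnegl : ∀ x z, ip (-x) z = - ip x z := by
    intro x z
    have := hsmul (-1) x z
    rwa [neg_one_smul, neg_one_mul] at this
  have hnegr : ∀ x z, ip x (-z) = - ip x z := by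
    intro x z
    rw [hconj (-z) x, hnegl, map_neg, ← hconj]
  have hzl : ∀ z, ip 0 z = 0 := by
    intro z
    have := hsmul 0 0 z
    rwa [zero_smul, zero_mul] at this
  have hzr : ∀ x, ip x 0 = 0 := by
    intro x
    rw [hconj 0 x, hzl, map_zero]
  -- generators
  set T : Cfsg.IrrCharacter K → (K → ℂ) := fun θ => Cfsg.pRegularPart p (θ : K → ℂ) with hT
  set gens : Set (K → ℂ) :=
    (fun χ : Cfsg.IrrCharacter K => Cfsg.pRegularPart p (χ : K → ℂ)) '' e with hgens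
  set L : AddSubgroup (K → ℂ) := AddSubgroup.closure gens with hL
  have hTL : ∀ θ ∈ e, T θ ∈ L := fun θ hθ => AddSubgroup.subset_closure ⟨θ, hθ, rfl⟩
  have hzex : ∀ θ : Cfsg.IrrCharacter K, ∃ z : Cfsg.IrrCharacter K → ℤ,
      (∀ θ', θ' ∉ e → z θ' = 0) ∧ (θ ∈ e → ∀ θ' : Cfsg.IrrCharacter K,
        ((p ^ d : ℕ) : ℂ) *
          Cfsg.classInner (Cfsg.pRegularPart p (θ : K → ℂ)) (θ' : K → ℂ) = (z θ' : ℂ)) := by
    intro θ
    by_cases hθ : θ ∈ e
    · obtain ⟨z, hz0, hz⟩ := exists_int_truncInner hM e he θ hθ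
      exact ⟨z, hz0, fun _ => hz⟩
    · exact ⟨fun _ => 0, fun _ _ => rfl, fun h => absurd h hθ⟩
  choose z hz0 hz using hzex
  have htrunc : ∀ f g : K → ℂ,
      Cfsg.classInner (Cfsg.pRegularPart p f) (Cfsg.pRegularPart p g) =
      Cfsg.classInner (Cfsg.pRegularPart p f) g := by
    intro f g
    unfold Cfsg.classInner
    congr 1
    refine Finset.sum_congr rfl (fun x _ => ?_)
    rw [pRegularPart_apply', pRegularPart_apply']
    by_cases h : p ∣ orderOf x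
    · simp [h]
    · simp [h]
  have hgen : ∀ θ ∈ e, ∀ θ' : Cfsg.IrrCharacter K, ip (T θ) (T θ') = (z θ θ' : ℂ) := by
    intro θ hθ θ'
    simp only [hip, hT]
    rw [htrunc]
    exact hz θ hθ θ'
  have hint : ∀ x ∈ L, ∀ y ∈ L, ∃ n : ℤ, ip x y = n := by
    intro x hx y hy
    refine AddSubgroup.closure_induction₂ (p := fun x y _ _ => ∃ n : ℤ, ip x y = n)
      ?_ ?_ ?_ ?_ ?_ ?_ ?_ hx hy
    · rintro _ _ ⟨θ, hθ, rfl⟩ ⟨θ', hθ', rfl⟩
      exact ⟨z θ θ', hgen θ hθ θ'⟩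
    · intro x _
      exact ⟨0, by rw [hzl]; simp⟩
    · intro x _
      exact ⟨0, by rw [hzr]; simp⟩
    · rintro x y z _ _ _ ⟨n, hn⟩ ⟨m, hm⟩
      exact ⟨n + m, by rw [hadd, hn, hm]; push_cast; rfl⟩
    · rintro y z x _ _ _ ⟨n, hn⟩ ⟨m, hm⟩
      exact ⟨n + m, by rw [haddr, hn, hm]; push_cast; rfl⟩
    · rintro x y _ _ ⟨n, hn⟩
      exact ⟨-n, by rw [hnegl, hn]; push_cast; rfl⟩
    · rintro x y _ _ ⟨n, hn⟩
      exact ⟨-n, by rw [hnegr, hn]; push_cast; rfl⟩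
  have hBVgen : ∀ θ ∈ e, IsBlockVec p e (T θ) := by
    intro θ hθ
    refine ⟨isClassFunction_pRegularPart p (fun g h => irr_conj_class θ g h),
      fun s hs => ?_, fun θ' hθ' => ?_⟩
    · simp only [hT]
      rw [pRegularPart_apply', if_pos hs]
    · have h1 := hz θ hθ θ'
      rw [hz0 θ θ' hθ'] at h1
      have h2 : Cfsg.classInner (Cfsg.pRegularPart p (θ : K → ℂ)) (θ' : K → ℂ) = 0 := by
        rw [Int.cast_zero] at h1
        rcases mul_eq_zero.1 h1 with h | h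
        · exact absurd h hpd0
        · exact h
      unfold Cfsg.classInner at h2
      rcases mul_eq_zero.1 h2 with h | h
      · exact absurd (inv_eq_zero.1 h) hK0
      · exact h
  have hBV : ∀ x ∈ L, IsBlockVec p e x := by
    intro x hx
    induction hx using AddSubgroup.closure_induction with
    | mem x hx =>
      obtain ⟨θ, hθ, rfl⟩ := hx
      exact hBVgen θ hθ
    | zero => exact isBlockVec_zero p e
    | add x y _ _ hx hy => exact hx.add hy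
    | neg x _ hx => exact hx.neg
  set S : Submodule ℂ (K → ℂ) := Submodule.span ℂ gens with hS
  have hLS : ∀ x ∈ L, x ∈ S := by
    intro x hx
    induction hx using AddSubgroup.closure_induction with
    | mem x hx => exact Submodule.subset_span hx
    | zero => exact S.zero_mem
    | add x y _ _ hx hy => exact S.add_mem hx hy
    | neg x _ hx => exact S.neg_mem hx
  -- degrees
  set a := (Nat.card K).factorization p with ha
  obtain ⟨hda, hdvd, hD0⟩ := degree_block_facts (p := p) e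
  set D : Cfsg.IrrCharacter K → ℕ := fun θ => Cfsg.charDegree (θ : K → ℂ) / p ^ (a - d) with hD
  set pad : ℂ := ((p ^ (a - d) : ℕ) : ℂ) with hpad_def
  have hpad : pad ≠ 0 := by
    rw [hpad_def]
    exact_mod_cast (pow_pos hp.pos (a - d)).ne'
  have hT1 : ∀ θ ∈ e, T θ 1 = pad * (D θ : ℂ) := by
    intro θ hθ
    simp only [hT]
    rw [pRegularPart_apply', if_neg (by rw [orderOf_one]; exact hp.not_dvd_one),
      (Cfsg.Agent.Lib.Helper79.irr_charDegree θ.2).1, hpad_def, ← Nat.cast_mul]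
    congr 1
    exact (Nat.mul_div_cancel' (hdvd θ hθ)).symm
  have hL4 : ∀ w ∈ L, ∃ m : ℤ, w 1 = pad * (m : ℂ) := by
    intro w hw
    induction hw using AddSubgroup.closure_induction with
    | mem x hx =>
      obtain ⟨θ, hθ, rfl⟩ := hx
      refine ⟨(D θ : ℤ), ?_⟩
      rw [Int.cast_natCast]
      exact hT1 θ hθ
    | zero => exact ⟨0, by simp⟩
    | add x y _ _ hx hy =>
      obtain ⟨m1, h1⟩ := hx
      obtain ⟨m2, h2⟩ := hy
      exact ⟨m1 + m2, by rw [Pi.add_apply, h1, h2]; push_cast; ring⟩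
    | neg x _ hx =>
      obtain ⟨m1, h1⟩ := hx
      exact ⟨-m1, by rw [Pi.neg_apply, h1]; push_cast; ring⟩
  have hL5 : ∀ ξ ∈ e, ∀ u ∈ L, ∀ w ∈ L, ∃ m : ℤ,
      ip u w * (pad * (D ξ : ℂ)) - ip u (T ξ) * w 1 = pad * ((p : ℂ) * (m : ℂ)) := by
    intro ξ hξ u hu w hw
    refine AddSubgroup.closure_induction₂ (p := fun u w _ _ => ∃ m : ℤ,
      ip u w * (pad * (D ξ : ℂ)) - ip u (T ξ) * w 1 = pad * ((p : ℂ) * (m : ℂ)))
      ?_ ?_ ?_ ?_ ?_ ?_ ?_ hu hw
    · rintro _ _ ⟨θ, hθ, rfl⟩ ⟨θ', hθ', rfl⟩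
      obtain ⟨m, hm⟩ := trunc_rank_one hM e he z (fun θ hθ θ' => hz θ hθ θ') θ θ' ξ hθ hθ' hξ
      refine ⟨m, ?_⟩
      have e1 := hgen θ hθ θ'
      have e2 := hgen θ hθ ξ
      have e3 := hT1 θ' hθ'
      have hm' : ((z θ θ' * (D ξ : ℤ) - z θ ξ * (D θ' : ℤ) : ℤ) : ℂ) =
          (((p : ℤ) * m : ℤ) : ℂ) := by
        rw [← hm]
      push_cast at hm'
      show ip (T θ) (T θ') * (pad * (D ξ : ℂ)) - ip (T θ) (T ξ) * T θ' 1 =
        pad * ((p : ℂ) * (m : ℂ))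
      rw [e1, e2, e3]
      linear_combination pad * hm'
    · intro w _
      exact ⟨0, by rw [hzl, hzl]; simp⟩
    · intro u _
      exact ⟨0, by rw [hzr]; simp⟩
    · rintro u u' w _ _ _ ⟨m1, h1⟩ ⟨m2, h2⟩
      exact ⟨m1 + m2, by rw [hadd, hadd]; push_cast; linear_combination h1 + h2⟩
    · rintro w w' u _ _ _ ⟨m1, h1⟩ ⟨m2, h2⟩
      exact ⟨m1 + m2, by rw [haddr, Pi.add_apply]; push_cast; linear_combination h1 + h2⟩
    · rintro u w _ _ ⟨m1, h1⟩
      exact ⟨-m1, by rw [hnegl, hnegl]; push_cast; linear_combination -h1⟩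
    · rintro u w _ _ ⟨m1, h1⟩
      exact ⟨-m1, by rw [hnegr, Pi.neg_apply]; push_cast; linear_combination -h1⟩
  have hne : ∃ x ∈ L, x ≠ 0 := by
    obtain ⟨ξ, hξ⟩ := IsPBlock.nonempty hMp he
    refine ⟨T ξ, hTL ξ hξ, fun h => ?_⟩
    have h1 := hT1 ξ hξ
    rw [h] at h1
    have hDpos : 0 < D ξ := by
      have h2 := Nat.mul_div_cancel' (hdvd ξ hξ)
      have h3 := (Cfsg.Agent.Lib.Helper79.irr_charDegree ξ.2).2.1
      rcases Nat.eq_zero_or_pos (D ξ) with h0 | h0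
      · exfalso
        simp only [hD] at h0
        rw [h0, mul_zero] at h2
        omega
      · exact h0
    have h4 : pad * (D ξ : ℂ) ≠ 0 := mul_ne_zero hpad (by exact_mod_cast hDpos.ne')
    exact h4 (by rw [← h1]; rfl)
  obtain ⟨v1, hv1L, n11, hn11, hip11, hv1ne, hline, hplane⟩ :=
    lattice_reduce ip hadd hsmul hconj hpos L hint hne
  refine ⟨v1, n11, hn11, hBV v1 hv1L, hip11, ?_⟩
  by_cases hall : ∃ w ∈ L, ¬ ∃ c : ℂ, w = c • v1
  · right
    obtain ⟨v2, hv2L, n12, n22, hip12, hip22, hred1, hred2, hv2ind, hcoord⟩ := hplane hall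
    have hli : LinearIndependent ℂ ![v1, v2] := by
      rw [LinearIndependent.pair_iff]
      intro s t hst
      by_cases ht : t = 0
      · subst ht
        rw [zero_smul, add_zero] at hst
        exact ⟨(smul_eq_zero.1 hst).resolve_right hv1ne, rfl⟩
      · exfalso
        apply hv2ind
        refine ⟨-(t⁻¹ * s), ?_⟩
        have h1 : t • v2 = -(s • v1) := eq_neg_of_add_eq_zero_right hst
        calc v2 = t⁻¹ • (t • v2) := by rw [smul_smul, inv_mul_cancel₀ ht, one_smul]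
          _ = t⁻¹ • (-(s • v1)) := by rw [h1]
          _ = -(t⁻¹ * s) • v1 := by rw [smul_neg, smul_smul, neg_smul]
    have hspan : ∀ w ∈ L, ∃ a b : ℂ, w = a • v1 + b • v2 := by
      intro w hw
      have hle : Submodule.span ℂ (Set.range ![v1, v2]) ≤ S := by
        rw [Submodule.span_le]
        rintro _ ⟨i, rfl⟩
        fin_cases i
        · exact hLS v1 hv1L
        · exact hLS v2 hv2L
      have hfr : Module.finrank ℂ (Submodule.span ℂ (Set.range ![v1, v2])) = 2 := by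
        rw [finrank_span_eq_card hli]
        simp
      have hS2 : Module.finrank ℂ S ≤ 2 := hl
      have heq : Submodule.span ℂ (Set.range ![v1, v2]) = S :=
        Submodule.eq_of_le_of_finrank_le hle (by rw [hfr]; exact hS2)
      have hwS : w ∈ Submodule.span ℂ (Set.range ![v1, v2]) := by
        rw [heq]
        exact hLS w hw
      rw [Matrix.range_cons_cons_empty, Submodule.mem_span_pair] at hwS
      obtain ⟨a, b, hab⟩ := hwS
      exact ⟨a, b, hab.symm⟩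
    have hx : ∀ θ : Cfsg.IrrCharacter K, ∃ x y : ℤ,
        θ ∈ e → T θ = (x : ℂ) • v1 + (y : ℂ) • v2 := by
      intro θ
      by_cases hθ : θ ∈ e
      · obtain ⟨x, y, hxy⟩ := hcoord (T θ) (hTL θ hθ) (hspan _ (hTL θ hθ))
        exact ⟨x, y, fun _ => hxy⟩
      · exact ⟨0, 0, fun h => absurd h hθ⟩
    choose x1 x2 hx12 using hx
    refine ⟨v2, n12, n22, x1, x2, hBV v2 hv2L, hip12, hip22, hred1, hred2, ?_,
      fun θ hθ => hx12 θ hθ⟩
    intro h11
    obtain ⟨ξ, hξ, hξ0⟩ := exists_height_zero p e (IsPBlock.nonempty hMp he)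
    have hDξ : ¬ p ∣ D ξ := hD0 ξ hξ hξ0
    have hn12 : n12 = 0 := by
      rw [h11] at hred1
      have := abs_le.1 hred1
      omega
    obtain ⟨P1, hP1⟩ := hint v1 hv1L (T ξ) (hTL ξ hξ)
    obtain ⟨P2, hP2⟩ := hint v2 hv2L (T ξ) (hTL ξ hξ)
    obtain ⟨δ1, hδ1⟩ := hL4 v1 hv1L
    obtain ⟨δ2, hδ2⟩ := hL4 v2 hv2L
    obtain ⟨m11, h11'⟩ := hL5 ξ hξ v1 hv1L v1 hv1L
    obtain ⟨m12, h12'⟩ := hL5 ξ hξ v1 hv1L v2 hv2L
    obtain ⟨m22, h22'⟩ := hL5 ξ hξ v2 hv2L v2 hv2L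
    rw [hip11, hP1, hδ1] at h11'
    rw [hip12, hP1, hδ2] at h12'
    rw [hip22, hP2, hδ2] at h22'
    have i11 : n11 * (D ξ : ℤ) - P1 * δ1 = (p : ℤ) * m11 := by
      have h : pad * ((n11 : ℂ) * (D ξ : ℂ) - (P1 : ℂ) * (δ1 : ℂ)) =
          pad * ((p : ℂ) * (m11 : ℂ)) := by linear_combination h11'
      have h' := mul_left_cancel₀ hpad h
      exact_mod_cast h'
    have i12 : n12 * (D ξ : ℤ) - P1 * δ2 = (p : ℤ) * m12 := by
      have h : pad * ((n12 : ℂ) * (D ξ : ℂ) - (P1 : ℂ) * (δ2 : ℂ)) =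
          pad * ((p : ℂ) * (m12 : ℂ)) := by linear_combination h12'
      have h' := mul_left_cancel₀ hpad h
      exact_mod_cast h'
    have i22 : n22 * (D ξ : ℤ) - P2 * δ2 = (p : ℤ) * m22 := by
      have h : pad * ((n22 : ℂ) * (D ξ : ℂ) - (P2 : ℂ) * (δ2 : ℂ)) =
          pad * ((p : ℂ) * (m22 : ℂ)) := by linear_combination h22'
      have h' := mul_left_cancel₀ hpad h
      exact_mod_cast h'
    have hpZ : Prime (p : ℤ) := Nat.prime_iff_prime_int.mp hp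
    have hDξZ : ¬ (p : ℤ) ∣ (D ξ : ℤ) := by rwa [Int.natCast_dvd_natCast]
    rw [h11, one_mul] at i11
    have hP1nd : ¬ (p : ℤ) ∣ P1 := by
      intro h
      apply hDξZ
      have h' : (D ξ : ℤ) = P1 * δ1 + (p : ℤ) * m11 := by linarith
      rw [h']
      exact dvd_add (Dvd.dvd.mul_right h _) (dvd_mul_right _ _)
    rw [hn12, zero_mul, zero_sub] at i12
    have hδ2d : (p : ℤ) ∣ δ2 := by
      have h' : (p : ℤ) ∣ P1 * δ2 := ⟨-m12, by linarith⟩
      exact (hpZ.dvd_or_dvd h').resolve_left hP1nd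
    have hfin : (p : ℤ) ∣ n22 * (D ξ : ℤ) := by
      have h' : n22 * (D ξ : ℤ) = P2 * δ2 + (p : ℤ) * m22 := by linarith
      rw [h']
      exact dvd_add (Dvd.dvd.mul_left hδ2d _) (dvd_mul_right _ _)
    exact (hpZ.dvd_or_dvd hfin).resolve_right hDξZ
  · left
    push Not at hall
    have hx : ∀ θ : Cfsg.IrrCharacter K, ∃ x : ℤ, θ ∈ e → T θ = (x : ℂ) • v1 := by
      intro θ
      by_cases hθ : θ ∈ e
      · obtain ⟨x, hx⟩ := hline (T θ) (hTL θ hθ) (hall _ (hTL θ hθ))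
        exact ⟨x, fun _ => hx⟩
      · exact ⟨0, fun h => absurd h hθ⟩
    choose x1 hx1 using hx
    exact ⟨x1, fun θ hθ => hx1 θ hθ⟩

end GenericL

end Cfsg.Agent.Lib.Helper76
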