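import Mathlib
import Cfsg.Prelude.Def_Blocks
import Cfsg.Agent.Lib.Helper76.LatData
import Cfsg.Agent.Lib.Helper76.Count2

/-!
# Major subsections of rank at most two

If `(y, e)` is a subsection of the block `B` with `d(e) = d(B)` and the block `e` has `p`-regular
rank at most two, then `k(B) ≤ p ^ d(B)`.
-/

set_option autoImplicit false

namespace Cfsg.Agent.Lib.Helper76

open Cfsg Cfsg.Agent.Lib.Helper16 Cfsg.Agent.Lib.Helper26 Cfsg.Agent.Lib.Helper78
  Cfsg.Agent.Lib.Helper81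
open scoped ComplexConjugate

theorem mem_unitExps (p k j : ℕ) : j ∈ unitExps p k ↔ j < p ^ k ∧ Nat.Coprime j (p ^ k) := by
  unfold unitExps
  rw [Finset.mem_filter, Finset.mem_range]

/-- Local integrality of the cyclotomic sums and of their conjugates. -/
theorem cyc_local {p : ℕ} {M : Ideal Cfsg.AlgInt} (hM : Cfsg.IsPModular p M) (k : ℕ)
    {ι : Type*} (s : Finset ι) (ω : ι → ℂ) (hω : ∀ i ∈ s, ω i ^ (p ^ k) = 1) (c : ι → ℤ)
    (j : ℕ) :
    MemLocalRing M (cyc s ω c j) ∧ MemLocalRing M (conj (cyc s ω c j)) ∧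
      (MemLocalIdeal M (cyc s ω c j) ↔ (p : ℤ) ∣ ∑ i ∈ s, c i) ∧
      (MemLocalIdeal M (conj (cyc s ω c j)) ↔ (p : ℤ) ∣ ∑ i ∈ s, c i) := by
  have h1 := memLocalIdeal_cyclo_iff hM k s c (fun i => ω i ^ j)
    (fun i hi => by rw [← pow_mul, mul_comm, pow_mul, hω i hi, one_pow])
  have h2 := memLocalIdeal_cyclo_iff hM k s c (fun i => (conj (ω i)) ^ j)
    (fun i hi => by rw [← pow_mul, mul_comm, pow_mul, ← map_pow, hω i hi, map_one, one_pow])
  rw [← cyc_conj]
  exact ⟨h1.1, h2.1, h1.2, h2.2⟩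

variable {G : Type*} [Group G] [Fintype G]

/-- Parseval's identity in the coordinates of a pair of block vectors. -/
theorem parseval_coords [Fintype (Cfsg.IrrCharacter G)] {p : ℕ} [Fact p.Prime]
    {M : Ideal Cfsg.AlgInt} (hM : Cfsg.IsPModular p M) (B : Set (Cfsg.IrrCharacter G))
    [DecidablePred (· ∈ B)] (u : G) (hu : ∃ k : ℕ, orderOf u = p ^ k) (C : Subgroup G)
    (hC : ∀ g : G, g ∈ C ↔ g * u = u * g) (e : Set (Cfsg.IrrCharacter C))
    (hind : Cfsg.IsInducedBlock M C e B) :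
    letI : Fintype C := Fintype.ofFinite C
    ∀ (v1 v2 : C → ℂ), IsBlockVec p e v1 → IsBlockVec p e v2 → ∀ (n11 n12 n22 : ℤ),
      ((p ^ Cfsg.blockDefect p e : ℕ) : ℂ) * Cfsg.classInner v1 v1 = (n11 : ℂ) →
      ((p ^ Cfsg.blockDefect p e : ℕ) : ℂ) * Cfsg.classInner v1 v2 = (n12 : ℂ) →
      ((p ^ Cfsg.blockDefect p e : ℕ) : ℂ) * Cfsg.classInner v2 v2 = (n22 : ℂ) →
      ∀ (R1 R2 : Cfsg.IrrCharacter G → ℂ),
      (∀ χ ∈ B, vsec p C e u (χ : G → ℂ) = R1 χ • v1 + R2 χ • v2) → ∀ (a1 a2 : ℤ),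
      ∑ χ ∈ Finset.univ.filter (· ∈ B), Complex.normSq
          (R1 χ * ((a1 * n11 + a2 * n12 : ℤ) : ℂ) + R2 χ * ((a1 * n12 + a2 * n22 : ℤ) : ℂ)) =
        ((p ^ Cfsg.blockDefect p e : ℕ) : ℝ) *
          ((a1 ^ 2 * n11 + 2 * a1 * a2 * n12 + a2 ^ 2 * n22 : ℤ) : ℝ) := by
  classical
  letI : Fintype C := Fintype.ofFinite C
  intro v1 v2 hv1 hv2 n11 n12 n22 h11 h12 h22 R1 R2 hR a1 a2
  have hp : p.Prime := Fact.out
  set d := Cfsg.blockDefect p e with hd
  have h21 : ((p ^ d : ℕ) : ℂ) * Cfsg.classInner v2 v1 = (n12 : ℂ) := by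
    have h := congrArg (starRingEnd ℂ) h12
    rw [map_mul, map_natCast, map_intCast, classInner_conj_symm] at h
    exact h
  set w : C → ℂ := (a1 : ℂ) • v1 + (a2 : ℂ) • v2 with hw
  have hwBV : IsBlockVec p e w := (hv1.smul _).add (hv2.smul _)
  have hpars := frame_parseval hM B u hu C hC e hind w hwBV.1 hwBV.2.1 hwBV.2.2
  have hin : ∀ χ ∈ B, ((p ^ d : ℕ) : ℂ) * Cfsg.classInner (vsec p C e u (χ : G → ℂ)) w =
      R1 χ * ((a1 * n11 + a2 * n12 : ℤ) : ℂ) + R2 χ * ((a1 * n12 + a2 * n22 : ℤ) : ℂ) := by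
    intro χ hχ
    rw [hR χ hχ, hw, classInner_pair]
    simp only [map_intCast, Int.cast_add, Int.cast_mul]
    linear_combination (R1 χ * a1) * h11 + (R1 χ * a2) * h12 + (R2 χ * a1) * h21 +
      (R2 χ * a2) * h22
  have hww : ((p ^ d : ℕ) : ℂ) * Cfsg.classInner w w =
      ((a1 ^ 2 * n11 + 2 * a1 * a2 * n12 + a2 ^ 2 * n22 : ℤ) : ℂ) := by
    rw [hw, classInner_pair]
    simp only [map_intCast, Int.cast_add, Int.cast_mul, Int.cast_pow, Int.cast_ofNat]
    linear_combination ((a1 : ℂ) * a1) * h11 + ((a1 : ℂ) * a2) * h12 + ((a2 : ℂ) * a1) * h21 +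
      ((a2 : ℂ) * a2) * h22
  have hterm : ∀ χ ∈ Finset.univ.filter (· ∈ B), Complex.normSq
      (R1 χ * ((a1 * n11 + a2 * n12 : ℤ) : ℂ) + R2 χ * ((a1 * n12 + a2 * n22 : ℤ) : ℂ)) =
      ((p ^ d : ℕ) : ℝ) ^ 2 *
        Complex.normSq (Cfsg.classInner (vsec p C e u (χ : G → ℂ)) w) := by
    intro χ hχ
    rw [← hin χ (Finset.mem_filter.1 hχ).2, Complex.normSq_mul, Complex.normSq_natCast]
    ring
  rw [Finset.sum_congr rfl hterm, ← Finset.mul_sum]
  apply Complex.ofReal_injective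
  rw [Complex.ofReal_mul, Complex.ofReal_mul, Complex.ofReal_pow, Complex.ofReal_sum, hpars,
    Complex.ofReal_natCast, Complex.ofReal_intCast, ← hww]
  ring

/-- **Major subsections of rank at most two.** -/
theorem major_rank_two [Fintype (Cfsg.IrrCharacter G)] {p : ℕ} [Fact p.Prime]
    {M : Ideal Cfsg.AlgInt} (hM : Cfsg.IsPModular p M) (B : Set (Cfsg.IrrCharacter G))
    [DecidablePred (· ∈ B)] (y : G) (k : ℕ) (hk : orderOf y = p ^ k) (C : Subgroup G)
    (hC : ∀ g : G, g ∈ C ↔ g * y = y * g) (e : Set (Cfsg.IrrCharacter C))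
    (hind : Cfsg.IsInducedBlock M C e B)
    (hdef : Cfsg.blockDefect p e = Cfsg.blockDefect p B)
    (hl : Cfsg.blockRank p e ≤ 2) :
    (Finset.univ.filter (· ∈ B)).card ≤ p ^ Cfsg.blockDefect p B := by
  classical
  have hp : p.Prime := Fact.out
  have hMp := isPrime_of_isPModular hM
  letI : Fintype C := Fintype.ofFinite _
  letI : Fintype (Cfsg.IrrCharacter C) := @Fintype.ofFinite _ (irr_finite _)
  have hBfmem : ∀ χ, χ ∈ Finset.univ.filter (· ∈ B) ↔ χ ∈ B := by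
    intro χ
    simp
  have hjf : ∀ j ∈ unitExps p k, orderOf (y ^ j) = p ^ k ∧
      ∀ g : G, g ∈ C ↔ g * y ^ j = y ^ j * g :=
    fun j hj => centralizer_pow_coprime y (p ^ k) hk C hC j ((mem_unitExps p k j).1 hj).2
  obtain ⟨j0, hj0⟩ := unitExps_nonempty hp k
  obtain ⟨ω, hω, hexp⟩ := vsec_expansion hp y k hk C hC e
  choose nn hnn hvs using hexp
  obtain ⟨v1, n11, hn11, hBV1, hip11, hcases⟩ := block_lattice hM e hind.1 hl
  obtain ⟨ψ0, hψ0, hψ0h⟩ := exists_height_zero p B (IsPBlock.nonempty hMp hind.2.1)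
  have hvne : ∀ χ ∈ B, ∀ j ∈ unitExps p k, vsec p C e (y ^ j) (χ : G → ℂ) ≠ 0 := by
    intro χ hχ j hj h0
    obtain ⟨ho, hCj⟩ := hjf j hj
    have h1 := (major_nonvanishing hM B (y ^ j) k ho C hCj e hind hdef ψ0 χ hψ0 hχ hψ0h).1
    rw [contrib_eq_inner hM (y ^ j) C hCj e hind.1 ψ0 χ, h0] at h1
    apply h1
    simp [Cfsg.classInner]
  -- the general coordinate facts
  have key : ∀ (v2 : C → ℂ) (n12 n22 : ℤ) (x1 x2 : Cfsg.IrrCharacter C → ℤ),
      IsBlockVec p e v2 →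
      ((p ^ Cfsg.blockDefect p e : ℕ) : ℂ) * Cfsg.classInner v1 v2 = (n12 : ℂ) →
      ((p ^ Cfsg.blockDefect p e : ℕ) : ℂ) * Cfsg.classInner v2 v2 = (n22 : ℂ) →
      (∀ θ ∈ e, Cfsg.pRegularPart p (θ : C → ℂ) = (x1 θ : ℂ) • v1 + (x2 θ : ℂ) • v2) →
      (∀ j ∈ unitExps p k, ∀ a1 a2 : ℤ, ∑ χ ∈ Finset.univ.filter (· ∈ B), Complex.normSq
          (cyc Finset.univ ω (fun θ => if θ ∈ e then (nn χ θ : ℤ) * x1 θ else 0) j *
              ((a1 * n11 + a2 * n12 : ℤ) : ℂ) +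
            cyc Finset.univ ω (fun θ => if θ ∈ e then (nn χ θ : ℤ) * x2 θ else 0) j *
              ((a1 * n12 + a2 * n22 : ℤ) : ℂ)) =
        ((p ^ Cfsg.blockDefect p e : ℕ) : ℝ) *
          ((a1 ^ 2 * n11 + 2 * a1 * a2 * n12 + a2 ^ 2 * n22 : ℤ) : ℝ)) ∧
      (∀ χ ∈ Finset.univ.filter (· ∈ B), ∀ j ∈ unitExps p k,
        ¬ (cyc Finset.univ ω (fun θ => if θ ∈ e then (nn χ θ : ℤ) * x1 θ else 0) j = 0 ∧
          cyc Finset.univ ω (fun θ => if θ ∈ e then (nn χ θ : ℤ) * x2 θ else 0) j = 0)) ∧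
      (∀ (ψ χ : Cfsg.IrrCharacter G) (j : ℕ), (∀ g : G, g ∈ C ↔ g * y ^ j = y ^ j * g) →
        ((p ^ Cfsg.blockDefect p e : ℕ) : ℂ) *
          contrib p C e (y ^ j) (ψ : G → ℂ) (χ : G → ℂ) =
        (n11 : ℂ) * (cyc Finset.univ ω (fun θ => if θ ∈ e then (nn ψ θ : ℤ) * x1 θ else 0) j *
          conj (cyc Finset.univ ω (fun θ => if θ ∈ e then (nn χ θ : ℤ) * x1 θ else 0) j)) +
        (n12 : ℂ) * (cyc Finset.univ ω (fun θ => if θ ∈ e then (nn ψ θ : ℤ) * x1 θ else 0) j *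
          conj (cyc Finset.univ ω (fun θ => if θ ∈ e then (nn χ θ : ℤ) * x2 θ else 0) j) +
          cyc Finset.univ ω (fun θ => if θ ∈ e then (nn ψ θ : ℤ) * x2 θ else 0) j *
          conj (cyc Finset.univ ω (fun θ => if θ ∈ e then (nn χ θ : ℤ) * x1 θ else 0) j)) +
        (n22 : ℂ) * (cyc Finset.univ ω (fun θ => if θ ∈ e then (nn ψ θ : ℤ) * x2 θ else 0) j *
          conj (cyc Finset.univ ω (fun θ => if θ ∈ e then (nn χ θ : ℤ) * x2 θ else 0) j))) := by
    intro v2 n12 n22 x1 x2 hBV2 hip12 hip22 hx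
    have h21 : ((p ^ Cfsg.blockDefect p e : ℕ) : ℂ) * Cfsg.classInner v2 v1 = (n12 : ℂ) := by
      have h := congrArg (starRingEnd ℂ) hip12
      rw [map_mul, map_natCast, map_intCast, classInner_conj_symm] at h
      exact h
    have hcoord : ∀ (χ : Cfsg.IrrCharacter G) (j : ℕ), vsec p C e (y ^ j) (χ : G → ℂ) =
        cyc Finset.univ ω (fun θ => if θ ∈ e then (nn χ θ : ℤ) * x1 θ else 0) j • v1 +
        cyc Finset.univ ω (fun θ => if θ ∈ e then (nn χ θ : ℤ) * x2 θ else 0) j • v2 := by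
      intro χ j
      funext s
      rw [hvs χ j s]
      simp only [Pi.add_apply, Pi.smul_apply, smul_eq_mul, cyc]
      rw [Finset.sum_mul, Finset.sum_mul, ← Finset.sum_add_distrib]
      refine Finset.sum_congr rfl (fun θ _ => ?_)
      by_cases hθ : θ ∈ e
      · have h := congrFun (hx θ hθ) s
        simp only [Pi.add_apply, Pi.smul_apply, smul_eq_mul] at h
        simp only [if_pos hθ]
        rw [h]
        push_cast
        ring
      · simp [hθ]
    refine ⟨?_, ?_, ?_⟩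
    · intro j hj a1 a2
      obtain ⟨ho, hCj⟩ := hjf j hj
      exact parseval_coords hM B (y ^ j) ⟨k, ho⟩ C hCj e hind v1 v2 hBV1 hBV2 n11 n12 n22
        hip11 hip12 hip22 _ _ (fun χ _ => hcoord χ j) a1 a2
    · rintro χ hχ j hj ⟨h1, h2⟩
      apply hvne χ ((hBfmem χ).1 hχ) j hj
      rw [hcoord χ j, h1, h2]
      simp
    · intro ψ χ j hCj
      rw [contrib_eq_inner hM (y ^ j) C hCj e hind.1 ψ χ, hcoord ψ j, hcoord χ j,
        classInner_pair]
      linear_combination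
        (cyc Finset.univ ω (fun θ => if θ ∈ e then (nn ψ θ : ℤ) * x1 θ else 0) j *
          conj (cyc Finset.univ ω (fun θ => if θ ∈ e then (nn χ θ : ℤ) * x1 θ else 0) j)) * hip11 +
        (cyc Finset.univ ω (fun θ => if θ ∈ e then (nn ψ θ : ℤ) * x1 θ else 0) j *
          conj (cyc Finset.univ ω (fun θ => if θ ∈ e then (nn χ θ : ℤ) * x2 θ else 0) j)) * hip12 +
        (cyc Finset.univ ω (fun θ => if θ ∈ e then (nn ψ θ : ℤ) * x2 θ else 0) j *
          conj (cyc Finset.univ ω (fun θ => if θ ∈ e then (nn χ θ : ℤ) * x1 θ else 0) j)) * h21 +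
        (cyc Finset.univ ω (fun θ => if θ ∈ e then (nn ψ θ : ℤ) * x2 θ else 0) j *
          conj (cyc Finset.univ ω (fun θ => if θ ∈ e then (nn χ θ : ℤ) * x2 θ else 0) j)) * hip22
  have hωs : ∀ θ ∈ (Finset.univ : Finset (Cfsg.IrrCharacter C)), ω θ ^ (p ^ k) = 1 :=
    fun θ _ => hω θ
  rw [← hdef]
  rcases hcases with ⟨x1, hx1⟩ | ⟨v2, n12, n22, x1, x2, hBV2, hip12, hip22, hr1, hr2, hbad, hx⟩
  · -- rank one
    obtain ⟨K1, K2, -⟩ := key 0 0 0 x1 (fun _ => 0) (isBlockVec_zero p e)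
      (by simp [Cfsg.classInner]) (by simp [Cfsg.classInner])
      (fun θ hθ => by rw [hx1 θ hθ]; simp)
    have hR2 : ∀ (χ : Cfsg.IrrCharacter G) (j : ℕ),
        cyc Finset.univ ω (fun θ => if θ ∈ e then (nn χ θ : ℤ) * (0 : ℤ) else 0) j = 0 := by
      intro χ j
      simp [cyc]
    refine count_rank_one hp k _ Finset.univ ω hωs
      (fun χ θ => if θ ∈ e then (nn χ θ : ℤ) * x1 θ else 0) n11 hn11 _ ?_ ?_
    · intro j hj
      have h := K1 j hj 1 0
      simp only [add_zero, one_mul, mul_zero, Int.cast_zero,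
        Complex.normSq_mul, Complex.normSq_intCast] at h
      rw [← Finset.sum_mul] at h
      have hn0 : (n11 : ℝ) ≠ 0 := by exact_mod_cast hn11.ne'
      apply mul_left_cancel₀ hn0
      push_cast at h ⊢
      linear_combination h
    · intro χ hχ
      refine ⟨j0, hj0, fun h => ?_⟩
      exact K2 χ hχ j0 hj0 ⟨h, hR2 χ j0⟩
  · obtain ⟨K1, K2, K3⟩ := key v2 n12 n22 x1 x2 hBV2 hip12 hip22 hx
    by_cases hgood : 2 ≤ n11
    · exact count_rank_two_good hp k _ Finset.univ ω hωs _ _ n11 n12 n22 hr1 hr2 hgood _ K1 K2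
    · -- the form x^2 + n y^2
      have h11 : n11 = 1 := by omega
      have hpn := hbad h11
      have hn12 : n12 = 0 := by
        rw [h11] at hr1
        have := abs_le.1 hr1
        omega
      subst h11
      subst hn12
      have hn22pos : 0 < n22 := by omega
      have hn22p : (p : ℤ) ≤ n22 := Int.le_of_dvd hn22pos hpn
      have hn22two : 2 ≤ n22 := by
        have : (2 : ℤ) ≤ (p : ℤ) := by exact_mod_cast hp.two_le
        omega
      have hC1 : ∀ g : G, g ∈ C ↔ g * y ^ 1 = y ^ 1 * g := by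
        intro g
        rw [pow_one]
        exact hC g
      have hnI : MemLocalIdeal M (n22 : ℂ) := memLocalIdeal_intCast_of_dvd hM n22 hpn
      -- local facts on the coordinates
      have hloc : ∀ (χ : Cfsg.IrrCharacter G) (x : Cfsg.IrrCharacter C → ℤ) (j : ℕ),
          MemLocalRing M (cyc Finset.univ ω
            (fun θ => if θ ∈ e then (nn χ θ : ℤ) * x θ else 0) j) ∧
          MemLocalRing M (conj (cyc Finset.univ ω
            (fun θ => if θ ∈ e then (nn χ θ : ℤ) * x θ else 0) j)) ∧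
          (MemLocalIdeal M (cyc Finset.univ ω
            (fun θ => if θ ∈ e then (nn χ θ : ℤ) * x θ else 0) j) ↔
            (p : ℤ) ∣ ∑ θ, (if θ ∈ e then (nn χ θ : ℤ) * x θ else 0)) ∧
          (MemLocalIdeal M (conj (cyc Finset.univ ω
            (fun θ => if θ ∈ e then (nn χ θ : ℤ) * x θ else 0) j)) ↔
            (p : ℤ) ∣ ∑ θ, (if θ ∈ e then (nn χ θ : ℤ) * x θ else 0)) :=
        fun χ x j => cyc_local hM k Finset.univ ω hωs _ j
      have hsecond : ∀ (ψ χ : Cfsg.IrrCharacter G) (j : ℕ), MemLocalIdeal M ((n22 : ℂ) *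
          (cyc Finset.univ ω (fun θ => if θ ∈ e then (nn ψ θ : ℤ) * x2 θ else 0) j *
          conj (cyc Finset.univ ω (fun θ => if θ ∈ e then (nn χ θ : ℤ) * x2 θ else 0) j))) :=
        fun ψ χ j => memLocalIdeal_mul_right hMp hnI
          (memLocalRing_mul hMp (hloc ψ x2 j).1 (hloc χ x2 j).2.1)
      -- height zero characters have a unit first coordinate
      have hunit0 : ∀ χ ∈ B, Cfsg.blockHeight p B (χ : G → ℂ) = 0 →
          ¬ (p : ℤ) ∣ ∑ θ, (if θ ∈ e then (nn χ θ : ℤ) * x1 θ else 0) := by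
        intro χ hχ h0 hdvd
        have hu := contrib_unit hM B y k hk C hC e hind χ χ hχ hχ h0 h0
        have h3 := K3 χ χ 1 hC1
        rw [pow_one] at h3
        apply hu
        rw [h3]
        simp only [Int.cast_one, one_mul, Int.cast_zero, zero_mul, add_zero]
        exact memLocalIdeal_add hMp
          (memLocalIdeal_mul_right hMp ((hloc χ x1 1).2.2.1.2 hdvd) (hloc χ x1 1).2.1)
          (hsecond χ χ 1)
      refine count_rank_two_bad hp k _
        (fun χ : Cfsg.IrrCharacter G => Cfsg.blockHeight p B (χ : G → ℂ) = 0)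
        Finset.univ ω hωs (fun χ θ => if θ ∈ e then (nn χ θ : ℤ) * x1 θ else 0)
        (fun χ θ => if θ ∈ e then (nn χ θ : ℤ) * x2 θ else 0) n22 hn22two _ ?_ ?_ ?_ ?_ ?_ ?_
      · intro j hj
        have h := K1 j hj 1 0
        simpa using h
      · intro j hj
        have h := K1 j hj 0 1
        simp only [zero_mul, mul_zero, add_zero, zero_add, one_mul, Int.cast_zero,
          Complex.normSq_mul, Complex.normSq_intCast] at h
        rw [← Finset.sum_mul] at h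
        have hn0 : (n22 : ℝ) ≠ 0 := by exact_mod_cast hn22pos.ne'
        apply mul_left_cancel₀ hn0
        push_cast at h ⊢
        linear_combination h
      · intro χ hχ h0
        refine ⟨j0, hj0, fun h => ?_⟩
        apply hunit0 χ ((hBfmem χ).1 hχ) h0
        apply (hloc χ x1 j0).2.2.1.1
        rw [h]
        exact memLocalIdeal_zero hMp
      · intro χ hχ hne
        have hχB := (hBfmem χ).1 hχ
        have hmem := (major_nonvanishing hM B y k hk C hC e hind hdef ψ0 χ hψ0 hχB hψ0h).2 hne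
        rw [← hdef] at hmem
        have h3 := K3 ψ0 χ 1 hC1
        rw [pow_one] at h3
        rw [h3] at hmem
        simp only [Int.cast_one, one_mul, Int.cast_zero, zero_mul, add_zero] at hmem
        have h4 := memLocalIdeal_sub hMp hmem (hsecond ψ0 χ 1)
        rw [add_sub_cancel_right] at h4
        rcases memLocalIdeal_or_of_mul hMp (hloc ψ0 x1 1).1 (hloc χ x1 1).2.1 h4 with h | h
        · exact absurd ((hloc ψ0 x1 1).2.2.1.1 h) (hunit0 ψ0 hψ0 hψ0h)
        · exact (hloc χ x1 1).2.2.2.1 h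
      · intro χ hχ j hj h1 h2
        exact K2 χ hχ j hj ⟨h1, h2⟩
      · intro ψ hψ h0 χ hχ j hj h1 h2
        obtain ⟨ho, hCj⟩ := hjf j hj
        have hψB := (hBfmem ψ).1 hψ
        have hχB := (hBfmem χ).1 hχ
        have hnv := (major_nonvanishing hM B (y ^ j) k ho C hCj e hind hdef ψ χ hψB hχB h0).1
        have h3 := K3 ψ χ j hCj
        rw [h1, h2] at h3
        simp only [map_zero, mul_zero, zero_mul, add_zero, zero_add, Int.cast_zero] at h3
        have hpd0 : ((p ^ Cfsg.blockDefect p e : ℕ) : ℂ) ≠ 0 := by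
          exact_mod_cast (pow_pos hp.pos _).ne'
        rcases mul_eq_zero.1 h3 with h | h
        · exact hpd0 h
        · exact hnv h

end Cfsg.Agent.Lib.Helper76
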